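import Cfsg.Agent.NDD.Defs
import Cfsg.Agent.Char.FullyRam
import Cfsg.Agent.Char.OrbitCount

/-!
# Basic facts on the top of the group
-/

set_option autoImplicit false
set_option linter.unusedSectionVars false
set_option linter.unusedVariables false

namespace Cfsg.Lib.NDD

open Subgroup Cfsg.Lib.Char Cfsg.Lib.Char.Deg Module
open scoped commutatorElement

universe u

variable {G : Type u} [Group G] [Finite G] {p : ℕ}

theorem mk_mem_map {Y H : Subgroup G} [Y.Normal] (h : Y ≤ H) {x : G} :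
    (QuotientGroup.mk' Y) x ∈ H.map (QuotientGroup.mk' Y) ↔ x ∈ H := by
  rw [← Subgroup.mem_comap, Subgroup.comap_map_eq, QuotientGroup.ker_mk', sup_eq_left.2 h]

theorem comm_mem_left {H : Type*} [Group H] {N : Subgroup H} [hN : N.Normal] {x : H} (hx : x ∈ N)
    (g : H) : ⁅x, g⁆ ∈ N := by
  have := N.mul_mem hx (hN.conj_mem _ (N.inv_mem hx) g)
  simpa [commutatorElement_def, mul_assoc] using this

theorem comm_mem_right {H : Type*} [Group H] {N : Subgroup H} [hN : N.Normal] (g : H) {x : H}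
    (hx : x ∈ N) : ⁅g, x⁆ ∈ N := by
  rw [← commutatorElement_inv]
  exact N.inv_mem (comm_mem_left hx g)

/-- Degrees over a character extending to its inertia group, with abelian inertia quotient. -/
theorem deg_of_ext {N : Subgroup G} [N.Normal] [Fintype N] {θ : N → ℂ}
    (hθ : IsIrrCharacter N θ) {ξ : inertia N θ → ℂ} (hξ : IsIrrCharacter _ ξ)
    (he : ∀ n : N.subgroupOf (inertia N θ), ξ n = θ ⟨(n : inertia N θ), n.2⟩)
    (hab : ∀ a b : inertia N θ ⧸ N.subgroupOf (inertia N θ), a * b = b * a)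
    {χ : G → ℂ} (hχ : IsIrrCharacter G χ) (h : classInner (fun n : N => χ n) θ ≠ 0) :
    charDegree χ = (inertia N θ).index * charDegree θ := by
  have := Fintype.ofFinite G
  have hNT : N ≤ inertia N θ := le_inertia hθ.isClassFunction
  have := Fintype.ofFinite (inertia N θ)
  have := Fintype.ofFinite (N.subgroupOf (inertia N θ))
  obtain ⟨ψ, hψ, h1, h2⟩ := clifford_exists_indFun_eq hNT le_rfl hθ hχ h
  have h3 : classInner (fun n : N.subgroupOf (inertia N θ) => ψ n)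
      (fun n : N.subgroupOf (inertia N θ) => ξ n) ≠ 0 := by
    rw [funext he]
    have := classInner_subgroupOf hNT (fun n : N => ψ ⟨n, hNT n.2⟩) θ
    rw [h2] at this
    exact fun h0 => h (this.symm.trans h0)
  obtain ⟨β, hβ, h4⟩ := gallagher_quotient_exists hξ.isCharacter
    (funext he ▸ hθ.subgroupOf hNT) hψ h3
  rw [← h1, deg_indFun _ hψ.isCharacter, h4]
  erw [deg_mul hβ.isCharacter.inflate hξ.isCharacter, deg_inflate, deg_congr (he 1),
    deg_eq_one_of_comm hβ hab, one_mul]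

theorem isCyclic_quot_subgroupOf {N : Subgroup G} [N.Normal] (hc : IsCyclic (G ⧸ N))
    (T : Subgroup G) : IsCyclic (T ⧸ N.subgroupOf T) := by
  let f : T ⧸ N.subgroupOf T →* G ⧸ N := QuotientGroup.map _ N T.subtype le_rfl
  refine isCyclic_of_injective f ((injective_iff_map_eq_one f).2 fun x hx => ?_)
  obtain ⟨x, rfl⟩ := QuotientGroup.mk_surjective x
  exact (QuotientGroup.eq_one_iff _).2 ((QuotientGroup.eq_one_iff (N := N) (x : G)).1 hx)

theorem comm_eq_of_ab {Q : Type*} [Group Q] {E : Subgroup Q} [hE : E.Normal]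
    (hab : ∀ a ∈ E, ∀ b ∈ E, a * b = b * a) {c : Q}
    (hc : ∀ g : Q ⧸ E, g ∈ zpowers (c : Q ⧸ E)) {x : Q} (hx : x ∈ commutator Q) :
    ∃ n ∈ E, x = ⁅n, c⁆ := by
  let I : Subgroup Q :=
    { carrier := {x | ∃ n ∈ E, x = ⁅n, c⁆}
      mul_mem' := by
        rintro _ _ ⟨n, hn, rfl⟩ ⟨m, hm, rfl⟩
        refine ⟨m * n, E.mul_mem hm hn, ?_⟩
        calc ⁅n, c⁆ * ⁅m, c⁆ = (⁅n, c⁆ * m) * m⁻¹ * ⁅m, c⁆ := by group
          _ = (m * ⁅n, c⁆) * m⁻¹ * ⁅m, c⁆ := by rw [hab _ (comm_mem_left hn c) _ hm]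
          _ = _ := by group
      one_mem' := ⟨1, E.one_mem, by simp⟩
      inv_mem' := by
        rintro _ ⟨n, hn, rfl⟩
        refine ⟨n⁻¹, E.inv_mem hn, ?_⟩
        calc ⁅n, c⁆⁻¹ = n⁻¹ * (n * ⁅n, c⁆⁻¹) := by group
          _ = n⁻¹ * (⁅n, c⁆⁻¹ * n) := by rw [hab _ hn _ (E.inv_mem (comm_mem_left hn c))]
          _ = _ := by group }
  have h1 : ∀ k : ℤ, ∀ n ∈ E, ⁅n, c ^ k⁆ ∈ I := by
    let J : Subgroup Q :=
      { carrier := {g | ∀ n ∈ E, ⁅n, g⁆ ∈ I}
        mul_mem' := fun {g h} hg hh n hn => by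
          have := I.mul_mem (hh n hn) (hg _ (hE.conj_mem n hn h))
          convert this using 1
          group
        one_mem' := fun n hn => by simp
        inv_mem' := fun {g} hg n hn => by
          have := I.inv_mem (hg _ (hE.conj_mem n hn g⁻¹))
          convert this using 1
          group }
    intro k
    exact J.zpow_mem (show c ∈ J from fun n hn => ⟨n, hn, rfl⟩) k
  have h2 : ∀ g : Q, ∃ e ∈ E, ∃ k : ℤ, g = e * c ^ k := fun g => by
    obtain ⟨k, hk⟩ := hc (g : Q ⧸ E)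
    refine ⟨g * (c ^ k)⁻¹, ?_, k, by group⟩
    rw [← QuotientGroup.eq_one_iff, QuotientGroup.mk_mul, QuotientGroup.mk_inv,
      QuotientGroup.mk_zpow, ← hk]
    simp
  have h3 : commutator Q ≤ I := by
    rw [commutator_def, Subgroup.commutator_le]
    intro g _ h _
    obtain ⟨e, he, i, rfl⟩ := h2 g
    obtain ⟨f, hf, j, rfl⟩ := h2 h
    have := I.mul_mem (h1 j e he) (I.inv_mem (h1 i f hf))
    convert this using 1
    have h4 := hab _ (hE.conj_mem f hf (c ^ i)) _ (hE.conj_mem _ (E.inv_mem he) (c ^ j))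
    calc ⁅e * c ^ i, f * c ^ j⁆
        = e * ((c ^ i * f * (c ^ i)⁻¹) * (c ^ j * e⁻¹ * (c ^ j)⁻¹)) * f⁻¹ := by group
      _ = _ := by rw [h4]; group
  exact h3 hx

theorem ndad_quot (h : NDAD G) (Y : Subgroup G) [Y.Normal] : NDAD (G ⧸ Y) :=
  fun χ ψ hχ hψ h1 h2 => by
    have := h _ _ hχ.inflate hψ.inflate
    simp only [deg_inflate] at this
    exact this h1 h2

section
variable {N B : Subgroup G} [N.Normal] [B.Normal]

theorem deg_over (hc : IsCyclic (G ⧸ N)) [Fintype N] {χ : G → ℂ} (hχ : IsIrrCharacter G χ)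
    {ψ : N → ℂ} (hψ : IsIrrCharacter N ψ) (h : classInner (fun n : N => χ n) ψ ≠ 0) :
    charDegree χ = (inertia N ψ).index * charDegree ψ := by
  have hc' := isCyclic_quot_subgroupOf hc (inertia N ψ)
  have := Fintype.ofFinite (inertia N ψ)
  have := Fintype.ofFinite (N.subgroupOf (inertia N ψ))
  obtain ⟨ξ, hξ, he⟩ := exists_ext_of_isCyclic hc' (hψ.subgroupOf (le_inertia hψ.isClassFunction))
    (fun g n => mem_inertia'.1 g.2 ⟨_, n.2⟩)
  exact deg_of_ext hψ hξ he (fun a b => hc'.isMulCommutative.is_comm.comm a b) hχ h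

theorem Fr.quot (T : Fr N B) {Y : Subgroup G} [Y.Normal] (hY : Y ≤ B)
    [(N.map (QuotientGroup.mk' Y)).Normal] [(B.map (QuotientGroup.mk' Y)).Normal] :
    Fr (N.map (QuotientGroup.mk' Y)) (B.map (QuotientGroup.mk' Y)) := by
  have hYN : Y ≤ N := hY.trans T.lt.le
  refine ⟨?_, fun h => T.ne_top (eq_top_iff.2 fun x _ => (mk_mem_map hYN).1 (h ▸ mem_top _)),
    lt_of_le_not_ge (map_mono T.lt.le) fun h => T.lt.not_ge fun x hx =>
      (mk_mem_map hY).1 (h (mem_map_of_mem _ hx)), ?_, ?_, ?_⟩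
  · have := T.cyc
    let e := QuotientGroup.quotientQuotientEquivQuotient Y N hYN
    exact isCyclic_of_surjective e.symm e.symm.surjective
  · rw [← map_commutator]
    exact map_mono T.NB
  · rintro _ ⟨b, hb, rfl⟩ g
    obtain ⟨g, rfl⟩ := QuotientGroup.mk'_surjective Y g
    rw [← map_commutator, ← map_commutatorElement]
    exact mem_map_of_mem _ (T.cen b hb g)
  · rintro g hg _ ⟨x, hx, rfl⟩ h
    obtain ⟨g, rfl⟩ := QuotientGroup.mk'_surjective Y g
    rw [← map_commutatorElement, mk_mem_map hY] at h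
    exact mem_map_of_mem _ (T.fr g (fun h1 => hg (mem_map_of_mem _ h1)) x hx h)

theorem Fr.surj (T : Fr N B) {g : G} (hg : g ∉ N) {m : G} (hm : m ∈ N) :
    ∃ n ∈ N, (⁅n, g⁆)⁻¹ * m ∈ B := by
  let π := QuotientGroup.mk' B
  have : (N.map π).Normal := ‹N.Normal›.map π (QuotientGroup.mk'_surjective B)
  let f : N.map π → N.map π := fun x => ⟨⁅(x : G ⧸ B), π g⁆, comm_mem_left x.2 _⟩
  have hf : Function.Injective f := by
    rintro ⟨_, x, hx, rfl⟩ ⟨_, y, hy, rfl⟩ e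
    have e' : ⁅π x, π g⁆ = ⁅π y, π g⁆ := congrArg Subtype.val e
    have h1 : π ⁅y⁻¹ * x, g⁆ = 1 := by
      rw [map_commutatorElement, map_mul, map_inv]
      calc _ = (π y)⁻¹ * ⁅π x, π g⁆ * (π g * π y * (π g)⁻¹) := by group
        _ = 1 := by rw [e']; group
    have h2 := T.fr g hg _ (N.mul_mem (N.inv_mem hy) hx) ((QuotientGroup.eq_one_iff _).1 h1)
    exact Subtype.ext (QuotientGroup.eq.2 h2).symm
  obtain ⟨⟨_, n, hn, rfl⟩, h⟩ := Finite.surjective_of_injective hf ⟨π m, mem_map_of_mem _ hm⟩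
  have h' : ⁅π n, π g⁆ = π m := congrArg Subtype.val h
  rw [← map_commutatorElement] at h'
  exact ⟨n, hn, QuotientGroup.eq.1 h'⟩

theorem Fr.comm_le (T : Fr N B) : commutator G ≤ N :=
  Subgroup.Normal.quotient_commutative_iff_commutator_le.1 T.cyc.isMulCommutative

theorem Fr.exists_gen (T : Fr N B) : ∃ c : G, c ∉ N ∧ ∀ g : G ⧸ N, g ∈ zpowers (c : G ⧸ N) := by
  obtain ⟨c, hc⟩ := T.cyc.exists_generator
  obtain ⟨c, rfl⟩ := QuotientGroup.mk_surjective c
  refine ⟨c, fun h => T.ne_top (eq_top_iff.2 fun x _ => ?_), hc⟩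
  have := hc (x : G ⧸ N)
  rwa [(QuotientGroup.eq_one_iff c).2 h, zpowers_one_eq_bot, mem_bot,
    QuotientGroup.eq_one_iff] at this

theorem Fr.comm_inf (T : Fr N B) : commutator G ⊓ B = ⁅N, N⁆ := by
  refine le_antisymm (fun x hx => ?_) (le_inf (commutator_mono le_top le_top) T.NB)
  obtain ⟨c, hcN, hc⟩ := T.exists_gen
  let π := QuotientGroup.mk' ⁅N, N⁆
  have : (N.map π).Normal := ‹N.Normal›.map π (QuotientGroup.mk'_surjective _)
  have hle : ⁅N, N⁆ ≤ N := T.NB.trans T.lt.le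
  obtain ⟨_, ⟨n, hn, rfl⟩, h⟩ := comm_eq_of_ab (E := N.map π) (c := π c) (x := π x) (by
      rintro _ ⟨a, ha, rfl⟩ _ ⟨b, hb, rfl⟩
      rw [← commutatorElement_eq_one_iff_mul_comm, ← map_commutatorElement]
      exact (QuotientGroup.eq_one_iff _).2 (commutator_mem_commutator ha hb))
    (fun g => by
      obtain ⟨g, rfl⟩ := QuotientGroup.mk_surjective g
      obtain ⟨g, rfl⟩ := QuotientGroup.mk'_surjective _ g
      obtain ⟨k, hk⟩ := hc (g : G ⧸ N)
      refine ⟨k, ?_⟩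
      simp only at hk ⊢
      rw [← QuotientGroup.mk_zpow, QuotientGroup.eq] at hk ⊢
      rw [← map_zpow, ← map_inv, ← map_mul]
      exact mem_map_of_mem _ hk)
    (by
      have := mem_map_of_mem π hx.1
      rw [map_commutator_eq] at this
      exact commutator_mono le_top le_top this)
  rw [← map_commutatorElement] at h
  have h1 : x⁻¹ * ⁅n, c⁆ ∈ ⁅N, N⁆ := QuotientGroup.eq.1 h
  have h2 : ⁅n, c⁆ ∈ B := by simpa using B.mul_mem hx.2 (T.NB h1)
  have h3 := T.cen n (T.fr c hcN n hn h2) c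
  have h4 := (⁅N, N⁆ : Subgroup G).mul_mem h3 ((⁅N, N⁆ : Subgroup G).inv_mem h1)
  rwa [mul_inv_rev, inv_inv, mul_inv_cancel_left] at h4

theorem Fr.comm_sup (T : Fr N B) : commutator G ⊔ B = N := by
  refine le_antisymm (sup_le T.comm_le T.lt.le) fun m hm => ?_
  obtain ⟨c, hcN, -⟩ := T.exists_gen
  obtain ⟨n, hn, h⟩ := T.surj hcN hm
  have := mul_mem_sup (commutator_mem_commutator (mem_top n) (mem_top c)) h
  rwa [mul_inv_cancel_left] at this

theorem Fr.dvd (T : Fr N B) : N.index ∣ B.relIndex N - 1 := by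
  let π := QuotientGroup.mk' B
  have hn : (N.map π).Normal := ‹N.Normal›.map π (QuotientGroup.mk'_surjective B)
  have h := relIndex_dvd_card_of_centralizer (N.map π) ⊤ ((N.map π : Set (G ⧸ B)) \ {1})
    (fun g _ s hs => ⟨hn.conj_mem s hs.1 g, fun h => hs.2 (by simpa using h)⟩) (by
      rintro _ ⟨⟨s, hs, rfl⟩, hs1⟩ g -
      obtain ⟨g, rfl⟩ := QuotientGroup.mk'_surjective B g
      rw [mk_mem_map T.lt.le]
      constructor
      · intro h
        by_contra hg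
        refine hs1 ((QuotientGroup.eq_one_iff _).2 (T.fr g hg s hs
          ((QuotientGroup.eq_one_iff _).1 ?_)))
        change π _ = 1
        rw [map_commutatorElement, commutatorElement_eq_one_iff_mul_comm]
        exact (mul_inv_eq_iff_eq_mul.1 h).symm
      · intro hg
        rw [mul_inv_eq_iff_eq_mul, ← commutatorElement_eq_one_iff_mul_comm,
          ← map_commutatorElement]
        exact (QuotientGroup.eq_one_iff _).2 (T.NB (commutator_mem_commutator hg hs)))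
  rw [relIndex_top_right, index_map_eq _ (QuotientGroup.mk'_surjective B)
    (by rw [QuotientGroup.ker_mk']; exact T.lt.le), Nat.card_coe_set_eq,
    Set.ncard_sdiff_singleton_of_mem (one_mem _), ← Nat.card_coe_set_eq] at h
  rwa [← Cfsg.Lib.Solv.card_map_mk']

theorem Fr.cop (T : Fr N B) : N.index.Coprime (B.relIndex N) := by
  obtain ⟨k, hk⟩ := T.dvd
  have h0 : B.relIndex N ≠ 0 := Subgroup.index_ne_zero_of_finite
  rw [show B.relIndex N = 1 + N.index * k by omega]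
  simp

theorem Fr.eq_one_of_inv (T : Fr N B) {lam : N →* ℂˣ}
    (hK : ∀ k ∈ B.subgroupOf N, lam k = 1) {g : G} (hg : g ∉ N)
    (hinv : ∀ n : N, lam ⟨g * n * g⁻¹, ‹N.Normal›.conj_mem n n.2 g⟩ = lam n) : lam = 1 := by
  ext m
  obtain ⟨n, hn, h1⟩ := T.surj hg m.2
  have h2 := hK ((⟨n, hn⟩ * ⟨g * n⁻¹ * g⁻¹, ‹N.Normal›.conj_mem _ (N.inv_mem hn) g⟩)⁻¹ * m)
    (by simpa [Subgroup.mem_subgroupOf, commutatorElement_def, mul_assoc] using h1)
  erw [map_mul, map_inv, map_mul, hinv (⟨n, hn⟩ : N)⁻¹, ← map_mul, mul_inv_cancel, map_one,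
    inv_one, one_mul] at h2
  rw [h2]
  rfl

theorem Fr.exists_deg (T : Fr N B) : ∃ χ, IsIrrCharacter G χ ∧ charDegree χ = N.index := by
  have := Fintype.ofFinite G
  have := Fintype.ofFinite N
  obtain ⟨x, hx, hxB⟩ := SetLike.not_le_iff_exists.1 T.lt.not_ge
  obtain ⟨lam, h1, h2⟩ := exists_monoidHom_ker_ge_apply_ne_one (B.subgroupOf N)
    ((commutator_le_subgroupOf_self N).trans (comap_mono T.NB)) (g := ⟨x, hx⟩) hxB
  have h3 := isIrrCharacter_monoidHom lam
  refine ⟨_, (isIrrCharacter_indFun_normal_iff h3).2 fun g hg => by_contra fun hgN => h2 ?_, ?_⟩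
  · rw [T.eq_one_of_inv h1 hgN fun n => Units.ext (mem_inertia'.1 hg n)]
    rfl
  · rw [deg_indFun N h3.isCharacter, deg_monoidHom, mul_one]

theorem Fr.index_ne_one (T : Fr N B) : N.index ≠ 1 := mt Subgroup.index_eq_one.1 T.ne_top

theorem Top.quot (T : Top N B) {Y : Subgroup G} [Y.Normal] (hY : Y ≤ B)
    [(N.map (QuotientGroup.mk' Y)).Normal] [(B.map (QuotientGroup.mk' Y)).Normal] :
    Top (N.map (QuotientGroup.mk' Y)) (B.map (QuotientGroup.mk' Y)) := by
  refine ⟨T.toFr.quot hY, ndad_quot T.nd Y, ?_, ?_⟩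
  · rintro _ ⟨x, hx, rfl⟩ hxB y hy
    rw [← map_commutator] at hy
    obtain ⟨y, hy, rfl⟩ := hy
    obtain ⟨n, hn, h⟩ := T.ct x hx (fun h => hxB (mem_map_of_mem _ h)) y hy
    exact ⟨_, mem_map_of_mem _ hn, by rw [← map_commutatorElement, h]⟩
  · rintro _ ⟨y, hy, rfl⟩
    obtain ⟨g, hg, h⟩ := T.fx y hy
    exact ⟨_, fun h1 => hg ((mk_mem_map (hY.trans T.lt.le)).1 h1), h.map _⟩

theorem Top.nl (T : Top N B) {ψ : N → ℂ} (hψ : IsIrrCharacter N ψ) (h1 : charDegree ψ ≠ 1) :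
    ¬ inertia N ψ ≤ N := by
  intro h
  have := Fintype.ofFinite G
  have := Fintype.ofFinite N
  obtain ⟨χ, hχ, h2⟩ := T.toFr.exists_deg
  have h3 := T.nd χ _ hχ ((isIrrCharacter_indFun_normal_iff hψ).2 h)
    (h2 ▸ T.toFr.index_ne_one) (by rw [deg_indFun N hψ.isCharacter, h2]; exact dvd_mul_right _ _)
  rw [deg_indFun N hψ.isCharacter, h2] at h3
  exact h1 (Nat.eq_of_mul_eq_mul_left (Nat.pos_of_ne_zero index_ne_zero_of_finite)
    (h3.symm.trans (mul_one _).symm))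

theorem deg_eq_one_of_over [Fintype N] {χ : G → ℂ} (hχ : IsIrrCharacter G χ)
    (h : ⁅N, N⁆ ≤ charKer χ) {ψ : N → ℂ} (hψ : IsIrrCharacter N ψ)
    (h1 : classInner (fun n : N => χ n) ψ ≠ 0) : charDegree ψ = 1 :=
  (commutator_le_charKer_iff hψ).1 ((commutator_le_subgroupOf_self N).trans
    (le_charKer_of_lies_over hχ.isCharacter hψ h1 h))

theorem Top.deg_lin (T : Top N B) {χ : G → ℂ} (hχ : IsIrrCharacter G χ)
    (h : ⁅N, N⁆ ≤ charKer χ) : charDegree χ = 1 ∨ charDegree χ = N.index := by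
  have := Fintype.ofFinite G
  have := Fintype.ofFinite N
  obtain ⟨ψ, hψ, h1⟩ := exists_irr_under N hχ
  have h2 := deg_over T.cyc hχ hψ h1
  rw [deg_eq_one_of_over hχ h hψ h1, mul_one] at h2
  obtain ⟨ξ, hξ, h3⟩ := T.toFr.exists_deg
  refine or_iff_not_imp_left.2 fun h4 => h3 ▸ T.nd χ ξ hχ hξ h4 ?_
  rw [h2, h3]
  exact index_dvd_of_le (le_inertia hψ.isClassFunction)

theorem Top.conj (T : Top N B) {x y : G} (hx : x ∈ N) (hx' : x ∉ B) (hy : y ∈ ⁅N, N⁆) :
    ∃ n ∈ N, n * x * n⁻¹ = x * y := by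
  obtain ⟨n, hn, h⟩ := T.ct x⁻¹ (N.inv_mem hx) (fun h => hx' (by simpa using B.inv_mem h)) y hy
  exact ⟨n, hn, by rw [← h]; group⟩

theorem Top.vanish (T : Top N B) {ψ : N → ℂ} (hψ : IsIrrCharacter N ψ) (h1 : charDegree ψ ≠ 1)
    (x : N) (hx : (x : G) ∉ B) : ψ x = 0 := by
  refine apply_eq_zero_of_isConj_mul (N := (⁅N, N⁆ : Subgroup G).subgroupOf N) (fun y hy => ?_) hψ
    fun h => h1 ((commutator_le_charKer_iff hψ).1 ((commutator_le_subgroupOf_self N).trans h))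
  obtain ⟨n, hn, h⟩ := T.conj x.2 hx hy
  exact isConj_iff.2 ⟨⟨n, hn⟩, Subtype.ext h⟩

theorem Top.prime_dvd (T : Top N B) (hp : p.Prime) (h : p ∣ B.relIndex N) {ψ : N → ℂ}
    (hψ : IsIrrCharacter N ψ) (h1 : charDegree ψ ≠ 1) : p ∣ charDegree ψ := by
  have := Fintype.ofFinite N
  have := Fintype.ofFinite (B.subgroupOf N)
  obtain ⟨σ, hσ, h2⟩ := exists_irr_under (B.subgroupOf N) hψ
  obtain ⟨e, he, h3, h4⟩ := exists_deg_eq_of_lies_over hψ hσ h2
  have h5 := sq_mul_index_inertia_of_vanish hψ (fun g hg => T.vanish hψ h1 g hg) hσ he.ne' h3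
  rw [h4]
  refine Dvd.dvd.mul_right ?_ _
  rcases (hp.dvd_mul).1 (h.trans (dvd_of_eq h5.symm)) with h6 | h6
  · exact (hp.dvd_of_dvd_pow h6).mul_right _
  · exact h6.mul_left _

theorem Top.cent (T : Top N B) {x y : G} (hx : x ∈ N) (hx' : x ∉ B) (hy : y ∈ ⁅N, N⁆)
    (hc : Commute x y) (ho : (orderOf x).Coprime (orderOf y)) : y = 1 := by
  obtain ⟨n, hn, h⟩ := T.conj hx hx' hy
  have h1 : (x * y) ^ orderOf x = 1 := by rw [← h, conj_pow, pow_orderOf_eq_one]; group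
  rw [hc.mul_pow, pow_orderOf_eq_one, one_mul] at h1
  exact orderOf_eq_one_iff.1 (Nat.Coprime.eq_one_of_dvd ho.symm (orderOf_dvd_of_pow_eq_one h1))

end

end Cfsg.Lib.NDD
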