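import Cfsg.Agent.NDD.Pf

/-!
# Linear algebra of a Camina group of class three
-/

set_option autoImplicit false
set_option linter.unusedSectionVars false
set_option linter.unusedVariables false

namespace Cfsg.Lib.NDD

open Module LinearMap

variable {F V W U : Type*} [Field F] [Finite F] [AddCommGroup V] [Module F V]
  [FiniteDimensional F V] [AddCommGroup W] [Module F W] [FiniteDimensional F W]
  [AddCommGroup U] [Module F U] [FiniteDimensional F U]

theorem rank_flip (β : W →ₗ[F] V →ₗ[F] F) : finrank F (range β.flip) = finrank F (range β) := by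
  have h : β.flip = β.dualMap ∘ₗ Module.Dual.eval F V := by ext; rfl
  rw [h, range_comp_of_range_eq_top _ (range_eq_top.2 (bijective_dual_eval F V).surjective),
    finrank_range_dualMap_eq_finrank_range]

theorem iso_bound (B : V →ₗ[F] V →ₗ[F] F) (J : Submodule F V) (h : ∀ x ∈ J, ∀ y ∈ J, B x y = 0) :
    2 * finrank F J ≤ finrank F V + finrank F (ker B) := by
  have h1 := finrank_range_add_finrank_ker (B ∘ₗ J.subtype)
  have h2 : finrank F (range (B ∘ₗ J.subtype)) ≤ finrank F J.dualAnnihilator :=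
    Submodule.finrank_mono (by
      rintro _ ⟨x, rfl⟩
      exact (Submodule.mem_dualAnnihilator _).2 (h x x.2))
  have h3 : finrank F (ker (B ∘ₗ J.subtype)) ≤ finrank F (ker B) := by
    rw [← Submodule.finrank_map_subtype_eq]
    exact Submodule.finrank_mono (by
      rintro _ ⟨x, hx, rfl⟩
      exact hx)
  have h4 := Subspace.finrank_add_finrank_dualAnnihilator_eq J
  omega

theorem exists_fun [Nontrivial U] : ∃ ν : U →ₗ[F] F, ν ≠ 0 := by
  obtain ⟨ν, hν, -⟩ := Submodule.exists_le_ker_of_lt_top (⊥ : Submodule F U) bot_lt_top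
  exact ⟨ν, hν⟩

variable {b : V →ₗ[F] V →ₗ[F] W} {a : W →ₗ[F] V →ₗ[F] U}

theorem L3.bb (h : L3 b a) {ν : U →ₗ[F] F} {x y : V} (hx : ∀ w, ν (a w x) = 0)
    (hy : ∀ w, ν (a w y) = 0) (z : V) : ν (a (b x y) z) = 0 := by
  have := congrArg ν (h.jac x y z)
  rwa [map_add, map_add, hx, hy, add_zero, add_zero, map_zero] at this

theorem mem_V0 {ν : U →ₗ[F] F} {v : V} : v ∈ ker (a.compr₂ ν).flip ↔ ∀ w, ν (a w v) = 0 :=
  ⟨fun h w => LinearMap.congr_fun h w, fun h => LinearMap.ext h⟩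

theorem L3.core (h : L3 b a) {ν : U →ₗ[F] F} (hν : ν ≠ 0) :
    ker (a.compr₂ ν) = ⊥ ∧ finrank F V = 2 * finrank F W ∧
      finrank F (ker (a.compr₂ ν).flip) = finrank F W ∧ 0 < finrank F W := by
  have h1 : ker (a.compr₂ ν) < ⊤ := lt_top_iff_ne_top.2 fun h1 => hν (h.span ν fun w v =>
    LinearMap.congr_fun (h1.ge (Submodule.mem_top (x := w))) v)
  have : Nontrivial V := by
    by_contra h2
    rw [not_nontrivial_iff_subsingleton] at h2
    exact hν (h.span ν fun w v => by rw [Subsingleton.elim v 0]; simp)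
  obtain ⟨μ, hμ, h2⟩ := Submodule.exists_le_ker_of_lt_top _ h1
  have h3 : ker (b.compr₂ μ) = ⊥ := eq_bot_iff.2 fun v hv => by_contra fun h0 => hμ <|
    LinearMap.ext fun w => by
      obtain ⟨y, rfl⟩ := h.onto v h0 w
      exact LinearMap.congr_fun hv y
  have h4 := iso_bound (b.compr₂ μ) (ker (a.compr₂ ν).flip) fun x hx y hy =>
    h2 (LinearMap.ext (h.bb (mem_V0.1 hx) (mem_V0.1 hy)))
  rw [h3, finrank_bot] at h4
  have h5 := finrank_range_add_finrank_ker (a.compr₂ ν)
  have h6 := finrank_range_add_finrank_ker (a.compr₂ ν).flip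
  rw [rank_flip] at h6
  have h7 := ses_lin b h.alt h.onto
  have h8 := Submodule.finrank_lt h1.ne
  exact ⟨Submodule.finrank_eq_zero.1 (by omega), by omega, by omega, by omega⟩

theorem L3.dim (h : L3 b a) : finrank F V = 2 * finrank F W ∧ 0 < finrank F W := by
  have := h.nt
  obtain ⟨ν, hν⟩ := exists_fun (F := F) (U := U)
  exact ⟨(h.core hν).2.1, (h.core hν).2.2.2⟩

theorem L3.surj (h : L3 b a) {w : W} (hw : w ≠ 0) : Function.Surjective (a w) := by
  rw [← range_eq_top]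
  by_contra h1
  obtain ⟨ν, hν, h2⟩ := Submodule.exists_le_ker_of_lt_top _ (lt_top_iff_ne_top.2 h1)
  exact hw ((h.core hν).1.le (LinearMap.ext fun v => h2 ⟨v, rfl⟩))

theorem L3.ker_iff (h : L3 b a) {ν : U →ₗ[F] F} (hν : ν ≠ 0) {v : V} (hv : v ≠ 0)
    (h0 : ∀ w, ν (a w v) = 0) (v' : V) : (∀ w, ν (a w v') = 0) ↔ b v v' = 0 := by
  obtain ⟨h1, h2, h3, -⟩ := h.core hν
  have h4 := finrank_range_add_finrank_ker (b v)
  rw [range_eq_top.2 (h.onto v hv), finrank_top] at h4
  have h5 : ker (a.compr₂ ν).flip = ker (b v) := Submodule.eq_of_le_of_finrank_eq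
    (fun y hy => h1.le (LinearMap.ext (h.bb h0 (mem_V0.1 hy)))) (by omega)
  rw [← mem_V0, h5, mem_ker]

theorem L3.exists_ne (h : L3 b a) (ν : U →ₗ[F] F) : ∃ v, v ≠ 0 ∧ ∀ w, ν (a w v) = 0 := by
  by_cases hν : ν = 0
  · have : Nontrivial V := nontrivial_of_finrank_pos (R := F) (by have := h.dim; omega)
    obtain ⟨v, hv⟩ := _root_.exists_ne (0 : V)
    exact ⟨v, hv, fun w => by simp [hν]⟩
  · obtain ⟨-, -, h3, h4⟩ := h.core hν
    obtain ⟨v, hv, h0⟩ := Submodule.exists_mem_ne_zero_of_ne_bot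
      (p := ker (a.compr₂ ν).flip) fun h0 => by rw [h0, finrank_bot] at h3; omega
    exact ⟨v, h0, mem_V0.1 hv⟩

theorem L3.onto_ker (h : L3 b a) {ν : U →ₗ[F] F} (hν : ν ≠ 0) {x : V}
    (hx : ¬ ∀ w, ν (a w x) = 0) (w : W) : ∃ y, (∀ w, ν (a w y) = 0) ∧ b x y = w := by
  have h1 : Function.Injective (b x ∘ₗ (ker (a.compr₂ ν).flip).subtype) :=
    (injective_iff_map_eq_zero _).2 fun y hy => by_contra fun h0 => hx
      ((h.ker_iff hν (v := y) (fun e => h0 (Subtype.ext e)) (mem_V0.1 y.2) x).2 (by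
        rw [alt_neg h.alt, neg_eq_zero]; exact hy))
  obtain ⟨y, hy⟩ := (injective_iff_surjective_of_finrank_eq_finrank (h.core hν).2.2.1).1 h1 w
  exact ⟨y, mem_V0.1 y.2, hy⟩

theorem L3.pow (h : L3 b a) (hk : 2 ≤ finrank F W) (s : W →ₗ[F] U) (e : F)
    (hπ : ∀ x, ∃ w, ∀ y, a w y = s (b x y) - e • a (b x y) x) : e = 0 ∧ s = 0 := by
  have key : ∀ ν : U →ₗ[F] F, ν ≠ 0 → e = 0 ∧ ∀ w, ν (s w) = 0 := fun ν hν => by
    obtain ⟨-, h2, h3, -⟩ := h.core hν
    have h4 : ∀ x, x ∉ ker (a.compr₂ ν).flip → ∀ w, ν (s w) = e * ν (a w x) := fun x hx w => by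
      obtain ⟨y, hy, rfl⟩ := h.onto_ker hν (mt mem_V0.2 hx) w
      obtain ⟨w, hw⟩ := hπ x
      have := hy w
      rwa [hw, map_sub, map_smul, sub_eq_zero] at this
    obtain ⟨x, -, hx⟩ := SetLike.exists_of_lt (lt_top_iff_ne_top.2
      (show ker (a.compr₂ ν).flip ≠ ⊤ from fun h0 => by rw [h0, finrank_top] at h3; omega))
    obtain ⟨x', -, hx'⟩ := SetLike.exists_of_lt (lt_top_iff_ne_top.2
      (show ker (a.compr₂ ν).flip ⊔ F ∙ x ≠ ⊤ from fun h0 => by
        have h5 := Submodule.finrank_add_le_finrank_add_finrank (ker (a.compr₂ ν).flip) (F ∙ x)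
        rw [h0, finrank_top, finrank_span_singleton (v := x)
          (fun h0 => hx (by rw [h0]; exact zero_mem _))] at h5
        omega))
    have h5 : ∀ w, ν (s w) = 0 := fun w => by
      have e1 := h4 x hx w
      have e2 := h4 x' (fun h5 => hx' (Submodule.mem_sup_left h5)) w
      have e3 := h4 (x' + x) (fun h5 => hx' (by
        simpa using sub_mem (Submodule.mem_sup_left h5)
          (Submodule.mem_sup_right (Submodule.mem_span_singleton_self x)))) w
      rw [map_add, map_add] at e3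
      linear_combination e1 + e2 - e3
    refine ⟨by_contra fun he => hx (mem_V0.2 fun w => ?_), h5⟩
    have := h4 x hx w
    rw [h5] at this
    exact (mul_eq_zero.1 this.symm).resolve_left he
  have := h.nt
  obtain ⟨ν, hν⟩ := exists_fun (F := F) (U := U)
  refine ⟨(key ν hν).1, LinearMap.ext fun w => (forall_dual_apply_eq_zero_iff F _).1 fun φ => ?_⟩
  by_cases h0 : φ = 0
  · simp [h0]
  · exact (key φ h0).2 w

end Cfsg.Lib.NDD
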