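import Cfsg.Agent.NDD.Sec
import Cfsg.Agent.NDD.Lin3
import Cfsg.Agent.Solv.CommCalc
import Cfsg.Agent.Solv.Fitting

/-!
# Camina `p`-groups: the graded data
-/

set_option autoImplicit false
set_option linter.unusedSectionVars false
set_option linter.unusedVariables false

namespace Cfsg.Lib.NDD

open Subgroup Module
open scoped commutatorElement

universe u

variable {G : Type u} [Group G] [Finite G] {p : ℕ}

theorem exists_sec0 {X Y : Subgroup G} (h : ⁅X, X⁆ ≤ Y) :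
    ∃ (M : Type u) (_ : AddCommGroup M) (χ : G → M), Sec X Y χ := by
  classical
  have hc : commutator X ≤ Y.subgroupOf X :=
    (Cfsg.Lib.Char.Deg.commutator_le_subgroupOf_self X).trans (comap_mono h)
  have hn : (Y.subgroupOf X).Normal := ⟨fun n hn g => by
    have := (Y.subgroupOf X).mul_mem (hc (commutator_mem_commutator (mem_top g) (mem_top n))) hn
    simpa [commutatorElement_def] using this⟩
  have hq := Subgroup.Normal.quotient_commutative_iff_commutator_le.2 hc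
  let _ : CommGroup (X ⧸ Y.subgroupOf X) :=
    { (inferInstance : Group (X ⧸ Y.subgroupOf X)) with mul_comm := hq.is_comm.comm }
  refine ⟨Additive (X ⧸ Y.subgroupOf X), inferInstance,
    fun a => if ha : a ∈ X then Additive.ofMul (QuotientGroup.mk ⟨a, ha⟩) else 0,
    fun a ha b hb => ?_, fun a ha => ?_, fun m => ?_⟩
  · simp only [dif_pos ha, dif_pos hb, dif_pos (X.mul_mem ha hb)]
    rfl
  · simp only [dif_pos ha]
    exact QuotientGroup.eq_one_iff (N := Y.subgroupOf X) (⟨a, ha⟩ : X)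
  · obtain ⟨x, hx⟩ := QuotientGroup.mk_surjective m.toMul
    exact ⟨x, x.2, by simp only [dif_pos x.2]; exact congrArg Additive.ofMul hx⟩

theorem Sec.comm_pow {X Y A : Subgroup G} {M : Type*} [AddCommGroup M] {χ : G → M}
    (S : Sec X Y χ) (hN : A ≤ normalizer (X : Set G)) (hc : ⁅X, A⁆ ≤ Y) {x y : G} (hx : x ∈ A)
    (hxy : ⁅x, y⁆ ∈ X) (n : ℕ) : ⁅x ^ n, y⁆ ∈ X ∧ χ ⁅x ^ n, y⁆ = n • χ ⁅x, y⁆ := by
  induction n with
  | zero => simp [S.one]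
  | succ n ih =>
    have h1 : x * ⁅x ^ n, y⁆ * x⁻¹ ∈ X := (mem_normalizer_iff.1 (hN hx) _).1 ih.1
    rw [show ⁅x ^ (n + 1), y⁆ = x * ⁅x ^ n, y⁆ * x⁻¹ * ⁅x, y⁆ by rw [pow_succ']; group]
    exact ⟨X.mul_mem h1 hxy, by rw [S.add _ h1 _ hxy, S.conj hN hc hx ih.1, ih.2, succ_nsmul]⟩

section
variable {A : Subgroup G}

theorem g2_le (A : Subgroup G) : g2 A ≤ A := commutator_le.2 fun a ha b hb =>
  A.mul_mem (A.mul_mem (A.mul_mem ha hb) (A.inv_mem ha)) (A.inv_mem hb)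
theorem g3_le (A : Subgroup G) : g3 A ≤ g2 A := commutator_mono (g2_le A) le_rfl
theorem g4_le (A : Subgroup G) : g4 A ≤ g3 A := commutator_mono (g3_le A) le_rfl
theorem g5_le (A : Subgroup G) : ⁅g4 A, A⁆ ≤ g4 A := commutator_mono (g4_le A) le_rfl
theorem g22_le (A : Subgroup G) : ⁅g2 A, g2 A⁆ ≤ g4 A :=
  Cfsg.Lib.Solv.commutator_lowerCentralSeries_lowerCentralSeries_le A 1 1
theorem g32_le (A : Subgroup G) : ⁅g3 A, g2 A⁆ ≤ ⁅g4 A, A⁆ :=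
  Cfsg.Lib.Solv.commutator_lowerCentralSeries_lowerCentralSeries_le A 2 1
theorem norm_of {X : Subgroup G} (h : ⁅X, A⁆ ≤ X) : A ≤ normalizer (X : Set G) :=
  le_normalizer_of_comm (by rwa [commutator_comm])

theorem Cam.nil (h : Cam p A) {X : Subgroup G} (h1 : X ≤ A) (h2 : X ≤ ⁅X, A⁆) : X = ⊥ := by
  have := Fact.mk h.prime
  exact Cfsg.Lib.Solv.eq_bot_of_le_commutator_of_isNilpotent h.pg.isNilpotent h1 h2

theorem Cam.exists_out (h : Cam p A) (hne : g2 A ≠ ⊥) : ∃ x ∈ A, x ∉ g2 A := by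
  by_contra h1
  push Not at h1
  exact hne (le_bot_iff.1 ((g2_le A).trans (h.nil le_rfl h1).le))

theorem Cam.pow1 (h : Cam p A) (hne : g2 A ≠ ⊥) {x : G} (hx : x ∈ A) : x ^ p ∈ g2 A := by
  have := Fact.mk h.prime
  by_contra h1
  obtain ⟨M, _, χ, S⟩ := exists_sec0 (commutator_mono le_rfl (g2_le A) : ⁅g2 A, g2 A⁆ ≤ g3 A)
  have h2 : ∀ k : ℕ, ∀ y ∈ g2 A, ∃ z ∈ g2 A, χ y = p ^ k • χ z := fun k => by
    induction k with
    | zero => exact fun y hy => ⟨y, hy, by simp⟩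
    | succ k ih =>
      intro y hy
      obtain ⟨z, hz, e⟩ := ih y hy
      obtain ⟨g, hg, rfl⟩ := h.cam _ (A.pow_mem hx p) h1 z hz
      refine ⟨_, commutator_mem_commutator hx hg, ?_⟩
      rw [e, (S.comm_pow (norm_of (g3_le A)) le_rfl hx (commutator_mem_commutator hx hg) p).2,
        pow_succ, mul_smul]
  obtain ⟨n, hn⟩ := IsPGroup.iff_card.1 h.pg
  refine hne (h.nil (g2_le A) fun y hy => ?_)
  obtain ⟨z, hz, e⟩ := h2 n y hy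
  have h3 : z ^ p ^ n = 1 := congrArg Subtype.val
    (hn ▸ pow_card_eq_one' (x := (⟨z, g2_le A hz⟩ : A)))
  rw [← S.pow hz, h3, S.one] at e
  exact (S.ker y hy).1 e

theorem Cam.pow2 (h : Cam p A) {x : G} (hx : x ∈ g2 A) : x ^ p ∈ g3 A := by
  by_cases hne : g2 A = ⊥
  · rw [hne, mem_bot] at hx
    rw [hx, one_pow]
    exact one_mem _
  obtain ⟨a, ha, ha'⟩ := h.exists_out hne
  obtain ⟨g, hg, rfl⟩ := h.cam a ha ha' x hx
  obtain ⟨M, _, χ, S⟩ := exists_sec0 (commutator_mono le_rfl (g2_le A) : ⁅g2 A, g2 A⁆ ≤ g3 A)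
  have h1 := S.comm_pow (norm_of (g3_le A)) le_rfl ha hx p
  rw [← S.ker _ (pow_mem hx p), S.pow hx, ← h1.2, S.ker _ h1.1]
  exact commutator_mem_commutator (h.pow1 hne ha) hg

theorem pow_step {X : Subgroup G} (h1 : X ≤ A) (h2 : ⁅X, A⁆ ≤ X) (h3 : ∀ w ∈ X, w ^ p ∈ ⁅X, A⁆)
    {u : G} (hu : u ∈ ⁅X, A⁆) : u ^ p ∈ ⁅⁅X, A⁆, A⁆ := by
  obtain ⟨M, _, χ, S⟩ := exists_sec0
    (commutator_mono le_rfl (h2.trans h1) : ⁅⁅X, A⁆, ⁅X, A⁆⁆ ≤ ⁅⁅X, A⁆, A⁆)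
  obtain ⟨H, hH⟩ := S.exists_sub (nsmulAddMonoidHom p).ker
  have h4 : ⁅X, A⁆ ≤ H := commutator_le.2 fun w hw y hy => by
    have h4 := S.comm_pow (norm_of (commutator_mono h2 le_rfl)) le_rfl (h1 hw)
      (commutator_mem_commutator hw hy) p
    refine (hH _).2 ⟨commutator_mem_commutator hw hy, ?_⟩
    rw [AddMonoidHom.mem_ker, nsmulAddMonoidHom_apply, ← h4.2, S.ker _ h4.1]
    exact commutator_mem_commutator (h3 w hw) hy
  rw [← S.ker _ (pow_mem hu p), S.pow hu]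
  exact ((hH u).1 (h4 hu)).2

theorem Cam.pow3 (h : Cam p A) {x : G} (hx : x ∈ g3 A) : x ^ p ∈ g4 A :=
  pow_step (g2_le A) (g3_le A) (fun _ => h.pow2) hx

theorem Cam.pow4 (h : Cam p A) {x : G} (hx : x ∈ g4 A) : x ^ p ∈ ⁅g4 A, A⁆ :=
  pow_step ((g3_le A).trans (g2_le A)) (g4_le A) (fun _ => h.pow3) hx

theorem Sec.conj' {X Y : Subgroup G} {M : Type*} [AddCommGroup M] {χ : G → M} (S : Sec X Y χ)
    {a z : G} (ha : a ∈ X) (hz : z ∈ X) : χ (a * z * a⁻¹) = χ z := by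
  rw [S.add _ (X.mul_mem ha hz) _ (X.inv_mem ha), S.add _ ha _ hz, S.inv ha]
  abel

theorem Cam.l3 [Fact p.Prime] (h : Cam p A) {Y : Subgroup G} (h4 : g4 A ≤ Y) (h3 : Y < g3 A) :
    ∃ (V W U : Type u) (_ : AddCommGroup V) (_ : Module (ZMod p) V) (_ : Finite V)
      (_ : AddCommGroup W) (_ : Module (ZMod p) W) (_ : Finite W)
      (_ : AddCommGroup U) (_ : Module (ZMod p) U) (_ : Finite U)
      (χ₁ : G → V) (χ₂ : G → W) (χ₃ : G → U) (b : V →ₗ[ZMod p] V →ₗ[ZMod p] W)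
      (a : W →ₗ[ZMod p] V →ₗ[ZMod p] U), Sec A (g2 A) χ₁ ∧ Sec (g2 A) (g3 A) χ₂ ∧
        Sec (g3 A) Y χ₃ ∧ L3 b a ∧ (∀ x ∈ A, ∀ y ∈ A, b (χ₁ x) (χ₁ y) = χ₂ ⁅x, y⁆) ∧
        ∀ w ∈ g2 A, ∀ y ∈ A, a (χ₂ w) (χ₁ y) = χ₃ ⁅w, y⁆ := by
  have hne : g2 A ≠ ⊥ := fun e => not_lt_bot (h3.trans_le ((g3_le A).trans e.le))
  obtain ⟨V, _, _, _, χ₁, S₁⟩ := exists_sec (p := p) (le_refl (g2 A)) fun x => h.pow1 hne
  obtain ⟨W, _, _, _, χ₂, S₂⟩ := exists_sec (p := p)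
    (commutator_mono le_rfl (g2_le A) : ⁅g2 A, g2 A⁆ ≤ g3 A) fun x => h.pow2
  obtain ⟨U, _, _, _, χ₃, S₃⟩ := exists_sec (p := p) (Y := Y)
    ((commutator_mono le_rfl ((g3_le A).trans (g2_le A))).trans h4) fun x hx => h4 (h.pow3 hx)
  obtain ⟨b, hb⟩ := exists_bil (p := p) S₁ S₁ S₂ le_rfl le_rfl (norm_of (g3_le A)) le_rfl le_rfl
    (commutator_mono inf_le_right le_rfl)
    (by rw [commutator_comm]; exact commutator_mono inf_le_right le_rfl)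
  obtain ⟨a, ha⟩ := exists_bil (p := p) S₂ S₁ S₃ (g2_le A) le_rfl (norm_of (g4_le A)) h4 le_rfl
    ((commutator_mono inf_le_right le_rfl).trans h4)
    ((commutator_mono le_rfl inf_le_right).trans ((g22_le A).trans h4))
  refine ⟨V, W, U, _, _, ‹_›, _, _, ‹_›, _, _, ‹_›, χ₁, χ₂, χ₃, b, a, S₁, S₂, S₃,
    ⟨fun v => ?_, fun v hv w => ?_, fun x y z => ?_, fun ν hν => ?_, ?_⟩, hb, ha⟩
  · obtain ⟨x, hx, rfl⟩ := S₁.surj v
    rw [hb x hx x hx, commutatorElement_self, S₂.one]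
  · obtain ⟨x, hx, rfl⟩ := S₁.surj v
    obtain ⟨z, hz, rfl⟩ := S₂.surj w
    obtain ⟨y, hy, rfl⟩ := h.cam x hx (mt (S₁.ker x hx).2 hv) z hz
    exact ⟨χ₁ y, hb x hx y hy⟩
  · obtain ⟨x, hx, rfl⟩ := S₁.surj x
    obtain ⟨y, hy, rfl⟩ := S₁.surj y
    obtain ⟨z, hz, rfl⟩ := S₁.surj z
    have k : ∀ x ∈ A, ∀ y ∈ A, ∀ z ∈ A, ⁅⁅x, y⁆, y * z * y⁻¹⁆ ∈ g3 A ∧
        a (b (χ₁ x) (χ₁ y)) (χ₁ z) = χ₃ ⁅⁅x, y⁆, y * z * y⁻¹⁆ := fun x hx y hy z hz => by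
      have e := A.mul_mem (A.mul_mem hy hz) (A.inv_mem hy)
      exact ⟨commutator_mem_commutator (commutator_mem_commutator hx hy) e, by
        rw [hb x hx y hy, ← S₁.conj' hy hz, ha _ (commutator_mem_commutator hx hy) _ e]⟩
    obtain ⟨m1, e1⟩ := k x hx y hy z hz
    obtain ⟨m2, e2⟩ := k y hy z hz x hx
    obtain ⟨m3, e3⟩ := k z hz x hx y hy
    rw [e1, e2, e3, ← S₃.add _ m1 _ m2, ← S₃.add _ (mul_mem m1 m2) _ m3,
      commutatorElement_commutatorElement_conj_mul, S₃.one]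
  · obtain ⟨H, hH⟩ := S₃.exists_sub (LinearMap.ker ν).toAddSubgroup
    have h5 : g3 A ≤ H := commutator_le.2 fun w hw y hy => (hH _).2
      ⟨commutator_mem_commutator hw hy, by rw [← ha w hw y hy]; exact hν _ _⟩
    ext u
    obtain ⟨z, hz, rfl⟩ := S₃.surj u
    exact ((hH z).1 (h5 hz)).2
  · obtain ⟨z, hz, hz'⟩ := SetLike.exists_of_lt h3
    exact nontrivial_of_ne (χ₃ z) 0 (mt (S₃.ker z hz).1 hz')

theorem Cam.sesH (h : Cam p A) {Y : Subgroup G} (h4 : g4 A ≤ Y) (h3 : Y < g3 A) {x : G}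
    (hx : x ∈ A) (hx' : x ∉ g2 A) (hY : ∀ w ∈ g2 A, ⁅w, x⁆ ∈ Y) :
    Y.relIndex (g3 A) ^ 2 ≤ (g3 A).relIndex (g2 A) ∧ ∃ H : Subgroup G, g2 A ≤ H ∧ H ≤ A ∧
      ⁅H, H⁆ ≤ g3 A ∧ ⁅g2 A, H⁆ ≤ Y ∧ (g2 A).relIndex H = (g3 A).relIndex (g2 A) := by
  have := Fact.mk h.prime
  have hne : g2 A ≠ ⊥ := fun e => not_lt_bot (h3.trans_le ((g3_le A).trans e.le))
  obtain ⟨V, W, U, _, _, _, _, _, _, _, _, _, χ₁, χ₂, χ₃, b, a, S₁, S₂, S₃, L, hb, ha⟩ :=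
    h.l3 h4 h3
  have hv : χ₁ x ≠ 0 := mt (S₁.ker x hx).1 hx'
  obtain ⟨H, hH⟩ := S₁.exists_sub (LinearMap.ker (b (χ₁ x))).toAddSubgroup
  replace hH : ∀ y, y ∈ H ↔ y ∈ A ∧ b (χ₁ x) (χ₁ y) = 0 := hH
  have h0 : ∀ (ν : U →ₗ[ZMod p] ZMod p) w, ν (a w (χ₁ x)) = 0 := fun ν w => by
    obtain ⟨w, hw, rfl⟩ := S₂.surj w
    rw [ha w hw x hx, (S₃.ker _ (commutator_mem_commutator hw hx)).2 (hY w hw), map_zero]
  have h1 : ∀ y ∈ H, ∀ (ν : U →ₗ[ZMod p] ZMod p) w, ν (a w (χ₁ y)) = 0 := fun y hy ν w => by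
    by_cases hν : ν = 0
    · simp [hν]
    · exact (L.ker_iff hν hv (h0 ν) _).2 ((hH y).1 hy).2 w
  have hHA : H ≤ A := fun y hy => ((hH y).1 hy).1
  have h2H : g2 A ≤ H := fun y hy => (hH y).2 ⟨g2_le A hy, by
    rw [(S₁.ker y (g2_le A hy)).2 hy, map_zero]⟩
  have := L.nt
  obtain ⟨ν, hν⟩ := exists_fun (F := ZMod p) (U := U)
  have hHH : ⁅H, H⁆ ≤ g3 A := commutator_le.2 fun y hy z hz => by
    rw [← S₂.ker _ (commutator_mem_commutator (hHA hy) (hHA hz)), ← hb y (hHA hy) z (hHA hz)]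
    by_cases e : χ₁ y = 0
    · simp [e]
    · exact (L.ker_iff hν e (h1 y hy ν) _).1 (h1 z hz ν)
  have h2Y : ⁅g2 A, H⁆ ≤ Y := commutator_le.2 fun w hw y hy => by
    rw [← S₃.ker _ (commutator_mem_commutator hw (hHA hy)), ← ha w hw y (hHA hy)]
    exact (forall_dual_apply_eq_zero_iff (ZMod p) _).1 fun φ => h1 y hy φ _
  have hidx : (g2 A).relIndex H = (g3 A).relIndex (g2 A) := by
    have e1 := relIndex_mul_relIndex _ _ _ h2H hHA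
    have e2 := (S₁.comp (b (χ₁ x)).toAddMonoidHom (L.onto _ hv) hH).card_pow (p := p)
    rw [e2, S₁.card_pow (p := p), L.dim.1, two_mul, pow_add] at e1
    rw [S₂.card_pow (p := p)]
    exact Nat.eq_of_mul_eq_mul_right (pow_pos h.prime.pos _) e1
  refine ⟨hidx ▸ ses h.prime (lt_of_le_not_ge h2H fun e => hx' (e ((hH x).2 ⟨hx, L.alt _⟩)))
    (g3_le A) hHH h2Y (fun y hy => h.pow1 hne (hHA hy)) (fun z hz => h4 (h.pow3 hz))
    fun y hy hy' z hz => ?_, H, h2H, hHA, hHH, h2Y, hidx⟩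
  obtain ⟨g, hg, rfl⟩ := h.cam y (hHA hy) hy' z (g3_le A hz)
  refine ⟨g, (hH g).2 ⟨hg, (L.ker_iff hν hv (h0 ν) _).1 ((L.ker_iff hν
    (mt (S₁.ker y (hHA hy)).1 hy') (h1 y hy ν) _).2 ?_)⟩,
    by rw [inv_mul_cancel]; exact one_mem _⟩
  rw [hb y (hHA hy) g hg, S₂.ker _ (g3_le A hz)]
  exact hz

end

end Cfsg.Lib.NDD
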