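import Cfsg.Agent.NDD.Lin3

/-!
# Linear algebra excluding class four
-/

set_option autoImplicit false
set_option linter.unusedSectionVars false
set_option linter.unusedVariables false

namespace Cfsg.Lib.NDD

open Module LinearMap

variable {F V W U : Type*} [Field F] [Finite F] [AddCommGroup V] [Module F V]
  [FiniteDimensional F V] [AddCommGroup W] [Module F W] [FiniteDimensional F W]
  [AddCommGroup U] [Module F U] [FiniteDimensional F U]
  {b : V →ₗ[F] V →ₗ[F] W} {a : W →ₗ[F] V →ₗ[F] U}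

theorem L3.range_le (h : L3 b a) {v₀ v : V} (h0 : v₀ ≠ 0) (hb : b v₀ v = 0) :
    range (a.flip v) ≤ range (a.flip v₀) := by
  rintro _ ⟨w, rfl⟩
  by_contra h1
  obtain ⟨ν, hν, h2⟩ := Submodule.exists_le_ker_of_notMem h1
  exact hν ((h.ker_iff (by rintro rfl; exact hν rfl) h0 (fun w => h2 ⟨w, rfl⟩) v).2 hb w)

theorem L3.no4 (h : L3 b a) (h2 : (2 : F) ≠ 0) (ξ : U →ₗ[F] V →ₗ[F] F) (ω : W →ₗ[F] W →ₗ[F] F)
    (alt : ∀ w, ω w w = 0) (j2 : ∀ w x y, ξ (a w x) y - ξ (a w y) x = ω w (b x y))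
    (hξ : ∀ u, ξ u = 0 → u = 0)
    (h5 : ∀ v, v ≠ 0 → LinearMap.range (a.flip v) ≠ ⊤ →
      2 * (finrank F U - finrank F (LinearMap.range (a.flip v))) ≤ finrank F W) : False := by
  obtain ⟨hn, hk⟩ := h.dim
  have := h.nt
  have hl : 0 < finrank F U := finrank_pos
  have hV1 : finrank F U + finrank F (ker ξ.flip) = finrank F V := by
    have e1 := finrank_range_add_finrank_ker ξ.flip
    have e2 := finrank_range_add_finrank_ker ξ
    rw [ker_eq_bot'.2 hξ, finrank_bot] at e2
    rw [rank_flip] at e1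
    omega
  have hr : ∀ v, finrank F (range (a.flip v)) ≤ finrank F W := fun v => finrank_range_le _
  have htop : ∀ v, range (a.flip v) = ⊤ → finrank F (range (a.flip v)) = finrank F U :=
    fun v e => by rw [e, finrank_top]
  have : Nontrivial V := nontrivial_of_finrank_pos (R := F) (by omega)
  have h0 : 2 * finrank F U ≤ 3 * finrank F W := by
    obtain ⟨v, hv⟩ := _root_.exists_ne (0 : V)
    have e1 := hr v
    by_cases e : range (a.flip v) = ⊤
    · have := htop v e; omega
    · have := h5 v hv e; omega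
  have h1 : ∀ v ∈ ker ξ.flip, ∀ w y, ξ (a w v) y = ω w (b v y) := fun v hv w y => by
    rw [← j2, show ξ (a w y) v = 0 from LinearMap.congr_fun hv _, sub_zero]
  have hker : ∀ v ∈ ker ξ.flip, v ≠ 0 → ker (a.flip v) = ker ω := fun v hv hv0 => by
    ext w
    rw [mem_ker, mem_ker, flip_apply]
    constructor
    · intro e
      ext w'
      obtain ⟨y, rfl⟩ := h.onto v hv0 w'
      rw [← h1 v hv, e]; simp
    · intro e
      refine hξ _ (LinearMap.ext fun y => ?_)
      rw [h1 v hv, e]; simp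
  have hrk : ∀ v ∈ ker ξ.flip, v ≠ 0 →
      finrank F (range (a.flip v)) + finrank F (ker ω) = finrank F W := fun v hv hv0 => by
    rw [← hker v hv hv0, finrank_range_add_finrank_ker]
  have hbb : ∀ v ∈ ker ξ.flip, ∀ v' ∈ ker ξ.flip, b v v' ∈ ker ω := fun v hv v' hv' =>
    LinearMap.ext fun w => by
      rw [alt_neg alt, ← h1 v hv, show ξ (a w v) v' = 0 from LinearMap.congr_fun hv' _]; simp
  have iso : ∀ v ∈ ker ξ.flip, ∀ v' ∈ ker ξ.flip, b v v' = 0 → ∀ y,
      ω (b v y) (b v' y) = 0 := fun v hv v' hv' e y => by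
    have e1 := h.jac v y v'
    rw [alt_neg h.alt v v', e, alt_neg h.alt v' y] at e1
    simp only [neg_zero, map_zero, LinearMap.zero_apply, add_zero, map_neg, LinearMap.neg_apply,
      add_neg_eq_zero] at e1
    have e2 := h1 v' hv' (b v y) y
    rw [e1, h1 v hv, alt_neg alt] at e2
    have e3 : 2 * ω (b v y) (b v' y) = 0 := by linear_combination -e2
    exact (mul_eq_zero.1 e3).resolve_left h2
  have BD : finrank F (ker ω) < finrank F W → ∀ I : Submodule F V, I ≤ ker ξ.flip →
      (∀ v ∈ I, ∀ v' ∈ I, b v v' = 0) →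
      2 * finrank F I + finrank F (ker ω) ≤ finrank F W := fun hlt I hI hab => by
    by_cases hI0 : I = ⊥
    · rw [hI0, finrank_bot]; omega
    obtain ⟨v₀, hv₀, h0⟩ := Submodule.exists_mem_ne_zero_of_ne_bot hI0
    obtain ⟨u, hu, hu0⟩ := Submodule.exists_mem_ne_zero_of_ne_bot (p := range (a.flip v₀))
      fun e => by
        have := hrk v₀ (hI hv₀) h0
        rw [e, finrank_bot] at this
        omega
    obtain ⟨y, hy⟩ : ∃ y, ξ u y ≠ 0 := by
      by_contra e
      push Not at e
      exact hu0 (hξ u (LinearMap.ext e))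
    have e1 : ∀ v ∈ I, b v y ∈ ker ω → v = 0 := fun v hv e => by_contra fun hv0 => by
      obtain ⟨w, rfl⟩ := h.range_le hv0 (hab v hv v₀ hv₀) hu
      apply hy
      rw [flip_apply, h1 v (hI hv), alt_neg alt, show ω (b v y) = 0 from e]
      simp
    have e2 := iso_bound ω (I.map (b.flip y) ⊔ ker ω) fun x hx x' hx' => by
      obtain ⟨_, ⟨v, hv, rfl⟩, w, hw, rfl⟩ := Submodule.mem_sup.1 hx
      obtain ⟨_, ⟨v', hv', rfl⟩, w', hw', rfl⟩ := Submodule.mem_sup.1 hx'
      rw [map_add, map_add ω, show ω w = 0 from hw, add_zero, alt_neg alt w',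
        show ω w' = 0 from hw', flip_apply, flip_apply, iso v (hI hv) v' (hI hv') (hab v hv v' hv')]
      simp
    have e3 := Submodule.finrank_sup_add_finrank_inf_eq (I.map (b.flip y)) (ker ω)
    have e4 : I.map (b.flip y) ⊓ ker ω = ⊥ := eq_bot_iff.2 (by
      rintro _ ⟨⟨v, hv, rfl⟩, e⟩
      rw [e1 v hv e, map_zero]
      exact zero_mem _)
    have e5 := finrank_range_add_finrank_ker (b.flip y ∘ₗ I.subtype)
    rw [ker_eq_bot'.2 (fun v e => Subtype.ext (e1 v v.2 (by
      rw [show b v y = 0 from e]; exact zero_mem _))), finrank_bot, range_comp,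
      Submodule.range_subtype] at e5
    rw [e4, finrank_bot] at e3
    omega
  obtain ⟨v₀, hv₀, hv0⟩ := Submodule.exists_mem_ne_zero_of_ne_bot (p := ker ξ.flip) fun e => by
    rw [e, finrank_bot] at hV1
    omega
  have e0 := hrk v₀ hv₀ hv0
  have hb0 := finrank_range_add_finrank_ker (b v₀)
  rw [range_eq_top.2 (h.onto v₀ hv0), finrank_top] at hb0
  by_cases hω : ker ω = ⊤
  · rw [hω, finrank_top] at e0
    have e1 := h5 v₀ hv0 fun e => by have := htop v₀ e; omega
    obtain ⟨ν, hν⟩ := exists_fun (F := F) (U := U)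
    have e2 : ∀ v ∈ ker ξ.flip, ∀ w, ν (a w v) = 0 := fun v hv w => by
      by_cases hv' : v = 0
      · simp [hv']
      · rw [show a w v = 0 from ((hker v hv hv').trans hω).ge (Submodule.mem_top (x := w)),
          map_zero]
    have e3 := Submodule.finrank_mono (show ker ξ.flip ≤ ker (b v₀) from fun v hv =>
      (h.ker_iff hν hv0 (e2 v₀ hv₀) v).1 (e2 v hv))
    omega
  have hlt := Submodule.finrank_lt hω
  obtain ⟨w, -, hw⟩ := SetLike.exists_of_lt (lt_top_iff_ne_top.2 hω)
  have hw0 : w ≠ 0 := fun e => hw (by rw [e]; exact zero_mem _)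
  have e1 := finrank_range_add_finrank_ker (a w)
  rw [range_eq_top.2 (h.surj hw0), finrank_top] at e1
  have e2 := Submodule.finrank_sup_add_finrank_inf_eq (ker (a w)) (ker ξ.flip)
  rw [show ker (a w) ⊓ ker ξ.flip = ⊥ from eq_bot_iff.2 fun v hv => by_contra fun e =>
    hw ((hker v hv.2 e).le hv.1), finrank_bot] at e2
  have e3 := Submodule.finrank_le (ker (a w) ⊔ ker ξ.flip)
  by_cases e4 : range (a.flip v₀) = ⊤
  · have e5 := htop v₀ e4
    have e6 : ker ω = ⊥ := Submodule.finrank_eq_zero.1 (by omega)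
    have := BD hlt _ le_rfl fun v hv v' hv' => e6.le (hbb v hv v' hv')
    omega
  have e5 := h5 v₀ hv0 e4
  obtain ⟨ν, hν, e6⟩ := Submodule.exists_le_ker_of_lt_top _ (lt_top_iff_ne_top.2 e4)
  have e7 : ∀ v, b v₀ v = 0 → ∀ w, ν (a w v) = 0 := fun v =>
    (h.ker_iff hν hv0 (fun w => e6 ⟨w, rfl⟩) v).2
  have e8 := BD hlt (ker ξ.flip ⊓ ker (b v₀)) inf_le_left fun v hv v' hv' => by
    by_cases e : v = 0
    · simp [e]
    · exact (h.ker_iff hν e (e7 v hv.2) v').1 (e7 v' hv'.2)
  have e9 := finrank_range_add_finrank_ker (b v₀ ∘ₗ (ker ξ.flip).subtype)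
  have e10 := Submodule.finrank_mono (show range (b v₀ ∘ₗ (ker ξ.flip).subtype) ≤ ker ω by
    rintro _ ⟨v, rfl⟩
    exact hbb v₀ hv₀ v v.2)
  rw [ker_comp, ← Submodule.finrank_map_subtype_eq (ker ξ.flip) (Submodule.comap _ _),
    Submodule.map_comap_subtype] at e9
  have e11 : ker (a w) = ⊥ := eq_bot_iff.2 fun v hv => by_contra fun e => by
    have f1 := hr v
    have f2 := h5 v e fun f2 => by have := htop v f2; omega
    have f3 := finrank_range_add_finrank_ker (a.flip v)
    have f4 : ker (a.flip v) = ⊥ := Submodule.finrank_eq_zero.1 (by omega)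
    exact hw0 (f4.le hv)
  rw [e11, finrank_bot] at e1
  omega

end Cfsg.Lib.NDD
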