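import Cfsg.Agent.NDD.CamA
import Cfsg.Agent.NDD.Lin4

/-!
# Camina `p`-groups have class at most three
-/

set_option autoImplicit false
set_option linter.unusedSectionVars false
set_option linter.unusedVariables false

namespace Cfsg.Lib.NDD

open Subgroup Module
open scoped commutatorElement

universe u

variable {G : Type u} [Group G] [Finite G] {p : ℕ}

theorem pow_mul_mem {X Y : Subgroup G} (h : ⁅X, X⁆ ≤ Y) {a b : G} (ha : a ∈ X) (hb : b ∈ X)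
    (n : ℕ) : (a ^ n * b ^ n)⁻¹ * (a * b) ^ n ∈ Y := by
  obtain ⟨M, _, χ, S⟩ := exists_sec0 h
  rw [← S.eq_iff (mul_mem (pow_mem ha n) (pow_mem hb n)) (pow_mem (mul_mem ha hb) n),
    S.add _ (pow_mem ha n) _ (pow_mem hb n), S.pow ha, S.pow hb, S.pow (mul_mem ha hb),
    S.add _ ha _ hb, nsmul_add]

theorem fun_surj {F U : Type*} [Field F] [AddCommGroup U] [Module F U] {ν : U →ₗ[F] F}
    (h : ν ≠ 0) : Function.Surjective ν := fun c => by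
  obtain ⟨u, hu⟩ : ∃ u, ν u ≠ 0 := by
    by_contra e
    push Not at e
    exact h (LinearMap.ext e)
  exact ⟨(c / ν u) • u, by rw [map_smul, smul_eq_mul, div_mul_cancel₀ _ hu]⟩

section
variable {A : Subgroup G}

theorem Cam.odd (h : Cam p A) (h3 : ¬ g3 A ≤ g4 A) :
    p ≠ 2 ∧ (∀ x ∈ A, x ^ p ∈ g3 A) ∧ ∀ w ∈ g2 A, w ^ p ∈ g4 A := by
  have := Fact.mk h.prime
  have hlt : g4 A < g3 A := lt_of_le_not_ge (g4_le A) h3
  have hne : g2 A ≠ ⊥ := fun e => not_lt_bot (hlt.trans_le ((g3_le A).trans e.le))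
  obtain ⟨V, W, U, _, _, _, _, _, _, _, _, _, χ₁, χ₂, χ₃, b, a, S₁, S₂, S₃, L, hb, ha⟩ :=
    h.l3 le_rfl hlt
  have := L.nt
  have hk : 2 ≤ finrank (ZMod p) W := by
    obtain ⟨ν, hν⟩ := exists_fun (F := ZMod p) (U := U)
    obtain ⟨Y, hY⟩ := S₃.exists_sub (LinearMap.ker ν).toAddSubgroup
    replace hY : ∀ y, y ∈ Y ↔ y ∈ g3 A ∧ ν (χ₃ y) = 0 := hY
    have S := S₃.comp ν.toAddMonoidHom (fun_surj hν) hY
    obtain ⟨v, hv, h0⟩ := L.exists_ne ν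
    obtain ⟨x, hx, rfl⟩ := S₁.surj v
    have h1 := (h.sesH (Y := Y) (fun z hz => (hY z).2 ⟨g4_le A hz, by
        rw [(S₃.ker z (g4_le A hz)).2 hz, map_zero]⟩)
      (lt_of_le_not_ge (fun z hz => ((hY z).1 hz).1) fun e => by
        obtain ⟨z, hz, e1⟩ := S.surj 1
        exact one_ne_zero (e1.symm.trans ((hY z).1 (e hz)).2))
      hx (mt (S₁.ker x hx).2 hv) fun w hw => (hY _).2
        ⟨commutator_mem_commutator hw hx, by rw [← ha w hw x hx]; exact h0 _⟩).1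
    rw [← S.card, Nat.card_zmod, S₂.card_pow (p := p)] at h1
    exact (Nat.pow_le_pow_iff_right h.prime.one_lt).1 h1
  obtain ⟨s, hs⟩ := S₂.lift (p := p) (fun w => χ₃ (w ^ p)) (fun w hw w' hw' => by
      rw [← S₃.add _ (h.pow2 hw) _ (h.pow2 hw'), eq_comm,
        S₃.eq_iff (mul_mem (h.pow2 hw) (h.pow2 hw')) (h.pow2 (mul_mem hw hw'))]
      exact pow_mul_mem (g22_le A) hw hw' p)
    fun w _ hw => (S₃.ker _ (pow_mem hw p)).2 (h.pow3 hw)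
  obtain ⟨M, _, χ, S⟩ := exists_sec0 (g22_le A)
  have tr : ∀ u ∈ g3 A, ∀ v ∈ g3 A, χ u = χ v ↔ χ₃ u = χ₃ v := fun u hu v hv => by
    rw [S.eq_iff (g3_le A hu) (g3_le A hv), S₃.eq_iff hu hv]
  have key : ∀ x ∈ A, ∀ y ∈ A, ∀ n : ℕ,
      χ ⁅x ^ n, y⁆ + n.choose 2 • χ ⁅⁅x, y⁆, x⁆ = n • χ ⁅x, y⁆ := fun x hx y hy n => by
    have hc := commutator_mem_commutator hx hy
    have hd : ⁅⁅x, y⁆, x⁆ ∈ g3 A := commutator_mem_commutator hc hx
    induction n with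
    | zero => simp [S.one]
    | succ n ih =>
      have hn := commutator_mem_commutator (A.pow_mem hx n) hy
      have he : ⁅⁅x ^ n, y⁆, x⁆ ∈ g3 A := commutator_mem_commutator hn hx
      have e1 : χ ⁅⁅x ^ n, y⁆, x⁆ = n • χ ⁅⁅x, y⁆, x⁆ := by
        rw [← S.pow (g3_le A hd), tr _ he _ (pow_mem hd n), S₃.pow hd, ← ha _ hn x hx,
          ← ha _ hc x hx, ← hb _ (A.pow_mem hx n) y hy, ← hb x hx y hy, S₁.pow hx]
        simp
      rw [show ⁅x ^ (n + 1), y⁆ = ⁅⁅x ^ n, y⁆, x⁆⁻¹ * ⁅x ^ n, y⁆ * ⁅x, y⁆ by rw [pow_succ']; group,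
        S.add _ (mul_mem (inv_mem (g3_le A he)) hn) _ hc, S.add _ (inv_mem (g3_le A he)) _ hn,
        S.inv (g3_le A he), e1, Nat.choose_succ_succ', Nat.choose_one_right, add_nsmul, succ_nsmul,
        ← ih]
      abel
  have hπ : ∀ x ∈ A, ∀ y, a (χ₂ (x ^ p)) y =
      s (b (χ₁ x) y) - ((p.choose 2 : ℕ) : ZMod p) • a (b (χ₁ x) y) (χ₁ x) := fun x hx y => by
    obtain ⟨y, hy, rfl⟩ := S₁.surj y
    have hc := commutator_mem_commutator hx hy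
    have hd : ⁅⁅x, y⁆, x⁆ ∈ g3 A := commutator_mem_commutator hc hx
    have he : ⁅x ^ p, y⁆ ∈ g3 A := commutator_mem_commutator (h.pow1 hne hx) hy
    have e1 := key x hx y hy p
    rw [← S.pow hc, ← S.pow (g3_le A hd), ← S.add _ (g3_le A he) _ (pow_mem (g3_le A hd) _),
      tr _ (mul_mem he (pow_mem hd _)) _ (h.pow2 hc), S₃.add _ he _ (pow_mem hd _),
      S₃.pow hd] at e1
    rw [ha _ (h.pow1 hne hx) y hy, hb x hx y hy, hs _ hc, ha _ hc x hx, Nat.cast_smul_eq_nsmul,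
      ← e1, add_sub_cancel_right]
  obtain ⟨e1, e2⟩ := L.pow hk s _ fun v => by
    obtain ⟨x, hx, rfl⟩ := S₁.surj v
    exact ⟨_, hπ x hx⟩
  refine ⟨?_, fun x hx => ?_, fun w hw => ?_⟩
  · rintro rfl
    simp at e1
  · rw [← S₂.ker _ (h.pow1 hne hx)]
    by_contra e
    obtain ⟨u, hu⟩ := _root_.exists_ne (0 : U)
    obtain ⟨y, rfl⟩ := L.surj e u
    exact hu (by rw [hπ x hx, e1, e2]; simp)
  · rw [← S₃.ker _ (h.pow2 hw), ← hs w hw, e2]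
    rfl

theorem Cam.g4_eq (h : Cam p A) : g4 A = ⊥ := by
  have := Fact.mk h.prime
  by_contra hne
  have h4A : g4 A ≤ A := (g4_le A).trans ((g3_le A).trans (g2_le A))
  have h3A : g3 A ≤ A := (g3_le A).trans (g2_le A)
  obtain ⟨M, _, _, _, χ₄, S⟩ := exists_sec (p := p)
    (commutator_mono le_rfl h4A : ⁅g4 A, g4 A⁆ ≤ ⁅g4 A, A⁆) fun x => h.pow4
  obtain ⟨z, hz, hz'⟩ := SetLike.not_le_iff_exists.1 (mt (h.nil h4A) hne)
  have : Nontrivial M := nontrivial_of_ne (χ₄ z) 0 (mt (S.ker z hz).1 hz')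
  obtain ⟨φ, hφ⟩ := exists_fun (F := ZMod p) (U := M)
  obtain ⟨Y₄, hY₄⟩ := S.exists_sub (LinearMap.ker φ).toAddSubgroup
  replace hY₄ : ∀ y, y ∈ Y₄ ↔ y ∈ g4 A ∧ φ (χ₄ y) = 0 := hY₄
  have S₄ := S.comp φ.toAddMonoidHom (fun_surj hφ) hY₄
  generalize (fun x => φ.toAddMonoidHom (χ₄ x)) = χ at S₄
  have h5 : ⁅g4 A, A⁆ ≤ Y₄ := fun u hu => (hY₄ u).2 ⟨g5_le A hu, by
    rw [(S.ker u (g5_le A hu)).2 hu, map_zero]⟩
  have hN : A ≤ normalizer (Y₄ : Set G) :=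
    norm_of ((commutator_mono (fun u hu => ((hY₄ u).1 hu).1) le_rfl).trans h5)
  obtain ⟨Y, hY⟩ : ∃ Y : Subgroup G, ∀ u, u ∈ Y ↔ u ∈ g3 A ∧ ∀ y ∈ A, ⁅u, y⁆ ∈ Y₄ :=
    ⟨g3 A ⊓ Cfsg.Lib.Solv.commLe A Y₄, fun u =>
      ⟨fun hu => ⟨hu.1, hu.2.2⟩, fun hu => ⟨hu.1, hN (h3A hu.1), hu.2⟩⟩⟩
  have h4Y : g4 A ≤ Y := fun u hu =>
    (hY u).2 ⟨g4_le A hu, fun y hy => h5 (commutator_mem_commutator hu hy)⟩
  have hY3 : Y < g3 A := lt_of_le_not_ge (fun u hu => ((hY u).1 hu).1) fun e => by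
    obtain ⟨z, hz, e1⟩ := S₄.surj 1
    exact one_ne_zero (e1.symm.trans ((S₄.ker z hz).2
      (commutator_le.2 (fun u hu => ((hY u).1 (e hu)).2) hz)))
  obtain ⟨V, W, U, _, _, _, _, _, _, _, _, _, χ₁, χ₂, χ₃, b, a, S₁, S₂, S₃, L, hb, ha⟩ :=
    h.l3 h4Y hY3
  obtain ⟨ξ, hξ⟩ := exists_bil (p := p) S₃ S₁ S₄ h3A le_rfl (norm_of (g5_le A)) h5 le_rfl
    (commutator_le.2 fun u hu => ((hY u).1 hu.2).2)
    ((commutator_mono le_rfl inf_le_right).trans ((g32_le A).trans h5))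
  obtain ⟨ω, hω⟩ := exists_bil (p := p) S₂ S₂ S₄ (g2_le A) (g2_le A) (norm_of (g5_le A)) h5
    (g22_le A) ((commutator_mono inf_le_right le_rfl).trans ((g32_le A).trans h5))
    (by rw [commutator_comm]
        exact (commutator_mono inf_le_right le_rfl).trans ((g32_le A).trans h5))
  have alt : ∀ w, ω w w = 0 := fun w => by
    obtain ⟨w, hw, rfl⟩ := S₂.surj w
    rw [hω w hw w hw, commutatorElement_self, S₄.one]
  refine L.no4 (fun e => (h.odd fun e => hY3.not_ge (e.trans h4Y)).1 ?_) ξ ω alt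
    (fun w x y => ?_) (fun u hu => ?_) fun v hv hr => ?_
  · exact (Nat.prime_dvd_prime_iff_eq h.prime Nat.prime_two).1
      ((ZMod.natCast_eq_zero_iff 2 p).1 (by exact_mod_cast e))
  · obtain ⟨w, hw, rfl⟩ := S₂.surj w
    obtain ⟨x, hx, rfl⟩ := S₁.surj x
    obtain ⟨y, hy, rfl⟩ := S₁.surj y
    have c1 : ⁅w, x⁆ ∈ g3 A := commutator_mem_commutator hw hx
    have c2 : ⁅x, y⁆ ∈ g2 A := commutator_mem_commutator hx hy
    have c3 : ⁅w, y⁆ ∈ g3 A := commutator_mem_commutator hw hy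
    have d1 := A.mul_mem (A.mul_mem hx hy) (A.inv_mem hx)
    have d2 : y * w * y⁻¹ ∈ g2 A := (mem_normalizer_iff.1 (norm_of (g3_le A) hy) _).1 hw
    have d3 := A.mul_mem (A.mul_mem (g2_le A hw) hx) (A.inv_mem (g2_le A hw))
    have m1 : ⁅⁅w, x⁆, x * y * x⁻¹⁆ ∈ g4 A := commutator_mem_commutator c1 d1
    have m2 : ⁅⁅x, y⁆, y * w * y⁻¹⁆ ∈ g4 A := g22_le A (commutator_mem_commutator c2 d2)
    have m3 : ⁅⁅w, y⁆⁻¹, w * x * w⁻¹⁆ ∈ g4 A := commutator_mem_commutator (inv_mem c3) d3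
    have e := congrArg χ (commutatorElement_commutatorElement_conj_mul w x y)
    rw [← commutatorElement_inv w y, S₄.add _ (mul_mem m1 m2) _ m3, S₄.add _ m1 _ m2, S₄.one,
      ← hξ _ c1 _ d1, ← hω _ c2 _ d2, ← hξ _ (inv_mem c3) _ d3, S₃.inv c3, S₁.conj' hx hy,
      S₁.conj' (g2_le A hw) hx, S₂.conj (norm_of (g3_le A)) le_rfl hy hw, alt_neg alt (χ₂ w),
      map_neg, LinearMap.neg_apply] at e
    rw [ha w hw x hx, ha w hw y hy, hb x hx y hy]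
    linear_combination e
  · obtain ⟨z, hz, rfl⟩ := S₃.surj u
    refine (S₃.ker z hz).2 ((hY z).2 ⟨hz, fun y hy => ?_⟩)
    rw [← S₄.ker _ (commutator_mem_commutator hz hy), ← hξ z hz y hy, hu]
    rfl
  · obtain ⟨x, hx, rfl⟩ := S₁.surj v
    obtain ⟨Y', hY'⟩ := S₃.exists_sub (LinearMap.range (a.flip (χ₁ x))).toAddSubgroup
    replace hY' : ∀ y, y ∈ Y' ↔ y ∈ g3 A ∧ χ₃ y ∈ LinearMap.range (a.flip (χ₁ x)) := hY'
    have S' := S₃.comp (LinearMap.range (a.flip (χ₁ x))).mkQ.toAddMonoidHom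
      (Submodule.mkQ_surjective _) (H := Y') fun y => (hY' y).trans
        (and_congr_right fun _ => (Submodule.Quotient.mk_eq_zero _).symm)
    have h1 := (h.sesH (Y := Y') (fun z hz => (hY' z).2 ⟨g4_le A hz, by
        rw [(S₃.ker z (g4_le A hz)).2 (h4Y hz)]; exact zero_mem _⟩)
      (lt_of_le_not_ge (fun z hz => ((hY' z).1 hz).1) fun e => hr (eq_top_iff.2 fun u _ => by
        obtain ⟨z, hz, rfl⟩ := S₃.surj u
        exact ((hY' z).1 (e hz)).2))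
      hx (mt (S₁.ker x hx).2 hv) fun w hw => (hY' _).2
        ⟨commutator_mem_commutator hw hx, χ₂ w, ha w hw x hx⟩).1
    rw [S'.card_pow (p := p), S₂.card_pow (p := p), ← pow_mul,
      Nat.pow_le_pow_iff_right h.prime.one_lt] at h1
    have := Submodule.finrank_quotient_add_finrank (LinearMap.range (a.flip (χ₁ x)))
    omega

theorem Cam.f2 (h : Cam p A) {w z : G} (hw : w ∈ g2 A) (hw' : w ∉ g3 A) (hz : z ∈ g3 A) :
    ∃ g ∈ A, ⁅w, g⁆ = z := by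
  have := Fact.mk h.prime
  by_cases h3 : g3 A = ⊥
  · rw [h3, mem_bot] at hz
    exact ⟨1, A.one_mem, by simp [hz]⟩
  obtain ⟨V, W, U, _, _, _, _, _, _, _, _, _, χ₁, χ₂, χ₃, b, a, S₁, S₂, S₃, L, hb, ha⟩ :=
    h.l3 h.g4_eq.le (bot_lt_iff_ne_bot.2 h3)
  obtain ⟨v, hv⟩ := L.surj (mt (S₂.ker w hw).1 hw') (χ₃ z)
  obtain ⟨g, hg, rfl⟩ := S₁.surj v
  rw [ha w hw g hg, S₃.eq_iff (commutator_mem_commutator hw hg) hz, mem_bot,
    inv_mul_eq_one] at hv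
  exact ⟨g, hg, hv⟩

end

end Cfsg.Lib.NDD
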