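import Cfsg.Agent.NDD.Mod
import Cfsg.Agent.Solv.CyclicP

/-! The counting lemma for the module of a Frobenius section. -/

set_option autoImplicit false
set_option linter.unusedSectionVars false
set_option linter.unusedVariables false

namespace Cfsg.Lib.NDD

open Subgroup Cfsg.Lib.Char Cfsg.Lib.Char.Deg Module
open scoped commutatorElement

universe u

variable {G : Type u} [Group G] [Finite G] {p : ℕ}

namespace Cntx

theorem num {c s m g : ℕ} (hs : 2 ≤ s) (hc : 2 ≤ c) (h : c ^ s - 1 ≤ (c - 1) * (m * g))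
    (h1 : g ≤ c - 1) (h2 : s.Prime → g ≤ 1) : c ^ s < (m + 1) ^ 2 := by
  obtain ⟨d, rfl⟩ : ∃ d, c = d + 1 := ⟨c - 1, by omega⟩
  rw [Nat.add_sub_cancel] at h h1
  have h := Nat.sub_le_iff_le_add.1 h
  have hd : 0 < d := by omega
  by_cases h3 : s = 2 ∨ s = 3
  · have h4 : d * (m * g) ≤ d * m := Nat.mul_le_mul_left _ (by
      have := h2 (by rcases h3 with rfl | rfl <;> norm_num)
      nlinarith)
    rcases h3 with rfl | rfl
    · have : d + 2 ≤ m := Nat.le_of_mul_le_mul_left (by nlinarith) hd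
      nlinarith
    · have : d ^ 2 + 3 * d + 3 ≤ m := Nat.le_of_mul_le_mul_left (by nlinarith) hd
      nlinarith [Nat.zero_le (d ^ 2), Nat.zero_le (d ^ 3), Nat.zero_le (d ^ 4),
        Nat.pow_le_pow_left this 2]
  · have h4 : (d + 1) ^ 4 ≤ (d + 1) ^ s := Nat.pow_le_pow_right (by omega) (by omega)
    have h5 : d * (m * g) ≤ m * d ^ 2 := by nlinarith [Nat.mul_le_mul_left (d * m) h1]
    by_contra! h6
    have h7 : m ≤ d ^ 2 := by
      by_contra! h7
      nlinarith
    nlinarith [Nat.mul_le_mul_right (d ^ 2) h7, Nat.zero_le (d ^ 3)]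

end Cntx

open MulAction in
theorem Md.count {N B : Subgroup G} [N.Normal] [B.Normal] {U : Type*} [CommGroup U] [Finite U]
    [MulDistribMulAction G U] (h : Md N B U) {u : U} (hu : u ≠ 1)
    (hd : ¬ N.index ∣ (MulAction.stabilizer G u).index) :
    Nat.card U < (B.relIndex N + 1) ^ 2 := by
  classical
  have := Fintype.ofFinite U
  have := Fintype.ofFinite (N ⧸ B.subgroupOf N)
  have := h.cyc
  let ρ := MulDistribMulAction.toMulAut G U
  have hρ : ∀ g v, ρ g v = g • v := fun _ _ => rfl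
  have kR : ∀ r ∈ ⁅N, N⁆, ρ r = 1 := fun r hr => MulEquiv.ext (h.triv r hr)
  have cB : ∀ b ∈ B, ∀ g, ρ b * ρ g = ρ g * ρ b := fun b hb g => by
    rw [← commutatorElement_eq_one_iff_mul_comm, ← map_commutatorElement, kR _ (h.cen b hb g)]
  have k0 : ∀ v : U, v ≠ 1 → N ⊓ stabilizer G v = ρ.ker ⊓ B := fun v hv => le_antisymm
    (fun x hx => ⟨MulEquiv.ext (h.ker hv hx.1 hx.2), h.inB v hv x hx.1 hx.2⟩)
    fun x hx => ⟨h.lt.le hx.2, DFunLike.congr_fun (hx.1 : ρ x = 1) v⟩
  have ix : ∀ v : U, v ≠ 1 → N.relIndex (stabilizer G v) * (stabilizer G v).index =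
      (ρ.ker ⊓ B).index := fun v hv => by
    rw [← k0 v hv, ← inf_relIndex_right, relIndex_mul_index inf_le_right]
  have se : ∀ v : U, v ≠ 1 → N.relIndex (stabilizer G v) = N.relIndex (stabilizer G u) :=
    fun v hv => Nat.eq_of_mul_eq_mul_right (Nat.pos_of_ne_zero index_ne_zero_of_finite)
      ((ix v hv).trans (h.eq hu hv ▸ (ix u hu).symm))
  have cm : ∀ T : Subgroup G, Nat.card (T.map (QuotientGroup.mk' N)) = N.relIndex T := fun T => by
    rw [← relIndex_ker, QuotientGroup.ker_mk']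
  obtain ⟨τ, hτ⟩ := (Subgroup.isCyclic_iff_exists_zpowers_eq_top
    ((stabilizer G u).map (QuotientGroup.mk' N))).1 inferInstance
  have hτ' : ∀ v : U, v ≠ 1 → zpowers τ = (stabilizer G v).map (QuotientGroup.mk' N) := fun v hv =>
    hτ.trans (Solv.PG.eq_of_card_eq_of_isCyclic (A := ⊤) le_top le_top (by rw [cm, cm, se v hv]))
  have cU : ∀ v : U, v ≠ 1 → Nat.card U = (Finset.univ.filter fun w : U =>
      ∀ t ∈ stabilizer G v, t • w = w).card ^ N.relIndex (stabilizer G u) := fun v hv => by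
    have := h.card (V := ⊤) (fun _ _ _ => mem_top _) (T := stabilizer G v)
      fun b hb hN w _ => h.ker hv hN hb w
    rw [card_top, se v hv] at this
    simpa [Fintype.card_subtype] using this
  have s1 : N.relIndex (stabilizer G u) ≠ 1 := fun e => by
    obtain ⟨g, hg, e1⟩ := h.out u hu
    exact hg (relIndex_eq_one.1 e e1)
  have s0 : N.relIndex (stabilizer G u) ≠ 0 := index_ne_zero_of_finite
  have nd : ¬ N.relIndex (stabilizer G u) ∣ Nat.card (B.map ρ) := by
    rintro ⟨j, hj⟩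
    have e := ix u hu
    rw [← relIndex_mul_index (inf_le_right : ρ.ker ⊓ B ≤ B), inf_relIndex_right, relIndex_ker, hj,
      ← relIndex_mul_index h.lt.le, mul_assoc] at e
    exact hd ⟨j * B.relIndex N, (Nat.eq_of_mul_eq_mul_left (Nat.pos_of_ne_zero s0) e).trans (by ring)⟩
  have ps : ∀ v : U, v ≠ 1 → ∀ g ∈ stabilizer G v, ρ g ^ N.relIndex (stabilizer G u) = 1 :=
    fun v hv g hg => by
      rw [← map_pow, ← se v hv]
      exact ((k0 v hv).le ⟨(N.subgroupOf (stabilizer G v)).pow_index_mem ⟨g, hg⟩, pow_mem hg _⟩).1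
  generalize N.relIndex (stabilizer G u) = s at *
  obtain ⟨t, ht, htτ⟩ := hτ.le (mem_zpowers τ)
  have tN : t ∉ N := fun e => by
    obtain ⟨g, hg, e1⟩ := h.out u hu
    have := hτ.ge ⟨g, e1, rfl⟩
    rw [← htτ, QuotientGroup.mk'_apply N t, (QuotientGroup.eq_one_iff (N := N) t).2 e,
      zpowers_one_eq_bot] at this
    exact hg ((QuotientGroup.eq_one_iff g).1 this)
  have dat : ∀ v : U, ∃ (q : N ⧸ B.subgroupOf N) (y : MulAut U), v ≠ 1 → (y ∈ B.map ρ ∧ y ^ s = 1) ∧
      ∃ g ∈ stabilizer G v, (g : G ⧸ N) = τ ∧ ρ g = ρ (q.out * t * (q.out : G)⁻¹) * y := fun v => by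
    by_cases hv : v = 1
    · exact ⟨1, 1, fun e => absurd hv e⟩
    obtain ⟨g, hg, e⟩ := (hτ' v hv).le (mem_zpowers τ)
    have e1 : g * t⁻¹ ∈ N := by
      rw [← QuotientGroup.eq_one_iff]
      exact mul_inv_eq_one.2 (e.trans htτ.symm)
    obtain ⟨n, hn, e2⟩ := h.toFr.surj tN e1
    obtain ⟨b, e3⟩ := QuotientGroup.mk_out_eq_mul (B.subgroupOf N) ⟨n, hn⟩
    have e4 : ρ g = ρ (n * t * n⁻¹) * ρ (⁅n, t⁆⁻¹ * (g * t⁻¹)) := by
      have : g = n * t * n⁻¹ * (t⁻¹ * (⁅n, t⁆⁻¹ * (g * t⁻¹) * t)) := by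
        rw [commutatorElement_def]; group
      rw [congrArg ρ this, map_mul, map_mul ρ t⁻¹, map_mul ρ _ t, cB _ e2, map_inv,
        inv_mul_cancel_left]
    have e5 : ρ (n * t * n⁻¹) ^ s = 1 := by
      rw [map_mul, map_mul, map_inv, conj_pow, ps u hu t ht]; group
    refine ⟨QuotientGroup.mk ⟨n, hn⟩, ρ (⁅n, t⁆⁻¹ * (g * t⁻¹)), fun _ => ⟨⟨⟨_, e2, rfl⟩, ?_⟩,
      g, hg, e, ?_⟩⟩
    · have := ps v hv g hg
      rwa [e4, (Commute.mul_pow (cB _ e2 _).symm), e5, one_mul] at this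
    · rw [e4, e3]
      congr 1
      simp only [coe_mul, map_mul, map_inv, mul_inv_rev]
      rw [mul_assoc (ρ n) _ (ρ t), cB (b : N) b.2]; group
  choose q y hqy using dat
  set F := fun v : U => Finset.univ.filter fun w : U => ∀ t ∈ stabilizer G v, t • w = w
  have ce : ∀ v : U, v ≠ 1 → (F v).card = (F u).card := fun v hv =>
    Nat.pow_left_injective s0 ((cU v hv).symm.trans (cU u hu))
  have o : ∀ v, (1 : U) ∈ F v := fun v => Finset.mem_filter.2 ⟨Finset.mem_univ _, fun t _ => smul_one t⟩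
  have := Fintype.ofFinite (MulAut U)
  let Γ := Finset.univ.filter fun y : MulAut U => y ∈ B.map ρ ∧ y ^ s = 1
  have main := Finset.card_le_mul_card_image_of_maps_to (f := fun v => (q v, y v))
    (s := Finset.univ.erase 1) (t := Finset.univ ×ˢ Γ) (fun v hv => by
      simpa [Γ] using (hqy v (Finset.ne_of_mem_erase hv)).1) ((F u).card - 1) fun b _ => by
      rcases (Finset.filter (fun v => (q v, y v) = b) (Finset.univ.erase 1)).eq_empty_or_nonempty
        with e | ⟨v, hv⟩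
      · rw [e]; exact Nat.zero_le _
      rw [Finset.mem_filter] at hv
      have v1 := Finset.ne_of_mem_erase hv.1
      rw [← ce v v1, ← Finset.card_erase_of_mem (o v)]
      refine Finset.card_le_card fun w hw => ?_
      rw [Finset.mem_filter, ← hv.2, Prod.mk.injEq] at hw
      have w1 := Finset.ne_of_mem_erase hw.1
      refine Finset.mem_erase.2 ⟨w1, Finset.mem_filter.2 ⟨Finset.mem_univ _, fun x hx => ?_⟩⟩
      obtain ⟨g, hg, e1, e2⟩ := (hqy v v1).2
      obtain ⟨g', hg', -, e3⟩ := (hqy w w1).2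
      rw [hw.2.1, hw.2.2, ← e2] at e3
      have e4 : g ∈ stabilizer G w := (DFunLike.congr_fun e3 w).symm.trans hg'
      obtain ⟨k, hk⟩ := (hτ' v v1).ge ⟨x, hx, rfl⟩
      have e5 : (g ^ k)⁻¹ * x ∈ N := QuotientGroup.eq.1 (by
        rw [QuotientGroup.mk_zpow, e1]; exact hk)
      rw [← mul_inv_cancel_left (g ^ k) x, mul_smul,
        h.ker v1 e5 (mul_mem (inv_mem (zpow_mem hg k)) hx)]
      exact zpow_mem e4 k
  rw [Finset.card_erase_of_mem (Finset.mem_univ _), Finset.card_univ, ← Nat.card_eq_fintype_card,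
    Finset.card_product, Finset.card_univ, ← Nat.card_eq_fintype_card, cU u hu] at main
  rw [cU u hu]
  refine Cntx.num (by omega) (Finset.one_lt_card.2 ⟨1, o u, u, Finset.mem_filter.2
    ⟨Finset.mem_univ _, fun t ht => ht⟩, hu.symm⟩) main ?_ fun hs => ?_
  · rw [← Finset.card_erase_of_mem (o u)]
    refine Finset.card_le_card_of_injOn (fun y => y u) (fun y hy => ?_) fun y hy z hz e => ?_
    · obtain ⟨b, hb, rfl⟩ := (Finset.mem_filter.1 hy).2.1
      refine Finset.mem_erase.2 ⟨mt (ρ b).map_eq_one_iff.1 hu, Finset.mem_filter.2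
        ⟨Finset.mem_univ _, fun x hx => ?_⟩⟩
      exact (DFunLike.congr_fun (cB b hb x) u).symm.trans (congrArg (ρ b) hx)
    · obtain ⟨b, hb, rfl⟩ := (Finset.mem_filter.1 hy).2.1
      obtain ⟨c, hc, rfl⟩ := (Finset.mem_filter.1 hz).2.1
      rw [← inv_mul_eq_one, ← map_inv, ← map_mul]
      exact ((k0 u hu).le ⟨h.lt.le (mul_mem (inv_mem hb) hc), mem_stabilizer_iff.2 (by
        rw [mul_smul, inv_smul_eq_iff]; exact e.symm)⟩).1
  · have k : ∀ y ∈ Γ, y = 1 := fun y hy => (pow_eq_one_iff_of_coprime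
      (hs.coprime_iff_not_dvd.2 nd)).1 ⟨(Finset.mem_filter.1 hy).2.2, orderOf_dvd_iff_pow_eq_one.1
        (Subgroup.orderOf_dvd_natCard _ (Finset.mem_filter.1 hy).2.1)⟩
    exact Finset.card_le_one.2 fun a ha b hb => (k a ha).trans (k b hb).symm

end Cfsg.Lib.NDD
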