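import Cfsg.Agent.Char.DegFour
import Cfsg.Agent.Char.DegGraph
import Cfsg.Agent.Char.Camina

/-!
# Solvable groups without divisibility among character degrees: definitions
-/

set_option autoImplicit false

namespace Cfsg.Lib.NDD

open Subgroup Cfsg.Lib.Char
open scoped commutatorElement

/-- No non-linear degree divides a different degree. -/
def NDAD (G : Type*) [Group G] : Prop :=
  ∀ χ ψ : G → ℂ, IsIrrCharacter G χ → IsIrrCharacter G ψ → charDegree χ ≠ 1 →
    charDegree χ ∣ charDegree ψ → charDegree χ = charDegree ψ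

theorem NDAD_eq_1' : type_of% @NDAD.eq_1 := @NDAD.eq_1

/-- All degrees lie in `{1, a, b}`. -/
def Three (G : Type*) [Group G] (a b : ℕ) : Prop :=
  ∀ χ : G → ℂ, IsIrrCharacter G χ → charDegree χ = 1 ∨ charDegree χ = a ∨ charDegree χ = b

theorem Three_eq_1' : type_of% @Three.eq_1 := @Three.eq_1

/-- The case with four degrees. -/
def Four (G : Type*) [Group G] : Prop :=
  derivedSeries G 3 = ⊥ ∧ ∃ f p a b : ℕ, p.Prime ∧
    (∃ χ : G → ℂ, IsIrrCharacter G χ ∧ charDegree χ = f) ∧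
    ∀ χ : G → ℂ, IsIrrCharacter G χ → charDegree χ = 1 ∨ charDegree χ = f ∨
      ((charDegree χ = a ∨ charDegree χ = b) ∧
        ∃ e d : ℕ, 0 < e ∧ d ∣ f ∧ charDegree χ = p ^ e * d)

theorem Four_eq_1' : type_of% @Four.eq_1 := @Four.eq_1

variable {G : Type*} [Group G]

/-- `G / B` is a Frobenius group with abelian kernel `N / B` and cyclic complement, and
`B / N'` is central. -/
structure Fr (N B : Subgroup G) [N.Normal] [B.Normal] : Prop where
  cyc : IsCyclic (G ⧸ N)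
  ne_top : N ≠ ⊤
  lt : B < N
  NB : ⁅N, N⁆ ≤ B
  cen : ∀ b ∈ B, ∀ g, ⁅b, g⁆ ∈ ⁅N, N⁆
  fr : ∀ g, g ∉ N → ∀ x ∈ N, ⁅x, g⁆ ∈ B → x ∈ B

/-- The top of the group: a Camina triple below a cyclic quotient. -/
structure Top (N B : Subgroup G) [N.Normal] [B.Normal] : Prop extends Fr N B where
  nd : NDAD G
  ct : ∀ x ∈ N, x ∉ B → ∀ y ∈ ⁅N, N⁆, ∃ n ∈ N, ⁅x, n⁆ = y
  fx : ∀ y ∈ B, ∃ g, g ∉ N ∧ Commute g y

/-- A module in which every non-trivial stabiliser leaves `N` and meets `N` inside `B`. -/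
structure Md (N B : Subgroup G) [N.Normal] [B.Normal] (U : Type*) [CommGroup U]
    [MulDistribMulAction G U] : Prop extends Fr N B where
  nt : Nontrivial U
  triv : ∀ r ∈ ⁅N, N⁆, ∀ u : U, r • u = u
  inB : ∀ u : U, u ≠ 1 → ∀ x ∈ N, x • u = u → x ∈ B
  out : ∀ u : U, u ≠ 1 → ∃ g, g ∉ N ∧ g • u = u
  anti : ∀ u v : U, u ≠ 1 → v ≠ 1 →
    (MulAction.stabilizer G u).index ∣ (MulAction.stabilizer G v).index →
      (MulAction.stabilizer G u).index = (MulAction.stabilizer G v).index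

/-- second term of the lower central series -/
abbrev g2 (A : Subgroup G) : Subgroup G := ⁅A, A⁆
/-- third term of the lower central series -/
abbrev g3 (A : Subgroup G) : Subgroup G := ⁅g2 A, A⁆
/-- fourth term of the lower central series -/
abbrev g4 (A : Subgroup G) : Subgroup G := ⁅g3 A, A⁆

/-- A Camina `p`-group. -/
structure Cam (p : ℕ) (A : Subgroup G) : Prop where
  prime : p.Prime
  pg : IsPGroup p A
  cam : ∀ x ∈ A, x ∉ g2 A → ∀ y ∈ g2 A, ∃ g ∈ A, ⁅x, g⁆ = y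

/-- `χ` identifies the section `X / (X ∩ Y)` with `M`. -/
structure Sec (X Y : Subgroup G) {M : Type*} [AddCommGroup M] (χ : G → M) : Prop where
  add : ∀ a ∈ X, ∀ b ∈ X, χ (a * b) = χ a + χ b
  ker : ∀ a ∈ X, χ a = 0 ↔ a ∈ Y
  surj : ∀ m, ∃ a ∈ X, χ a = m

/-- The first three layers of the graded Lie ring of a Camina group. -/
structure L3 {F V W U : Type*} [Field F] [AddCommGroup V] [Module F V] [AddCommGroup W]
    [Module F W] [AddCommGroup U] [Module F U] (b : V →ₗ[F] V →ₗ[F] W)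
    (a : W →ₗ[F] V →ₗ[F] U) : Prop where
  alt : ∀ v, b v v = 0
  onto : ∀ v, v ≠ 0 → Function.Surjective (b v)
  jac : ∀ x y z, a (b x y) z + a (b y z) x + a (b z x) y = 0
  span : ∀ ν : U →ₗ[F] F, (∀ w v, ν (a w v) = 0) → ν = 0
  nt : Nontrivial U

end Cfsg.Lib.NDD
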