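import Cfsg.Agent.NDD.CamB
import Cfsg.Agent.Solv.CoprimeGen
import Cfsg.Agent.Solv.Conj

/-!
# Roots in Camina `p`-groups; fixed point free actions
-/

set_option autoImplicit false
set_option linter.unusedSectionVars false
set_option linter.unusedVariables false

namespace Cfsg.Lib.NDD

open Subgroup Module
open scoped commutatorElement

universe u

variable {G : Type u} [Group G] [Finite G] {p : ℕ}

namespace Fpfx

theorem mul_pow_sec {H Z Y : Subgroup G} {M : Type*} [AddCommGroup M] {χ : G → M}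
    (S : Sec Z Y χ) (hZ : Z ≤ H) (hH : ⁅H, H⁆ ≤ Z) (hY : ⁅Z, H⁆ ≤ Y) {x y : G} (hx : x ∈ H)
    (hy : y ∈ H) (n : ℕ) : (x ^ n * y ^ n)⁻¹ * (x * y) ^ n ∈ Z ∧
      χ ((x ^ n * y ^ n)⁻¹ * (x * y) ^ n) = n.choose 2 • χ ⁅y⁻¹, x⁻¹⁆ := by
  have hN : H ≤ normalizer (Z : Set G) := norm_of ((commutator_mono hZ le_rfl).trans hH)
  have hc : ∀ a ∈ H, ∀ z ∈ Z, a * z * a⁻¹ ∈ Z := fun a ha z hz =>
    (mem_normalizer_iff.1 (hN ha) z).1 hz
  induction n with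
  | zero => simp [S.one]
  | succ n ih =>
    have h1 := S.comm_pow hN hY (H.inv_mem hy)
      (hH (commutator_mem_commutator (H.inv_mem hy) (H.inv_mem hx))) n
    have hxy := H.inv_mem (H.mul_mem hx hy)
    rw [show (x ^ (n + 1) * y ^ (n + 1))⁻¹ * (x * y) ^ (n + 1) =
        y⁻¹ * ⁅y⁻¹ ^ n, x⁻¹⁆ * y⁻¹⁻¹ *
          ((x * y)⁻¹ * ((x ^ n * y ^ n)⁻¹ * (x * y) ^ n) * (x * y)⁻¹⁻¹) by
      rw [pow_succ (x * y)]; generalize (x * y) ^ n = w; group]
    refine ⟨Z.mul_mem (hc _ (H.inv_mem hy) _ h1.1) (hc _ hxy _ ih.1), ?_⟩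
    rw [S.add _ (hc _ (H.inv_mem hy) _ h1.1) _ (hc _ hxy _ ih.1), S.conj hN hY (H.inv_mem hy) h1.1,
      S.conj hN hY hxy ih.1, h1.2, ih.2, Nat.choose_succ_succ', Nat.choose_one_right, add_nsmul]

theorem pow_add_sec {H Z Y : Subgroup G} {M : Type*} [AddCommGroup M] {χ : G → M}
    (S : Sec Z Y χ) (hZ : Z ≤ H) (hH : ⁅H, H⁆ ≤ Z) (hY : ⁅Z, H⁆ ≤ Y) (pw : ∀ x ∈ H, x ^ p ∈ Z)
    {x y : G} (hx : x ∈ H) (hy : y ∈ H) :
    χ ((x * y) ^ p) = χ (x ^ p) + χ (y ^ p) + p.choose 2 • χ ⁅y⁻¹, x⁻¹⁆ := by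
  obtain ⟨h1, h2⟩ := mul_pow_sec S hZ hH hY hx hy p
  rw [← h2, ← S.add _ (pw x hx) _ (pw y hy), ← S.add _ (mul_mem (pw x hx) (pw y hy)) _ h1,
    mul_inv_cancel_left]

theorem exists_root (hp : p.Prime) (h2 : p ≠ 2) {H T Z Y : Subgroup G} {χ : G → ZMod p}
    (S : Sec Z Y χ) (hZ : Z ≤ H) (hH : ⁅H, H⁆ ≤ Z) (hY : ⁅Z, H⁆ ≤ Y) (pw : ∀ x ∈ H, x ^ p ∈ Z)
    (hT : p ^ 2 ≤ T.relIndex H) : ∃ x ∈ H, x ∉ T ∧ x ^ p ∈ Y := by
  have := Fact.mk hp
  by_contra h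
  push Not at h
  have h0 : ((p.choose 2 : ℕ) : ZMod p) = 0 := (ZMod.natCast_eq_zero_iff _ _).2
    (hp.dvd_choose_self two_ne_zero (lt_of_le_of_ne hp.two_le h2.symm))
  let φ : H →* Multiplicative (ZMod p) :=
    MonoidHom.mk' (fun x => Multiplicative.ofAdd (χ ((x : G) ^ p))) fun a b => by
      rw [← ofAdd_add, Subgroup.coe_mul, pow_add_sec S hZ hH hY pw a.2 b.2, nsmul_eq_mul, h0,
        zero_mul, add_zero]
  have h1 : φ.ker ≤ T.subgroupOf H := fun x hx => by_contra fun h1 =>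
    h x x.2 h1 ((S.ker _ (pw x x.2)).1 hx)
  have h3 := index_antitone h1
  have h4 := card_le_card_group φ.range
  rw [index_ker] at h3
  rw [Nat.card_congr Multiplicative.toAdd, Nat.card_zmod] at h4
  have h5 : p ^ 1 < p ^ 2 := Nat.pow_lt_pow_right hp.one_lt one_lt_two
  rw [pow_one] at h5
  exact (h5.trans_le hT).not_ge (h3.trans h4)

theorem sec_zmod [hp : Fact p.Prime] {Z Y : Subgroup G} (hYZ : Y ≤ Z) (h : ⁅Z, Z⁆ ≤ Y)
    (pw : ∀ x ∈ Z, x ^ p ∈ Y) (hi : Y.relIndex Z = p) : ∃ χ : G → ZMod p, Sec Z Y χ := by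
  obtain ⟨M, _, _, _, χ, S⟩ := exists_sec (p := p) h pw
  have h1 : finrank (ZMod p) M = finrank (ZMod p) (ZMod p) := by
    rw [finrank_self]
    exact (Nat.pow_right_injective hp.out.two_le ((S.card_pow (p := p)).symm.trans
      (hi.trans (pow_one p).symm)))
  let e := LinearEquiv.ofFinrankEq _ _ h1
  exact ⟨_, S.comp e.toLinearMap.toAddMonoidHom e.surjective fun x =>
    ⟨fun hx => ⟨hYZ hx, e.map_eq_zero_iff.2 ((S.ker x (hYZ hx)).2 hx)⟩,
      fun hx => (S.ker x hx.1).1 (e.map_eq_zero_iff.1 hx.2)⟩⟩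

theorem gen {K E U : Subgroup G} (hU : U ≠ ⊥) (hKE : K ≤ E) (hE : ⁅E, E⁆ ≤ K)
    (hN : E ≤ normalizer (U : Set G)) (hUK : U ≤ centralizer (K : Set G))
    (hc : (Nat.card E).Coprime (Nat.card U)) (hnc : ∀ a ∈ E, ¬ E ≤ zpowers a ⊔ K) :
    ∃ e ∈ E, e ∉ K ∧ U ⊓ centralizer {e} ≠ ⊥ := by
  have hEL : E ≤ normalizer (K : Set G) := norm_of ((commutator_mono hKE le_rfl).trans hE)
  have hUL : U ≤ normalizer (K : Set G) := hUK.trans (centralizer_le_normalizer _)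
  generalize hL : normalizer (K : Set G) = L at hEL hUL
  have hn : (K.subgroupOf L).Normal := hL ▸ normal_in_normalizer
  let π := QuotientGroup.mk' (K.subgroupOf L)
  have hti : ∀ u ∈ U, u ∈ K → u = 1 := fun u hu hk =>
    disjoint_def.1 (disjoint_of_coprime_natCard hc) (hKE hk) hu
  have : IsMulCommutative ((E.subgroupOf L).map π) := ⟨⟨by
    rintro ⟨_, a, ha, rfl⟩ ⟨_, b, hb, rfl⟩
    refine Subtype.ext (commutatorElement_eq_one_iff_mul_comm.1 ?_)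
    change ⁅π a, π b⁆ = 1
    rw [← map_commutatorElement]
    exact (QuotientGroup.eq_one_iff _).2 (hE (commutator_mem_commutator ha hb))⟩⟩
  obtain ⟨_, ⟨a, ha, rfl⟩, h1, h2⟩ := Cfsg.Lib.Solv.Coprime.exists_inf_centralizer_singleton_ne_bot
    (A := (E.subgroupOf L).map π) (K := (U.subgroupOf L).map π) (fun h => by
      obtain ⟨⟨_, a, ha, rfl⟩, h1⟩ := h.exists_generator
      refine hnc a ha fun x hx => ?_
      obtain ⟨k, hk⟩ := h1 ⟨π ⟨x, hEL hx⟩, ⟨x, hEL hx⟩, hx, rfl⟩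
      have h2 : π (a ^ k) = π ⟨x, hEL hx⟩ := by rw [map_zpow]; exact congrArg Subtype.val hk
      have h3 : ((a : G) ^ k)⁻¹ * x ∈ K := (QuotientGroup.eq (s := K.subgroupOf L)).1 h2
      simpa using mul_mem_sup (zpow_mem (mem_zpowers (a : G)) k) h3)
    ((map_mono (show E.subgroupOf L ≤ normalizer (U.subgroupOf L : Set L) from fun a ha =>
      mem_normalizer_iff.2 fun u => mem_normalizer_iff.1 (hN ha) u)).trans (le_normalizer_map π))
    ((hc.coprime_dvd_left ((card_map_dvd _ π).trans (card_comap_dvd_of_injective _ _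
      L.subtype_injective))).coprime_dvd_right ((card_map_dvd _ π).trans
        (card_comap_dvd_of_injective _ _ L.subtype_injective)))
    (fun h => hU (eq_bot_iff.2 fun u hu => hti u hu ((QuotientGroup.eq_one_iff
      (N := K.subgroupOf L) ⟨u, hUL hu⟩).1 (h.le ⟨⟨u, hUL hu⟩, hu, rfl⟩))))
  refine ⟨a, ha, fun h => h1 ((QuotientGroup.eq_one_iff _).2 h), fun h => h2 (eq_bot_iff.2 ?_)⟩
  rintro _ ⟨⟨u, hu, rfl⟩, h3⟩
  have h4 : ⁅(u : G), (a : G)⁆ ∈ K := (QuotientGroup.eq_one_iff (N := K.subgroupOf L) ⁅u, a⁆).1 (by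
    change π _ = 1
    rw [map_commutatorElement, commutatorElement_eq_one_iff_mul_comm]
    exact mem_centralizer_singleton_iff.1 h3)
  have h5 : ⁅(u : G), (a : G)⁆ ∈ U := by
    have := U.mul_mem hu ((mem_normalizer_iff.1 (hN ha) _).1 (U.inv_mem hu))
    simpa [commutatorElement_def, mul_assoc] using this
  have h6 : (u : G) = 1 := h.le ⟨hu, mem_centralizer_singleton_iff.2
    (commutatorElement_eq_one_iff_mul_comm.1 (hti _ h5 h4))⟩
  rw [show u = 1 from Subtype.ext h6, map_one]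
  exact one_mem _

theorem noncyc (hp : p.Prime) {K E : Subgroup G} (hE : ⁅E, E⁆ ≤ K) (pw : ∀ x ∈ E, x ^ p ∈ K)
    (hKE : K ≤ E) (hi : p ^ 2 ≤ K.relIndex E) {a : G} (ha : a ∈ E) : ¬ E ≤ zpowers a ⊔ K := by
  have := Fact.mk hp
  intro h
  obtain ⟨M, _, _, _, χ, S⟩ := exists_sec (p := p) hE pw
  obtain ⟨H, hH⟩ := S.exists_sub ((ZMod p) ∙ χ a).toAddSubgroup
  have h1 : (ZMod p) ∙ χ a = ⊤ := eq_top_iff.2 fun m _ => by
    obtain ⟨x, hx, rfl⟩ := S.surj m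
    exact ((hH x).1 (sup_le (zpowers_le.2 ((hH a).2 ⟨ha, Submodule.mem_span_singleton_self _⟩))
      (fun k hk => (hH k).2 ⟨hKE hk, by rw [(S.ker k (hKE hk)).2 hk]; exact zero_mem _⟩)
        (h hx))).2
  have h2 := finrank_span_le_card (R := ZMod p) ({χ a} : Set M)
  rw [h1, finrank_top] at h2
  rw [S.card_pow (p := p), Nat.pow_le_pow_iff_right hp.one_lt] at hi
  simp at h2
  omega

theorem idx (hp : p.Prime) {A X Y : Subgroup G} (hA : IsPGroup p A) (hY : Y ≤ A) (h : ¬ Y ≤ X) :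
    ∃ j, X.relIndex Y = p ^ (j + 1) := by
  have := Fact.mk hp
  obtain ⟨j, hj⟩ := (hA.to_le hY).index (X.subgroupOf Y)
  cases j with
  | zero => exact absurd (relIndex_eq_one.1 hj) h
  | succ j => exact ⟨j, hj⟩

theorem z1 : ∀ m : ZMod 2, m ≠ 0 → m = 1 := by decide
theorem z2 : ¬ (1 : ZMod 2) = 1 + 1 + 0 := by decide
theorem z3 : ¬ (1 : ZMod 2) + 1 = 1 := by decide

end Fpfx

open Fpfx

section
variable {A : Subgroup G}

theorem Cam.root2 (h : Cam p A) {Y : Subgroup G} (h3 : g3 A ≤ Y) (h2 : Y ≤ g2 A)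
    (hi : Y.relIndex (g2 A) = p) :
    (∃ x ∈ A, x ∉ g2 A ∧ x ^ p ∈ Y) ∨ (g2 A).relIndex A = 4 := by
  classical
  have := Fact.mk h.prime
  have hne : g2 A ≠ ⊥ := fun e => h.prime.one_lt.ne' (by rw [← hi, e, relIndex_bot_right])
  obtain ⟨x₀, hx₀, hx₀'⟩ := h.exists_out hne
  have hs := ses h.prime (lt_of_le_not_ge (g2_le A) fun e => hx₀' (e hx₀)) le_rfl le_rfl h3
    (fun x => h.pow1 hne) (fun z hz => h3 (h.pow2 hz)) fun x hx hx' z hz => by
      obtain ⟨y, hy, rfl⟩ := h.cam x hx hx' z hz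
      exact ⟨y, hy, by rw [inv_mul_cancel]; exact one_mem _⟩
  rw [hi] at hs
  obtain ⟨χ, S⟩ := sec_zmod h2 ((commutator_mono le_rfl (g2_le A)).trans h3)
    (fun z hz => h3 (h.pow2 hz)) hi
  by_cases hp : p = 2
  swap
  · exact Or.inl (exists_root h.prime hp S (g2_le A) le_rfl h3 (fun x => h.pow1 hne) hs)
  subst hp
  refine or_iff_not_imp_left.2 fun h4 => le_antisymm (not_lt.1 fun h5 => ?_) hs
  push Not at h4
  obtain ⟨V, _, _, _, χ₁, S₁⟩ := exists_sec (p := 2) (le_refl (g2 A)) fun x => h.pow1 hne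
  obtain ⟨b, hb⟩ := exists_bil (p := 2) S₁ S₁ S le_rfl le_rfl (norm_of (g3_le A)) h3 le_rfl
    ((commutator_mono inf_le_right le_rfl).trans h3)
    (by rw [commutator_comm]; exact (commutator_mono inf_le_right le_rfl).trans h3)
  have h6 := z1
  have h7 : ∀ x ∈ A, χ₁ x ≠ 0 → χ (x ^ 2) = 1 := fun x hx e => h6 _ fun e' =>
    h4 x hx (mt (S₁.ker x hx).2 e) ((S.ker _ (h.pow1 hne hx)).1 e')
  have h8 : ∀ u v : V, u ≠ 0 → v ≠ 0 → u + v ≠ 0 → b v u = 1 := fun u v hu hv huv => by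
    obtain ⟨x, hx, rfl⟩ := S₁.surj u
    obtain ⟨y, hy, rfl⟩ := S₁.surj v
    have e := pow_add_sec (p := 2) S (g2_le A) le_rfl h3 (fun x => h.pow1 hne) hx hy
    rw [h7 x hx hu, h7 y hy hv, h7 _ (mul_mem hx hy) (by rwa [S₁.add _ hx _ hy]),
      ← hb _ (inv_mem hy) _ (inv_mem hx), S₁.inv hx, S₁.inv hy] at e
    simp only [map_neg, LinearMap.neg_apply, neg_neg, Nat.choose_self, one_smul] at e
    refine h6 _ fun e' => ?_
    rw [e'] at e
    exact z2 e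
  have := Fintype.ofFinite V
  have h9 : ∀ s : Finset V, s.card ≤ 4 → ∃ x, x ∉ s := fun s hs => by
    obtain ⟨x, -, hx⟩ := Finset.exists_mem_notMem_of_card_lt_card (s := s) (t := Finset.univ) (by
      rw [Finset.card_univ, ← Nat.card_eq_fintype_card, S₁.card]; omega)
    exact ⟨x, hx⟩
  have h10 : ∀ u v : V, u + v = 0 → v = u := fun u v e => by
    have e1 : u + u = 0 := by rw [← two_smul (ZMod 2), show (2 : ZMod 2) = 0 from rfl, zero_smul]
    exact add_left_cancel (e.trans e1.symm)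
  obtain ⟨u, hu⟩ := h9 {0} (by simp)
  obtain ⟨v, hv⟩ := h9 {0, u} (Finset.card_le_two.trans (by omega))
  obtain ⟨w, hw⟩ := h9 {0, u, v, u + v} Finset.card_le_four
  simp only [Finset.mem_insert, Finset.mem_singleton, not_or] at hu hv hw
  have e1 := h8 u v hu hv.1 fun e => hv.2 (h10 _ _ e)
  have e2 := h8 u w hu hw.1 fun e => hw.2.1 (h10 _ _ e)
  have e3 := h8 u (v + w) hu (fun e => hw.2.2.1 (h10 _ _ e))
    fun e => hw.2.2.2 (h10 _ _ (by rwa [add_assoc]))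
  rw [map_add, LinearMap.add_apply, e1, e2] at e3
  exact z3 e3

theorem Cam.root3 (h : Cam p A) {Y : Subgroup G} (h3 : Y ≤ g3 A) (hi : Y.relIndex (g3 A) = p) :
    ∃ x ∈ A, x ∉ g2 A ∧ x ^ p ∈ Y := by
  have := Fact.mk h.prime
  have h4 : g4 A ≤ Y := h.g4_eq.le.trans bot_le
  have hlt : Y < g3 A := lt_of_le_not_ge h3 fun e =>
    h.prime.one_lt.ne' (hi.symm.trans (relIndex_eq_one.2 e))
  obtain ⟨h5, h6, -⟩ := h.odd fun e => hlt.not_ge (e.trans h4)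
  obtain ⟨V, W, U, _, _, _, _, _, _, _, _, _, χ₁, χ₂, χ₃, b, a, S₁, S₂, S₃, L, hb, ha⟩ :=
    h.l3 h4 hlt
  have h1 : finrank (ZMod p) U = finrank (ZMod p) (ZMod p) := by
    rw [finrank_self]
    exact (Nat.pow_right_injective h.prime.two_le ((S₃.card_pow (p := p)).symm.trans
      (hi.trans (pow_one p).symm)))
  let e := LinearEquiv.ofFinrankEq _ _ h1
  obtain ⟨v, hv, h0⟩ := L.exists_ne e.toLinearMap
  obtain ⟨x, hx, rfl⟩ := S₁.surj v
  obtain ⟨h7, H, h8, h9, h10, -, h11⟩ := h.sesH h4 hlt hx (mt (S₁.ker x hx).2 hv) fun w hw => by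
    rw [← S₃.ker _ (commutator_mem_commutator hw hx), ← ha w hw x hx]
    exact e.map_eq_zero_iff.1 (h0 _)
  obtain ⟨χ, S⟩ := sec_zmod h3
    ((commutator_mono le_rfl ((g3_le A).trans (g2_le A))).trans h4) (fun z hz => h4 (h.pow3 hz)) hi
  obtain ⟨y, hy, hy'⟩ := exists_root h.prime h5 (T := g2 A) S ((g3_le A).trans h8) h10
    ((commutator_mono le_rfl h9).trans h4) (fun y hy => h6 y (h9 hy)) (by rwa [h11, ← hi])
  exact ⟨y, h9 hy, hy'⟩

theorem Cam.fpf (h : Cam p A) (hne : g2 A ≠ ⊥) {M : Subgroup G} (hM : M ≠ ⊥)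
    (hN : A ≤ normalizer (M : Set G)) (hc : (Nat.card M).Coprime p)
    (hf : ∀ x ∈ A, x ∉ g2 A → ∀ m ∈ M, Commute x m → m = 1) : (g2 A).relIndex A = 4 := by
  have := Fact.mk h.prime
  obtain ⟨K, -, ⟨hKA, hK, hU⟩, hmax⟩ := Finite.exists_le_maximal
    (p := fun K : Subgroup G => K ≤ A ∧ ⁅K, A⁆ ≤ K ∧ M ⊓ centralizer (K : Set G) ≠ ⊥) (a := ⊥)
    ⟨bot_le, by simp, fun e => hM (eq_bot_iff.2 fun m hm => e.le ⟨hm, fun y hy => by
      rw [mem_bot.1 hy, one_mul, mul_one]⟩)⟩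
  have hf' : ∀ x ∈ A, M ⊓ centralizer (K : Set G) ⊓ centralizer {x} ≠ ⊥ → x ∈ g2 A :=
    fun x hx e => by_contra fun hx' => e (eq_bot_iff.2 fun m hm =>
      hf x hx hx' m hm.1.1 (mem_centralizer_singleton_iff.1 hm.2).symm)
  have hK2 : K ≤ g2 A := fun x hx => hf' x (hKA hx) fun e => hU (eq_bot_iff.2 fun m hm =>
    e.le ⟨hm, mem_centralizer_singleton_iff.2 (hm.2 x hx).symm⟩)
  have hAK := norm_of hK
  have MAX : ∀ e ∈ A, (∀ a ∈ A, ⁅e, a⁆ ∈ K) →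
      M ⊓ centralizer (K : Set G) ⊓ centralizer {e} ≠ ⊥ → e ∈ K := fun e he h1 h2 => by
    refine hmax (y := K ⊔ zpowers e) ⟨sup_le hKA (zpowers_le.2 he), le_sup_left.trans'
      (Cfsg.Lib.Solv.le_commLe_iff.1 (sup_le (Cfsg.Lib.Solv.le_commLe_iff.2 ⟨le_normalizer, hK⟩)
        (zpowers_le.2 ⟨hAK he, h1⟩))).2, fun h3 => h2 (eq_bot_iff.2 fun m hm => h3.le ⟨hm.1.1, ?_⟩)⟩
      le_sup_left (mem_sup_right (mem_zpowers e))
    exact le_centralizer_iff.1 (sup_le (le_centralizer_iff.1 (zpowers_le.2 hm.1.2))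
      (zpowers_le.2 fun y hy => by
        obtain ⟨k, rfl⟩ := hy
        exact ((show Commute m e from mem_centralizer_singleton_iff.1 hm.2).zpow_left k).eq))
      (mem_zpowers m)
  have GEN : ∀ E : Subgroup G, K ≤ E → E ≤ A → ⁅E, E⁆ ≤ K → (∀ x ∈ E, x ^ p ∈ K) →
      p ^ 2 ≤ K.relIndex E →
      ∃ e ∈ E, e ∉ K ∧ M ⊓ centralizer (K : Set G) ⊓ centralizer {e} ≠ ⊥ :=
    fun E h1 h2 h3 h4 h5 => gen hU h1 h3
      (h2.trans (Cfsg.Lib.Solv.le_normalizer_inf_centralizer hN hAK)) inf_le_right (by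
        obtain ⟨n, hn⟩ := IsPGroup.iff_card.1 (h.pg.to_le h2)
        rw [hn]
        exact (hc.symm.coprime_dvd_right (card_dvd_of_le inf_le_left)).pow_left n)
      fun a => noncyc h.prime h3 h4 h1 h5
  by_cases h2 : g2 A ≤ K
  · obtain rfl := le_antisymm hK2 h2
    obtain ⟨x₀, hx₀, hx₀'⟩ := h.exists_out hne
    have hs := ses h.prime (lt_of_le_not_ge (g2_le A) fun e => hx₀' (e hx₀)) le_rfl le_rfl le_rfl
      (fun x => h.pow1 hne) (fun z hz => h.pow2 hz) fun x hx hx' z hz => by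
        obtain ⟨y, hy, rfl⟩ := h.cam x hx hx' z hz
        exact ⟨y, hy, by rw [inv_mul_cancel]; exact one_mem _⟩
    obtain ⟨j, hj⟩ := idx h.prime h.pg (g2_le A) (mt (h.nil (g2_le A)) hne)
    obtain ⟨e, he, h3, h4⟩ := GEN A hKA le_rfl le_rfl (fun x => h.pow1 hne)
      ((Nat.pow_le_pow_left (hj ▸ Nat.le_self_pow (Nat.succ_ne_zero j) p) 2).trans hs)
    exact absurd (hf' e he h4) h3
  obtain ⟨L, hKL, hL2, hLA, hLp, hroot⟩ : ∃ L : Subgroup G, K < L ∧ L ≤ g2 A ∧ ⁅L, A⁆ ≤ K ∧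
      (∀ x ∈ L, x ^ p ∈ K) ∧ (K.relIndex L = p →
        (∃ x ∈ A, x ∉ g2 A ∧ x ^ p ∈ K) ∨ (g2 A).relIndex A = 4) := by
    by_cases h3 : g3 A ≤ K
    · exact ⟨g2 A, lt_of_le_not_ge hK2 h2, le_rfl, h3, fun x hx => h3 (h.pow2 hx),
        h.root2 h3 hK2⟩
    · have h4 : K ≤ g3 A := fun w hw => by_contra fun hw' => h3 fun z hz => by
        obtain ⟨g, hg, rfl⟩ := h.f2 (hK2 hw) hw' hz
        exact hK (commutator_mem_commutator hw hg)
      exact ⟨g3 A, lt_of_le_not_ge h4 h3, g3_le A, h.g4_eq.le.trans bot_le,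
        fun x hx => (h.g4_eq.le.trans bot_le) (h.pow3 hx), fun hi => Or.inl (h.root3 h4 hi)⟩
  have hL : L ≤ A := hL2.trans (g2_le A)
  have MAX' : ∀ e ∈ L, M ⊓ centralizer (K : Set G) ⊓ centralizer {e} ≠ ⊥ → e ∈ K := fun e he =>
    MAX e (hL he) fun a ha => hLA (commutator_mem_commutator he ha)
  obtain ⟨j, hj⟩ := idx h.prime h.pg hL hKL.not_ge
  cases j with
  | succ j =>
    obtain ⟨e, he, h3, h4⟩ := GEN L hKL.le hL ((commutator_mono le_rfl hL).trans hLA) hLp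
      (hj ▸ Nat.pow_le_pow_right h.prime.pos (by omega))
    exact absurd (MAX' e he h4) h3
  | zero =>
  rw [zero_add, pow_one] at hj
  refine (hroot hj).resolve_left ?_
  rintro ⟨x, hx, hx', hxp⟩
  have hxA := zpowers_le.2 hx
  have hE : ⁅L ⊔ zpowers x, L ⊔ zpowers x⁆ ≤ K :=
    Cfsg.Lib.Solv.commutator_sup_left_le_of_le_normalizer (hL.trans hAK) (hxA.trans hAK)
      ((commutator_mono le_rfl (sup_le hL hxA)).trans hLA)
      (Cfsg.Lib.Solv.commutator_sup_right_le_of_le_normalizer (hL.trans hAK) (hxA.trans hAK)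
        (by rw [commutator_comm]; exact (commutator_mono le_rfl hxA).trans hLA)
        (commutator_le.2 (by
          rintro _ ⟨i, rfl⟩ _ ⟨j, rfl⟩
          rw [commutatorElement_eq_one_iff_commute.2 (Commute.zpow_zpow_self x i j)]
          exact one_mem _)))
  have hxL : zpowers x ≤ normalizer (L : Set G) := hxA.trans (norm_of (hLA.trans hKL.le))
  obtain ⟨i, hi⟩ := idx h.prime h.pg (X := L) (sup_le hL hxA)
    fun e => hx' (hL2 (e (mem_sup_right (mem_zpowers x))))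
  obtain ⟨e, he, h3, h4⟩ := GEN _ (hKL.le.trans le_sup_left) (sup_le hL hxA) hE (fun y hy => by
      obtain ⟨l, hl, _, ⟨k, rfl⟩, rfl⟩ := (Cfsg.Lib.Solv.mem_sup_of_le_normalizer hxL).1 hy
      have e1 := pow_mul_mem hE (mem_sup_left hl) (mem_sup_right (zpow_mem (mem_zpowers x) k)) p
      have e2 : (x ^ k) ^ p ∈ K := by
        rw [← zpow_natCast, ← zpow_mul, mul_comm, zpow_mul, zpow_natCast]
        exact zpow_mem hxp k
      have e3 := K.mul_mem (K.mul_mem (hLp l hl) e2) e1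
      rwa [mul_inv_cancel_left] at e3) (by
      rw [← relIndex_mul_relIndex _ _ _ hKL.le le_sup_left, hj, hi, sq]
      exact Nat.mul_le_mul_left _ (Nat.le_self_pow (Nat.succ_ne_zero i) p))
  refine h3 (MAX' e ?_ h4)
  have h5 := hf' e (sup_le hL hxA he) h4
  obtain ⟨l, hl, _, ⟨k, rfl⟩, rfl⟩ := (Cfsg.Lib.Solv.mem_sup_of_le_normalizer hxL).1 he
  refine L.mul_mem hl (hKL.le ?_)
  have h6 : x ^ k ∈ g2 A := ((g2 A).mul_mem_cancel_left (hL2 hl)).1 h5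
  by_cases h7 : (p : ℤ) ∣ k
  · obtain ⟨c, rfl⟩ := h7
    simp only
    rw [zpow_mul, zpow_natCast]
    exact zpow_mem hxp c
  · obtain ⟨r, s, hrs⟩ := (Nat.prime_iff_prime_int.1 h.prime).irreducible.coprime_iff_not_dvd.2 h7
    refine absurd ?_ hx'
    rw [← zpow_one x, ← hrs, zpow_add, mul_comm r, mul_comm s, zpow_mul, zpow_mul, zpow_natCast]
    exact mul_mem (zpow_mem (hK2 hxp) r) (zpow_mem h6 s)

end

end Cfsg.Lib.NDD
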