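import Cfsg.Agent.NDD.Bas
import Cfsg.Agent.FT.BG3.Semireg

/-!
# The top of a solvable group without divisibility among degrees
-/

set_option autoImplicit false
set_option linter.unusedSectionVars false
set_option linter.unusedVariables false

namespace Cfsg.Lib.NDD

open Subgroup Cfsg.Lib.Char Cfsg.Lib.Char.Deg Module
open scoped commutatorElement ComplexConjugate

universe u

theorem comm_pow_right {Q : Type*} [Group Q] {a b : Q} (h : Commute b ⁅a, b⁆) (k : ℕ) :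
    ⁅a, b ^ k⁆ = ⁅a, b⁆ ^ k := by
  have h1 : a * b * a⁻¹ = ⁅a, b⁆ * b := by group
  calc ⁅a, b ^ k⁆ = (a * b * a⁻¹) ^ k * (b ^ k)⁻¹ := by rw [conj_pow]; group
    _ = _ := by rw [h1, h.symm.mul_pow]; group

theorem comm_pow_left {Q : Type*} [Group Q] {a b : Q} (h : Commute a ⁅a, b⁆) (k : ℕ) :
    ⁅a ^ k, b⁆ = ⁅a, b⁆ ^ k := by
  rw [← commutatorElement_inv, comm_pow_right (by rw [← commutatorElement_inv]; exact h.inv_right),
    ← inv_pow, commutatorElement_inv]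

theorem exists_faithful {C : Type*} [Group C] [Finite C] (hc : IsCyclic C) :
    ∃ ω : C →* ℂˣ, ∀ x, ω x = 1 → x = 1 := by
  obtain ⟨c, hc⟩ := hc.exists_generator
  have h0 : orderOf c ≠ 0 := (orderOf_pos c).ne'
  have h1 := (Complex.isPrimitiveRoot_exp _ h0).isUnit_unit h0
  have h2 := h1.eq_orderOf
  refine ⟨monoidHomOfForallMemZpowers hc h2.symm.dvd, fun x hx => ?_⟩
  obtain ⟨k, rfl⟩ := hc x
  rw [map_zpow, monoidHomOfForallMemZpowers_apply_gen, ← orderOf_dvd_iff_zpow_eq_one, ← h2,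
    orderOf_dvd_iff_zpow_eq_one] at hx
  exact hx

variable {G : Type u} [Group G] [Finite G] {p : ℕ}

namespace Frontx

variable {K N : Subgroup G} [K.Normal] [N.Normal] {q : ℕ}

theorem fpf (h : FrobSec K N q) {g : G} (hg : g ∉ N) {x : G} (hx : x ∈ N) (hc : ⁅x, g⁆ ∈ K) :
    x ∈ K := by
  let π := QuotientGroup.mk' K
  have : (N.map π).Normal := ‹N.Normal›.map π (QuotientGroup.mk'_surjective K)
  let f : N.map π → N.map π := fun x => ⟨⁅(x : G ⧸ K), π g⁆, comm_mem_left x.2 _⟩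
  have hf : Function.Surjective f := by
    rintro ⟨_, m, hm, rfl⟩
    obtain ⟨n, hn, h1⟩ := h.gen g hg m hm
    refine ⟨⟨π n, mem_map_of_mem _ hn⟩, Subtype.ext ?_⟩
    change ⁅π n, π g⁆ = π m
    rw [← map_commutatorElement]
    exact QuotientGroup.eq.2 h1
  have h1 := Finite.injective_iff_surjective.2 hf (a₁ := ⟨π x, mem_map_of_mem _ hx⟩) (a₂ := 1)
    (Subtype.ext (by
      change ⁅π x, π g⁆ = ⁅1, π g⁆
      rw [← map_commutatorElement, commutatorElement_one_left]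
      exact (QuotientGroup.eq_one_iff _).2 hc))
  exact (QuotientGroup.eq_one_iff _).1 (congrArg Subtype.val h1)

theorem cyc (h : FrobSec K N q) : IsCyclic (G ⧸ N) := by
  let π := QuotientGroup.mk' K
  have hn : (N.map π).Normal := ‹N.Normal›.map π (QuotientGroup.mk'_surjective K)
  obtain ⟨k, hk⟩ := h.pow
  obtain ⟨R, hR⟩ := Subgroup.exists_right_complement'_of_coprime (N := N.map π) (by
    rw [Cfsg.Lib.Solv.card_map_mk', hk, index_map_eq _ (QuotientGroup.mk'_surjective K)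
      (by rw [QuotientGroup.ker_mk']; exact h.lt.le)]
    exact (h.prime.coprime_iff_not_dvd.2 h.not_dvd_index).pow_left k)
  let e : R ≃* G ⧸ N := hR.symm.QuotientMulEquiv.symm.trans
    (QuotientGroup.quotientQuotientEquivQuotient K N h.lt.le)
  have hc := Subgroup.Normal.quotient_commutative_iff_commutator_le.2 h.comm_le
  have : IsMulCommutative R := ⟨⟨fun a b => e.injective (by
    rw [map_mul, map_mul]; exact hc.is_comm.comm _ _)⟩⟩
  have := Cfsg.Lib.FT.regular_abelian_cyclic (H := N.map π) (R := R)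
    (fun h0 => h.lt.not_ge (map_mk'_eq_bot_iff.1 h0)) (by rw [normalizer_eq_top]; exact le_top)
    fun x hx hx1 => eq_bot_iff.2 fun y hy => by
      obtain ⟨⟨y, hy, rfl⟩, h1⟩ := hy
      obtain ⟨x, rfl⟩ := QuotientGroup.mk'_surjective K x
      have h2 : x ∉ N := fun h2 => hx1 (hR.disjoint.le_bot ⟨mem_map_of_mem _ h2, hx⟩)
      refine (QuotientGroup.eq_one_iff _).2 (fpf h h2 hy ((QuotientGroup.eq_one_iff _).1 ?_))
      change π _ = 1
      rw [map_commutatorElement, commutatorElement_eq_one_iff_mul_comm]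
      exact mem_centralizer_singleton_iff.1 h1
  exact isCyclic_of_surjective e e.surjective

/-- The data used below. -/
structure Pre (N : Subgroup G) [N.Normal] : Prop where
  cyc : IsCyclic (G ⧸ N)
  nd : NDAD G
  ne_top : N ≠ ⊤
  deg : ∃ χ, IsIrrCharacter G χ ∧ charDegree χ = N.index

theorem Pre.gen (T : Pre N) : ∃ c : G, c ∉ N ∧ ∀ g : G, ∃ k : ℤ, (c ^ k)⁻¹ * g ∈ N := by
  obtain ⟨c, hc⟩ := T.cyc.exists_generator
  obtain ⟨c, rfl⟩ := QuotientGroup.mk_surjective c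
  have h1 : ∀ g : G, ∃ k : ℤ, (c ^ k)⁻¹ * g ∈ N := fun g => by
    obtain ⟨k, hk⟩ := hc (g : G ⧸ N)
    exact ⟨k, QuotientGroup.eq.1 hk⟩
  refine ⟨c, fun h => T.ne_top (eq_top_iff.2 fun x _ => ?_), h1⟩
  obtain ⟨k, hk⟩ := h1 x
  simpa using N.mul_mem (N.zpow_mem h k) hk

theorem Pre.lin (T : Pre N) {ψ : N → ℂ} (hψ : IsIrrCharacter N ψ) (h1 : charDegree ψ = 1)
    (h : ¬ inertia N ψ ≤ N) : inertia N ψ = ⊤ := by
  have := Fintype.ofFinite G
  have := Fintype.ofFinite N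
  obtain ⟨χ, hχ, h2⟩ := exists_irr_over hψ
  have h3 := deg_over T.cyc hχ hψ h2
  rw [h1, mul_one] at h3
  obtain ⟨ξ, hξ, h4⟩ := T.deg
  have hle := le_inertia hψ.isClassFunction
  by_contra h5
  have h6 := T.nd χ ξ hχ hξ (h3 ▸ mt index_eq_one.1 h5) (h3 ▸ h4 ▸ index_dvd_of_le hle)
  exact h (eq_of_le_of_index_le hle (by rw [← h3, ← h4, h6])).ge

theorem Pre.nl (T : Pre N) {ψ : N → ℂ} (hψ : IsIrrCharacter N ψ) (h1 : charDegree ψ ≠ 1) :
    ¬ inertia N ψ ≤ N := by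
  intro h
  have := Fintype.ofFinite G
  have := Fintype.ofFinite N
  obtain ⟨χ, hχ, h2⟩ := T.deg
  have h3 := T.nd χ _ hχ ((isIrrCharacter_indFun_normal_iff hψ).2 h)
    (h2 ▸ mt index_eq_one.1 T.ne_top)
    (by rw [deg_indFun N hψ.isCharacter, h2]; exact dvd_mul_right _ _)
  rw [deg_indFun N hψ.isCharacter, h2] at h3
  exact h1 (Nat.eq_of_mul_eq_mul_left (Nat.pos_of_ne_zero index_ne_zero_of_finite)
    (h3.symm.trans (mul_one _).symm))

theorem comm_mk {a b : G} (ha : a ∈ N) (hb : b ∈ N) :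
    QuotientGroup.mk' ⁅N, N⁆ a * QuotientGroup.mk' ⁅N, N⁆ b =
      QuotientGroup.mk' ⁅N, N⁆ b * QuotientGroup.mk' ⁅N, N⁆ a := by
  rw [← commutatorElement_eq_one_iff_mul_comm, ← map_commutatorElement]
  exact (QuotientGroup.eq_one_iff _).2 (commutator_mem_commutator ha hb)

theorem exists_al (N : Subgroup G) [N.Normal] (g : G) :
    ∃ α : N →* G ⧸ ⁅N, N⁆, ∀ x : N, α x = QuotientGroup.mk' ⁅N, N⁆ ⁅(x : G), g⁆ := by
  refine ⟨MonoidHom.mk' (fun x => QuotientGroup.mk' ⁅N, N⁆ ⁅(x : G), g⁆) fun x y => ?_,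
    fun _ => rfl⟩
  have h1 := comm_mk x.2 (comm_mem_left y.2 g)
  rw [comm_mk (comm_mem_left x.2 g) (comm_mem_left y.2 g),
    show ⁅((x * y : N) : G), g⁆ = x * ⁅(y : G), g⁆ * (x : G)⁻¹ * ⁅(x : G), g⁆ by
      rw [Subgroup.coe_mul]; group, map_mul, map_mul, map_mul, h1, map_inv]
  group

theorem Pre.fr0 (T : Pre N) {g : G} (hg : g ∉ N) {x : G} (hx : x ∈ N)
    (h : ⁅x, g⁆ ∈ ⁅N, N⁆) (t : G) : ⁅x, t⁆ ∈ ⁅N, N⁆ := by
  obtain ⟨c, hc, hgen⟩ := T.gen
  obtain ⟨α, hα⟩ := exists_al N g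
  obtain ⟨γ, hγ⟩ := exists_al N c
  let π := QuotientGroup.mk' ⁅N, N⁆
  have h1 : ∀ y : N, y ∈ γ.ker → ∀ t, π ⁅(y : G), t⁆ = 1 := fun y hy t => by
    obtain ⟨k, hk⟩ := hgen t
    rw [MonoidHom.mem_ker, hγ, map_commutatorElement, commutatorElement_eq_one_iff_commute] at hy
    rw [map_commutatorElement, commutatorElement_eq_one_iff_commute,
      show t = c ^ k * ((c ^ k)⁻¹ * t) by group, map_mul, map_zpow]
    exact (hy.zpow_right k).mul_right (comm_mk y.2 hk)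
  have h2 : γ.range ≤ α.range := by
    rintro _ ⟨y, rfl⟩
    by_contra h3
    obtain ⟨lam, h4, h5⟩ := exists_monoidHom_ker_ge_apply_ne_one
      (α.range.comap (π.comp N.subtype)) ((commutator_le_subgroupOf_self N).trans fun z hz => by
        rw [mem_comap, show (π.comp N.subtype) z = 1 from (QuotientGroup.eq_one_iff _).2 hz]
        exact one_mem _) (g := ⟨⁅(y : G), c⁆, comm_mem_left y.2 c⟩) (by rwa [hγ] at h3)
    have h6 := T.lin (isIrrCharacter_monoidHom lam) (deg_monoidHom lam) fun h6 => hg (h6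
      (mem_inertia'.2 fun n => by
        have h7 := h4 ⟨⁅(n : G), g⁆, comm_mem_left n.2 g⟩ ⟨n, hα n⟩
        rw [show (⟨⁅(n : G), g⁆, comm_mem_left n.2 g⟩ : N) =
          n * (⟨g * n * g⁻¹, ‹N.Normal›.conj_mem n n.2 g⟩ : N)⁻¹ from
            Subtype.ext (by simp [commutatorElement_def, mul_assoc]), map_mul, map_inv,
          mul_inv_eq_one] at h7
        rw [h7]))
    have h7 := mem_inertia'.1 (h6.ge (mem_top c)) y
    apply h5
    rw [show (⟨⁅(y : G), c⁆, comm_mem_left y.2 c⟩ : N) =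
      y * (⟨c * y * c⁻¹, ‹N.Normal›.conj_mem y y.2 c⟩ : N)⁻¹ from
        Subtype.ext (by simp [commutatorElement_def, mul_assoc]), map_mul, map_inv,
      mul_inv_eq_one]
    exact Units.ext h7.symm
  have h3 : γ.ker = α.ker := eq_of_le_of_index_le
    (fun y hy => by rw [MonoidHom.mem_ker, hα]; exact h1 y hy g)
    (by rw [index_ker, index_ker]; exact card_le_of_le h2)
  exact (QuotientGroup.eq_one_iff _).1 (h1 ⟨x, hx⟩ (by
    rw [h3, MonoidHom.mem_ker, hα]; exact (QuotientGroup.eq_one_iff _).2 h) t)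

variable {B : Subgroup G} [B.Normal]

theorem Pre.fr1 (T : Pre N) (hB : ∀ x, x ∈ B ↔ x ∈ N ∧ ∀ t, ⁅x, t⁆ ∈ ⁅N, N⁆)
    (hq : ∀ p : ℕ, p.Prime → ∀ K : Subgroup G, K.Normal → (∃ k, K.index = p ^ k) →
      commutator G ≤ K) {l : ℕ} (hl : l.Prime) {g : G} (hg : g ∉ N) (hgl : g ^ l ∈ N) {x : G}
    (hx : x ∈ N) (h : ⁅x, g⁆ ∈ B) : x ∈ B := by
  let π := QuotientGroup.mk' ⁅N, N⁆
  have hz : ∀ y ∈ B, ∀ w : G, Commute (π w) (π y) := fun y hy w => by
    rw [← commutatorElement_eq_one_iff_commute, ← map_commutatorElement, ← commutatorElement_inv,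
      map_inv, inv_eq_one]
    exact (QuotientGroup.eq_one_iff _).2 (((hB y).1 hy).2 w)
  have h1 : ∀ (t : G) (r : ℕ), t ^ r ∈ N → ⁅x, t⁆ ∈ B → π ⁅x, t⁆ ^ r = 1 := fun t r h1 h2 => by
    have h3 := hz _ h2 t
    rw [map_commutatorElement] at h3 ⊢
    rw [← comm_pow_right h3, ← map_pow, commutatorElement_eq_one_iff_mul_comm]
    exact comm_mk hx h1
  have h2 : ∀ (t : G) (r : ℕ), t ∉ N → t ^ r ∈ N → ⁅x, t⁆ ∈ B → x ^ r ∈ B :=
    fun t r h0 h2 h3 => (hB _).2 ⟨N.pow_mem hx r, T.fr0 h0 (N.pow_mem hx r)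
      ((QuotientGroup.eq_one_iff _).1 (by
        have h4 := hz _ h3 x
        have h5 := h1 t r h2 h3
        rw [map_commutatorElement] at h4 h5
        change π _ = 1
        rw [map_commutatorElement, map_pow, comm_pow_left h4, h5]))⟩
  by_cases h3 : ∃ r, r.Prime ∧ r ∣ N.index ∧ r ≠ l
  · obtain ⟨r, hr, h4, h5⟩ := h3
    have := Fact.mk hr
    obtain ⟨t, ht⟩ := exists_prime_orderOf_dvd_card' (G := G ⧸ N) r h4
    obtain ⟨t, rfl⟩ := QuotientGroup.mk_surjective t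
    have h6 : t ∉ N := fun h6 => hr.one_lt.ne' (by
      rw [← ht, (QuotientGroup.eq_one_iff t).2 h6, orderOf_one])
    have h7 : t ^ r ∈ N := by
      rw [← QuotientGroup.eq_one_iff, QuotientGroup.mk_pow, ← ht, pow_orderOf_eq_one]
    have hgt : ⁅g, t⁆ ∈ N := Subgroup.Normal.quotient_commutative_iff_commutator_le.1
      T.cyc.isMulCommutative (commutator_mem_commutator (mem_top g) (mem_top t))
    have h8 : ⁅x, t⁆ ∈ B := (hB _).2 ⟨comm_mem_left hx t, T.fr0 hg (comm_mem_left hx t)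
      ((QuotientGroup.eq_one_iff _).1 (by
        change π _ = 1
        have e1 := comm_mk hgt (‹N.Normal›.conj_mem _ (N.inv_mem (‹N.Normal›.conj_mem x hx g)) t)
        have e2 := (hz _ h (x * t * x⁻¹)).eq
        rw [map_commutatorElement, commutatorElement_eq_one_iff_mul_comm, eq_comm,
          ← mul_inv_eq_iff_eq_mul]
        simp only [map_commutatorElement, map_mul, map_inv] at e1 e2 ⊢
        generalize π x = X at *
        generalize π g = Y at *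
        generalize π t = Z at *
        calc Y * ⁅X, Z⁆ * Y⁻¹
            = Y * X * Y⁻¹ * (⁅Y, Z⁆ * (Z * (Y * X * Y⁻¹)⁻¹ * Z⁻¹)) * ⁅Y, Z⁆⁻¹ := by group
          _ = ⁅X, Y⁆⁻¹ * (X * Z * X⁻¹ * ⁅X, Y⁆) * Z⁻¹ := by rw [e1]; group
          _ = _ := by rw [e2]; group))⟩
    have h9 := h2 g l hg hgl h
    have h10 := h2 t r h6 h7 h8
    rw [← QuotientGroup.eq_one_iff, QuotientGroup.mk_pow] at h9 h10
    rw [← QuotientGroup.eq_one_iff]
    exact (pow_eq_one_iff_of_coprime ((Nat.coprime_primes hr hl).2 h5)).1 ⟨h10, h9⟩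
  · push Not at h3
    have := Fact.mk hl
    have hf : N.index = l ^ _ :=
      Nat.eq_prime_pow_of_unique_prime_dvd index_ne_zero_of_finite fun {r} hr h4 => h3 r hr h4
    obtain ⟨v, j, hj, hvj⟩ := Nat.exists_eq_pow_mul_and_not_dvd (Nat.card_pos (α := G)).ne' l
      hl.one_lt.ne'
    let M : Subgroup G :=
      { carrier := {n | n ∈ N ∧ π n ^ j = 1}
        mul_mem' := fun {a b} ha hb => ⟨N.mul_mem ha.1 hb.1, by
          rw [map_mul, Commute.mul_pow (comm_mk ha.1 hb.1), ha.2, hb.2, one_mul]⟩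
        one_mem' := ⟨N.one_mem, by simp⟩
        inv_mem' := fun {a} ha => ⟨N.inv_mem ha.1, by rw [map_inv, inv_pow, ha.2, inv_one]⟩ }
    have hM : M.Normal := ⟨fun a ha t => ⟨‹N.Normal›.conj_mem a ha.1 t, by
      rw [map_mul, map_mul, map_inv, conj_pow, ha.2]; group⟩⟩
    have h4 : IsPGroup l (G ⧸ M) := fun w => by
      obtain ⟨w, rfl⟩ := QuotientGroup.mk_surjective w
      refine ⟨N.index.primeFactorsList.length + v, ?_⟩
      rw [← QuotientGroup.mk_pow, QuotientGroup.eq_one_iff, pow_add, ← hf, pow_mul]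
      refine ⟨N.pow_mem (pow_index_mem N w) _, ?_⟩
      rw [← map_pow, ← pow_mul, ← hvj, pow_card_eq_one', map_one]
    have h5 := (hq l hl M hM (IsPGroup.iff_card.1 h4)
      (commutator_mem_commutator (mem_top x) (mem_top g))).2
    have h6 := (pow_eq_one_iff_of_coprime (hl.coprime_iff_not_dvd.2 hj)).1 ⟨h1 g l hgl h, h5⟩
    exact (hB x).2 ⟨hx, T.fr0 hg hx ((QuotientGroup.eq_one_iff _).1 h6)⟩

theorem Pre.fr (T : Pre N) (hB : ∀ x, x ∈ B ↔ x ∈ N ∧ ∀ t, ⁅x, t⁆ ∈ ⁅N, N⁆)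
    (hq : ∀ p : ℕ, p.Prime → ∀ K : Subgroup G, K.Normal → (∃ k, K.index = p ^ k) →
      commutator G ≤ K) {g : G} (hg : g ∉ N) {x : G} (hx : x ∈ N) (h : ⁅x, g⁆ ∈ B) : x ∈ B := by
  have h1 : orderOf (g : G ⧸ N) ≠ 1 := fun h1 =>
    hg ((QuotientGroup.eq_one_iff g).1 (orderOf_eq_one_iff.1 h1))
  obtain ⟨l, hl, e, he⟩ := Nat.exists_prime_and_dvd h1
  have h0 := orderOf_pos (g : G ⧸ N)
  have he0 : e ≠ 0 := by rintro rfl; omega
  refine T.fr1 hB hq hl (g := g ^ e) (fun h2 => ?_) ?_ hx ?_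
  · rw [← QuotientGroup.eq_one_iff, QuotientGroup.mk_pow] at h2
    exact pow_ne_one_of_lt_orderOf he0
      (he ▸ lt_mul_of_one_lt_left (Nat.pos_of_ne_zero he0) hl.one_lt) h2
  · rw [← QuotientGroup.eq_one_iff, ← pow_mul, mul_comm, ← he, QuotientGroup.mk_pow,
      pow_orderOf_eq_one]
  · have hNB : ⁅N, N⁆ ≤ B := fun y hy => (hB y).2 ⟨commutator_le_left _ _ hy, comm_mem_left hy⟩
    have h2 : (⁅x, g⁆ ^ e)⁻¹ * ⁅x, g ^ e⁆ ∈ ⁅N, N⁆ := QuotientGroup.eq.1 (by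
      change QuotientGroup.mk' _ _ = QuotientGroup.mk' _ _
      rw [map_pow, map_commutatorElement, map_commutatorElement, map_pow, comm_pow_right]
      rw [← map_commutatorElement, ← commutatorElement_eq_one_iff_commute,
        ← map_commutatorElement, ← commutatorElement_inv, map_inv, inv_eq_one]
      exact (QuotientGroup.eq_one_iff _).2 (((hB _).1 h).2 g))
    simpa using B.mul_mem (B.pow_mem h e) (hNB h2)

section Trick
variable [Fintype G] {ω : G →* ℂˣ}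

/-- The twisted class sum. -/
noncomputable def tw (ω : G →* ℂˣ) (a b : N) : ℂ :=
  ∑ g : G, (ω g : ℂ) * ∑ ψ : IrrCharacter N,
    (ψ : N → ℂ) ⟨g * a * g⁻¹, ‹N.Normal›.conj_mem a a.2 g⟩ * conj ((ψ : N → ℂ) b)

theorem tw_eq_1' : type_of% @tw.eq_1 := @tw.eq_1

theorem tw_eq (a b : N) : tw ω a b = ∑ ψ : IrrCharacter N,
    (∑ g : G, (ω g : ℂ) * conjChar N ψ g a) * conj ((ψ : N → ℂ) b) := by
  rw [tw]
  simp only [Finset.mul_sum, Finset.sum_mul]
  rw [Finset.sum_comm]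
  exact Finset.sum_congr rfl fun ψ _ => Finset.sum_congr rfl fun g _ => (mul_assoc _ _ _).symm

theorem sum_zero {F : G → ℂ} {t : G} (ht : ω t ≠ 1) (h : ∀ g, F (t * g) = F g) :
    ∑ g : G, (ω g : ℂ) * F g = 0 := by
  have h1 : ∑ g : G, (ω g : ℂ) * F g = (ω t : ℂ) * ∑ g : G, (ω g : ℂ) * F g := by
    conv_lhs => rw [← Equiv.sum_comp (Equiv.mulLeft t)]
    rw [Finset.mul_sum]
    refine Finset.sum_congr rfl fun g _ => ?_
    rw [Equiv.coe_mulLeft, h, map_mul, Units.val_mul, mul_assoc]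
  by_contra h2
  exact ht (Units.ext (mul_right_cancel₀ h2 (h1.symm.trans (one_mul _).symm)))

theorem tw_ne (hω : ∀ g, ω g = 1 ↔ g ∈ N) (a : N)
    (h : ∀ g : G, IsConj (⟨g * a * g⁻¹, ‹N.Normal›.conj_mem a a.2 g⟩ : N) a → g ∈ N) :
    tw ω a a ≠ 0 := by
  classical
  have h1 : tw ω a a =
      ((∑ g : G, if g ∈ N then Nat.card {y : N // y * a * y⁻¹ =
        ⟨g * a * g⁻¹, ‹N.Normal›.conj_mem a a.2 g⟩} else 0 : ℕ) : ℂ) := by
    rw [Nat.cast_sum]
    refine Finset.sum_congr rfl fun g _ => ?_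
    split_ifs with hg
    · rw [(hω g).2 hg, Units.val_one, one_mul, sum_irr_mul_conj]
    · rw [sum_irr_mul_conj_of_not_isConj (mt (h g) hg), mul_zero, Nat.cast_zero]
  rw [h1, Nat.cast_ne_zero, Ne, Finset.sum_eq_zero_iff]
  intro h2
  have h3 := h2 1 (Finset.mem_univ _)
  rw [if_pos N.one_mem] at h3
  have : Nonempty {y : N // y * a * y⁻¹ = ⟨1 * a * 1⁻¹, ‹N.Normal›.conj_mem a a.2 1⟩} :=
    ⟨⟨1, Subtype.ext (by simp)⟩⟩
  exact Nat.card_pos.ne' h3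

theorem exists_of_tw {a b : N} (h : tw ω a b ≠ 0) :
    ∃ g : G, IsConj (⟨g * a * g⁻¹, ‹N.Normal›.conj_mem a a.2 g⟩ : N) b := by
  by_contra h1
  push Not at h1
  exact h (Finset.sum_eq_zero fun g _ => by rw [sum_irr_mul_conj_of_not_isConj (h1 g), mul_zero])

theorem Pre.nl_zero (T : Pre N) (hω : ∀ g, ω g = 1 ↔ g ∈ N) {ψ : N → ℂ} (hψ : IsIrrCharacter N ψ)
    (h1 : charDegree ψ ≠ 1) (a : N) : ∑ g : G, (ω g : ℂ) * conjChar N ψ g a = 0 := by
  obtain ⟨t, ht, htN⟩ := SetLike.not_le_iff_exists.1 (T.nl hψ h1)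
  exact sum_zero (mt (hω t).1 htN) fun g => by rw [conjChar_mul_of_mem ht]

theorem lin_mul {ψ : N → ℂ} (hψ : IsIrrCharacter N ψ) (h1 : charDegree ψ = 1) (b y : N)
    (hy : (y : G) ∈ ⁅N, N⁆) : ψ (b * y) = ψ b := by
  refine hψ.isClassFunction.apply_mul_of_mem_charKer ((commutator_le_charKer_iff hψ).2 h1 ?_) b
  rw [← Subgroup.map_subtype_commutator] at hy
  obtain ⟨z, hz, e⟩ := hy
  exact (Subtype.ext e : z = y) ▸ hz

theorem Pre.tw_mul (T : Pre N) (hω : ∀ g, ω g = 1 ↔ g ∈ N) (a b y : N) (hy : (y : G) ∈ ⁅N, N⁆) :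
    tw ω a (b * y) = tw ω a b := by
  rw [tw_eq, tw_eq]
  refine Finset.sum_congr rfl fun ψ _ => ?_
  by_cases h1 : charDegree (ψ : N → ℂ) = 1
  · rw [lin_mul ψ.2 h1 b y hy]
  · rw [T.nl_zero hω ψ.2 h1, zero_mul, zero_mul]

theorem Pre.tw_zero (T : Pre N) (hω : ∀ g, ω g = 1 ↔ g ∈ N) (a b : N)
    (ha : ∀ t, ⁅(a : G), t⁆ ∈ ⁅N, N⁆) : tw ω a b = 0 := by
  rw [tw_eq]
  refine Finset.sum_eq_zero fun ψ _ => mul_eq_zero_of_left ?_ _
  by_cases h1 : charDegree (ψ : N → ℂ) = 1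
  · obtain ⟨c, hc, -⟩ := T.gen
    have h2 : ∀ g, conjChar N ψ g a = (ψ : N → ℂ) a := fun g => by
      rw [conjChar_apply, ← lin_mul ψ.2 h1 a ⟨⁅(a : G)⁻¹, g⁆, comm_mem_left (N.inv_mem a.2) g⟩ (by
        have := (inferInstance : (⁅N, N⁆ : Subgroup G).Normal).conj_mem _
          ((⁅N, N⁆ : Subgroup G).inv_mem (ha g)) (a : G)⁻¹
        convert this using 1
        group)]
      refine congrArg _ (Subtype.ext ?_)
      change g * a * g⁻¹ = a * ⁅(a : G)⁻¹, g⁆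
      group
    exact sum_zero (mt (hω c).1 hc) fun g => by rw [h2, h2]
  · exact T.nl_zero hω ψ.2 h1 a

end Trick

theorem conj_comm {x y : G} (hx : x ∈ N) (hy : y ∈ ⁅N, N⁆) {g n : G} (hn : n ∈ N)
    (h : n * (g * x * g⁻¹) * n⁻¹ = x * y) : ⁅x, g⁆ ∈ ⁅N, N⁆ := by
  have h1 : ⁅x, g⁆ = ⁅x, n⁻¹⁆ * (n⁻¹ * (x * y⁻¹ * x⁻¹) * n⁻¹⁻¹) := by
    have : g * x⁻¹ * g⁻¹ = n⁻¹ * (x * y)⁻¹ * n := by rw [← h]; group
    calc ⁅x, g⁆ = x * (g * x⁻¹ * g⁻¹) := by group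
      _ = _ := by rw [this]; group
  have hn' : (⁅N, N⁆ : Subgroup G).Normal := inferInstance
  rw [h1]
  exact mul_mem (commutator_mem_commutator hx (N.inv_mem hn))
    (hn'.conj_mem _ (hn'.conj_mem _ (inv_mem hy) x) _)

theorem Pre.exists_om (T : Pre N) : ∃ ω : G →* ℂˣ, ∀ g, ω g = 1 ↔ g ∈ N := by
  obtain ⟨ω, hω⟩ := exists_faithful T.cyc
  exact ⟨ω.comp (QuotientGroup.mk' N), fun g => ⟨fun h => (QuotientGroup.eq_one_iff g).1 (hω _ h),
    fun h => by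
      rw [MonoidHom.comp_apply, QuotientGroup.mk'_apply, (QuotientGroup.eq_one_iff g).2 h,
        map_one]⟩⟩

theorem Pre.ct (T : Pre N) {x : G} (hx : x ∈ N) (hx' : ¬ ∀ t, ⁅x, t⁆ ∈ ⁅N, N⁆) {y : G}
    (hy : y ∈ ⁅N, N⁆) : ∃ n ∈ N, n * x * n⁻¹ = x * y := by
  have := Fintype.ofFinite G
  obtain ⟨ω, hω⟩ := T.exists_om
  have hyN : y ∈ N := commutator_le_left _ _ hy
  have h1 : ∀ (z : G) (hz : z ∈ ⁅N, N⁆) (g : G),
      IsConj (⟨g * x * g⁻¹, ‹N.Normal›.conj_mem x hx g⟩ : N)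
        (⟨x, hx⟩ * ⟨z, commutator_le_left _ _ hz⟩) → g ∈ N ∧ ∃ n ∈ N,
          n * (g * x * g⁻¹) * n⁻¹ = x * z := fun z hz g h => by
    obtain ⟨n, hn⟩ := isConj_iff.1 h
    have h2 : (n : G) * (g * x * g⁻¹) * (n : G)⁻¹ = x * z := congrArg Subtype.val hn
    exact ⟨by_contra fun hg => hx' (T.fr0 hg hx (conj_comm hx hz n.2 h2)), n, n.2, h2⟩
  have h2 := tw_ne hω ⟨x, hx⟩ fun g h => (h1 1 (one_mem _) g (by
    convert h using 1; exact mul_one _)).1
  rw [← T.tw_mul hω _ _ ⟨y, hyN⟩ hy] at h2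
  obtain ⟨g, hg⟩ := exists_of_tw h2
  obtain ⟨h3, n, hn, h4⟩ := h1 y hy g hg
  exact ⟨n * g, N.mul_mem hn h3, by rw [← h4]; group⟩

theorem Pre.fx (T : Pre N) {y : G} (hy : y ∈ N) (hy' : ∀ t, ⁅y, t⁆ ∈ ⁅N, N⁆) :
    ∃ g, g ∉ N ∧ Commute g y := by
  have := Fintype.ofFinite G
  obtain ⟨ω, hω⟩ := T.exists_om
  by_contra h1
  push Not at h1
  refine tw_ne hω ⟨y, hy⟩ (fun g h => by_contra fun hg => ?_) (T.tw_zero hω _ _ hy')
  obtain ⟨n, hn⟩ := isConj_iff.1 h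
  have h2 : (n : G) * (g * y * g⁻¹) * (n : G)⁻¹ = y := congrArg Subtype.val hn
  refine h1 (n * g) (fun h3 => hg ((N.mul_mem_cancel_left n.2).1 h3)) ?_
  rw [commute_iff_eq, ← mul_inv_eq_iff_eq_mul]
  calc _ = (n : G) * (g * y * g⁻¹) * (n : G)⁻¹ := by group
    _ = y := h2

end Frontx

open Frontx in
theorem exists_top [Group.IsSolvable G] (h : NDAD G) (hn : commutator G ≠ ⊥)
    (hq : ∀ p : ℕ, p.Prime → ∀ K : Subgroup G, K.Normal → (∃ k, K.index = p ^ k) →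
      commutator G ≤ K) :
    ∃ (N B : Subgroup G) (_ : N.Normal) (_ : B.Normal), Top N B := by
  obtain ⟨K, -, hK⟩ := exists_isMaxNonab (L := (⊥ : Subgroup G)) (by rwa [le_bot_iff])
  have hKn := hK.normal
  obtain ⟨q, hq', ⟨h1, -⟩ | hF⟩ := hK.dichotomy inferInstance
  · exact absurd (hq q hq' K hKn h1) hK.not_le
  generalize commutator G ⊔ K = N at hF
  have hN : N.Normal := ⟨fun n hn g => by
    have := N.mul_mem (hF.comm_le (commutator_mem_commutator (mem_top g) (mem_top n))) hn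
    simpa [commutatorElement_def] using this⟩
  have T : Pre N := ⟨cyc hF, h, hF.ne_top, hF.exists_deg_eq_index⟩
  let B : Subgroup G := N ⊓ (center (G ⧸ ⁅N, N⁆)).comap (QuotientGroup.mk' ⁅N, N⁆)
  have hB : ∀ x, x ∈ B ↔ x ∈ N ∧ ∀ t, ⁅x, t⁆ ∈ ⁅N, N⁆ := fun x => mem_inf.trans <|
      and_congr_right fun _ => by
    rw [mem_comap, mem_center_iff]
    constructor
    · intro h1 t
      rw [← QuotientGroup.eq_one_iff]
      change QuotientGroup.mk' _ _ = 1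
      rw [map_commutatorElement, commutatorElement_eq_one_iff_mul_comm]
      exact (h1 _).symm
    · intro h1 t
      obtain ⟨t, rfl⟩ := QuotientGroup.mk'_surjective _ t
      rw [eq_comm, ← commutatorElement_eq_one_iff_mul_comm, ← map_commutatorElement]
      exact (QuotientGroup.eq_one_iff _).2 (h1 t)
  refine ⟨N, B, hN, inferInstance, ⟨T.cyc, T.ne_top, lt_of_le_not_ge inf_le_left fun h1 => ?_,
    fun y hy => (hB y).2 ⟨commutator_le_left _ _ hy, comm_mem_left hy⟩,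
    fun b hb => ((hB b).1 hb).2, fun g hg x hx h1 => T.fr hB hq hg hx h1⟩, h,
    fun x hx hx' y hy => ?_, fun y hy => T.fx ((hB y).1 hy).1 ((hB y).1 hy).2⟩
  · obtain ⟨c, hc, -⟩ := T.gen
    exact hF.lt.not_ge fun x hx => fpf hF hc hx (hF.ab (((hB x).1 (h1 hx)).2 c))
  · obtain ⟨n, hn, h1⟩ := T.ct (N.inv_mem hx)
      (fun h1 => hx' (by simpa using B.inv_mem ((hB _).2 ⟨N.inv_mem hx, h1⟩))) hy
    refine ⟨n, hn, ?_⟩
    calc ⁅x, n⁆ = x * (n * x⁻¹ * n⁻¹) := by group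
      _ = y := by rw [h1]; group

end Cfsg.Lib.NDD
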