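import Cfsg.Agent.NDD.S1
import Cfsg.Agent.Solv.KhuMain

/-!
# Groups without divisibility among character degrees: the module lemmas
-/

set_option autoImplicit false
set_option linter.unusedSectionVars false
set_option linter.unusedVariables false

namespace Cfsg.Lib.NDD

open Subgroup Cfsg.Lib.Char Cfsg.Lib.Char.Deg Module
open scoped commutatorElement

universe u

variable {G : Type u} [Group G] [Finite G] {p : ℕ}

section
variable {N B : Subgroup G} [N.Normal] [B.Normal]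
variable {U : Type*} [CommGroup U] [Finite U] [MulDistribMulAction G U]

namespace Modx

open S1x Cfsg.Lib.Solv Cfsg.Lib.Solv.Act Cfsg.Lib.Solv.KMS

/-- The action on an invariant subgroup. -/
def act (V : Subgroup U) (hV : ∀ g : G, ∀ v ∈ V, g • v ∈ V) : G →* MulAut V where
  toFun g :=
    { toFun := fun v => ⟨g • v.1, hV g _ v.2⟩
      invFun := fun v => ⟨g⁻¹ • v.1, hV _ _ v.2⟩
      left_inv := fun v => Subtype.ext (inv_smul_smul g v.1)
      right_inv := fun v => Subtype.ext (smul_inv_smul g v.1)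
      map_mul' := fun v w => Subtype.ext (smul_mul' g v.1 w.1) }
  map_one' := MulEquiv.ext fun v => Subtype.ext (one_smul G v.1)
  map_mul' g h := MulEquiv.ext fun v => Subtype.ext (mul_smul g h v.1)

theorem act_eq_one {V : Subgroup U} {hV : ∀ g : G, ∀ v ∈ V, g • v ∈ V} {g : G} :
    act V hV g = 1 ↔ ∀ v ∈ V, g • v = v :=
  ⟨fun e v hv => congrArg Subtype.val (MulEquiv.congr_fun e ⟨v, hv⟩),
    fun e => MulEquiv.ext fun v => Subtype.ext (e v.1 v.2)⟩

theorem card_aux {V : Type*} [CommGroup V] [Finite V] {K H : Subgroup (MulAut V)}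
    (h1 : H ≤ normalizer (K : Set (MulAut V))) (h2 : ∀ a ∈ K, ∀ b ∈ K, a * b = b * a)
    (h3 : ∀ h ∈ H, h ≠ 1 → K ⊓ centralizer {h} = ⊥) (h4 : ∀ v : V, (∀ a ∈ K, a v = v) → v = 1) :
    Nat.card V = Nat.card (fix (MonoidHom.id _) H) ^ Nat.card H := by
  have hK : Group.IsNilpotent K := by
    let _ : CommGroup K := { (inferInstance : Group K) with
      mul_comm := fun a b => Subtype.ext (h2 _ a.2 _ b.2) }
    exact CommGroup.isNilpotent
  have h : Hyp (L (MonoidHom.id (MulAut V)) ⊤) (R (MonoidHom.id _) K) (R (MonoidHom.id _) H) :=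
    ⟨R_le_normalizer_L_top _, R_le_normalizer_L_top _, R_le_normalizer_R.2 h1,
      Group.nilpotent_of_mulEquiv (equivR K), Fpf.fpf_map _ h1 h3,
      by rw [← R_sup, inf_comm, L_inf_R], by
        rw [L_top_inf_centralizer_R, L_eq_bot_iff, eq_bot_iff]
        exact fun g hg => h4 g hg⟩
  have h5 := h.card_eq (Group.isSolvable_of_comm (by
    rintro ⟨_, a, -, rfl⟩ ⟨_, b, -, rfl⟩
    exact Subtype.ext ((map_mul _ a b).symm.trans ((congrArg _ (mul_comm a b)).trans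
      (map_mul _ b a)))))
  rwa [L_top_inf_centralizer_R, card_L_top, card_L, card_R] at h5

theorem cN (T : Fr N B) (a b : G) : ⁅a, b⁆ ∈ N :=
  T.comm_le (commutator_mem_commutator (mem_top _) (mem_top _))

theorem gen (T : Fr N B) (X : Subgroup G) : ∃ t ∈ X, (∀ x ∈ X, ∃ i : ℤ, (t ^ i)⁻¹ * x ∈ N) ∧
    orderOf (t : G ⧸ N) = N.relIndex X := by
  have := T.cyc
  obtain ⟨⟨_, t, ht, rfl⟩, hd⟩ := IsCyclic.exists_generator (α := X.map (QuotientGroup.mk' N))
  refine ⟨t, ht, fun x hx => ?_, ?_⟩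
  · obtain ⟨i, hi⟩ := hd ⟨_, x, hx, rfl⟩
    exact ⟨i, QuotientGroup.eq.1 (congrArg Subtype.val hi)⟩
  · have := orderOf_eq_card_of_forall_mem_zpowers hd
    rw [← relIndex_ker, QuotientGroup.ker_mk', ← Subgroup.orderOf_coe] at this
    exact this

theorem two (T : Fr N B) {X Y : Subgroup G} (hX : ∀ x ∈ X, x ∈ N → x ∈ B)
    (hY : ∀ x ∈ Y, x ∈ N → x ∈ B) : ∃ h : G, ∀ g ∈ X, h⁻¹ * g * h ∈ Y → g ∈ N := by
  by_cases h0 : ∀ g ∈ X, g ∈ Y → g ∈ N
  · exact ⟨1, by simpa using h0⟩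
  push Not at h0
  obtain ⟨g, gX, gY, gN⟩ := h0
  obtain ⟨h, hN, hB⟩ := SetLike.exists_of_lt T.lt
  refine ⟨h, fun g' hg' k => by_contra fun g'N => hB ?_⟩
  have le : ∀ Z : Subgroup G, (∀ x ∈ Z, x ∈ N → x ∈ B) → g ∈ Z → Z ≤ cm ⊤ B g :=
    fun Z hZ hg x hx => ⟨mem_top _, hZ _ (commutator_le_self Z (commutator_mem_commutator hx hg))
      (cN T _ _)⟩
  have k1 := mul_mem (le X hX gX hg') (inv_mem (le Y hY gY k))
  rw [show g' * (h⁻¹ * g' * h)⁻¹ = ⁅h, h⁻¹ * g' * h⁆ by rw [commutatorElement_def]; group] at k1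
  refine T.fr _ (fun k => g'N ?_) h hN (T.fr g gN _ (cN T _ _) k1.2)
  simpa [mul_assoc] using ‹N.Normal›.conj_mem _ k h

theorem align (T : Fr N B) {s t : G} (hs : s ∉ N) (ht : t ∉ N) :
    ∃ n ∈ N, ⁅s, n * t * n⁻¹⁆ ∈ B := by
  obtain ⟨y, hy, k1⟩ := T.surj hs (cN T s t)
  obtain ⟨n, hn, k2⟩ := T.surj ht hy
  refine ⟨n, hn, ?_⟩
  have k3 := ‹B.Normal›.conj_mem _ (comm_mem_right s k2) ⁅n, t⁆
  have k4 := T.NB (commutator_mem_commutator (inv_mem (cN T s t)) (cN T n t))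
  have k5 := ‹B.Normal›.conj_mem _ (inv_mem k3) ⁅s, t⁆⁻¹
  convert mul_mem (mul_mem k1 k5) k4 using 1
  simp only [commutatorElement_def]
  group

theorem comm (T : Fr N B) {C : Subgroup G} [C.Normal] (hC : ⁅N, N⁆ ≤ C) {s t : G} (hs : s ∉ N)
    (h : ⁅s, t⁆ ∈ B) : Commute (s : G ⧸ C) t := by
  obtain ⟨d, hd, h1, -⟩ := gen T (cm ⊤ B s)
  have key : ∀ x ∈ cm ⊤ B s, ∃ (i : ℤ) (β : G), (∀ g : G, Commute (β : G ⧸ C) g) ∧
      (x : G ⧸ C) = (d : G ⧸ C) ^ i * β := fun x hx => by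
    obtain ⟨i, hi⟩ := h1 x hx
    have hB := T.fr s hs _ hi (mul_mem (inv_mem (zpow_mem hd i)) hx).2
    exact ⟨i, _, fun g => commutatorElement_eq_one_iff_commute.1
      ((QuotientGroup.eq_one_iff ⁅_, g⁆).2 (hC (T.cen _ hB g))), by simp⟩
  obtain ⟨i, β, h2, e⟩ := key s ⟨mem_top _, by simp⟩
  obtain ⟨j, γ, h3, e'⟩ := key t ⟨mem_top _, by rw [← commutatorElement_inv]; exact inv_mem h⟩
  rw [e]
  refine Commute.mul_left ?_ (h2 t)
  rw [e']
  exact ((Commute.refl _).zpow_zpow i j).mul_right ((h3 d).symm.zpow_left i)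

end Modx

open Modx MulAction

theorem Md.card (h : Md N B U) {V : Subgroup U} (hV : ∀ g : G, ∀ v ∈ V, g • v ∈ V)
    {T : Subgroup G} (hT : ∀ b ∈ T, b ∈ N → ∀ v ∈ V, b • v = v) :
    Nat.card V = Nat.card {v : U // v ∈ V ∧ ∀ t ∈ T, t • v = v} ^ N.relIndex T := by
  have ec : Nat.card {v : U // v ∈ V ∧ ∀ t ∈ T, t • v = v} =
      Nat.card (Solv.Act.fix (MonoidHom.id _) (T.map (act V hV))) := Nat.card_congr
    { toFun := fun v => ⟨⟨v.1, v.2.1⟩, by
        rintro _ ⟨t, ht, rfl⟩; exact Subtype.ext (v.2.2 t ht)⟩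
      invFun := fun v => ⟨v.1.1, v.1.2, fun t ht => congrArg Subtype.val (v.2 _ ⟨t, ht, rfl⟩)⟩
      left_inv := fun _ => rfl
      right_inv := fun _ => rfl }
  rw [ec]
  by_cases h0 : V = ⊥
  · subst h0
    rw [card_bot, Nat.card_eq_one_iff_unique.2 ⟨inferInstance, inferInstance⟩, one_pow]
  obtain ⟨v, hv, v1⟩ := (bot_or_exists_ne_one V).resolve_left h0
  have ka : ∀ x ∈ N, act V hV x = 1 → x ∈ B := fun x hx e => h.inB v v1 x hx (act_eq_one.1 e v hv)
  have kc : ∀ {x t : G}, act V hV x * act V hV t = act V hV t * act V hV x → ⁅x, t⁆ ∈ B :=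
    fun e => ka _ (cN h.toFr _ _) (by
      rw [map_commutatorElement, commutatorElement_eq_one_iff_mul_comm, e])
  have k0 : ∀ x ∈ ⁅N, N⁆, act V hV x = 1 := fun x hx => act_eq_one.2 fun v _ => h.triv x hx v
  have er : N.relIndex T = Nat.card (T.map (act V hV)) := by
    rw [← relIndex_ker, ← inf_relIndex_right N, ← inf_relIndex_right (act V hV).ker]
    congr 1
    refine le_antisymm (fun t ht => ⟨act_eq_one.2 (hT t ht.2 ht.1), ht.2⟩) fun t ht => ⟨?_, ht.2⟩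
    by_contra tN
    exact h.lt.not_ge fun n hn => h.fr t tN n hn (kc (by rw [MonoidHom.mem_ker.1 ht.1]; simp))
  rw [er]
  refine card_aux (K := (commutator G).map (act V hV)) ?_ ?_ ?_ ?_
  · exact (map_mono le_normalizer_of_normal).trans (le_normalizer_map _)
  · rintro _ ⟨a, ha, rfl⟩ _ ⟨b, hb, rfl⟩
    rw [← commutatorElement_eq_one_iff_mul_comm, ← map_commutatorElement]
    exact k0 _ (commutator_mem_commutator (h.comm_le ha) (h.comm_le hb))
  · rintro _ ⟨t, ht, rfl⟩ t1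
    refine eq_bot_iff.2 ?_
    rintro _ ⟨⟨a, ha, rfl⟩, e⟩
    exact k0 a (h.comm_inf.le ⟨ha, h.fr t (fun tN => t1 (act_eq_one.2 (hT t ht tN))) a
      (h.comm_le ha) (kc (mem_centralizer_singleton_iff.1 e))⟩)
  · intro w hw
    by_contra w1
    exact h.lt.not_ge (h.comm_sup.ge.trans (sup_le (fun a ha => h.inB w.1
      (fun e => w1 (Subtype.ext e)) a (h.comm_le ha) (congrArg Subtype.val (hw _ ⟨a, ha, rfl⟩)))
      le_rfl))

theorem Md.fix (h : Md N B U) {V : Subgroup U} (hV : ∀ g : G, ∀ v ∈ V, g • v ∈ V) (h0 : V ≠ ⊥)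
    {T : Subgroup G} (hT : ∀ b ∈ T, b ∈ N → ∀ v ∈ V, b • v = v) :
    ∃ v ∈ V, v ≠ 1 ∧ T ≤ MulAction.stabilizer G v := by
  by_contra! k
  refine h0 (eq_bot_of_card_eq V ?_)
  have : ∀ v : {v : U // v ∈ V ∧ ∀ t ∈ T, t • v = v}, v.1 = 1 := fun v =>
    by_contra fun v1 => k v.1 v.2.1 v1 v.2.2
  rw [h.card hV hT, Nat.card_eq_one_iff_unique.2
    ⟨⟨fun a b => Subtype.ext ((this a).trans (this b).symm)⟩, ⟨1, one_mem _, by simp⟩⟩, one_pow]

theorem Md.meet (h : Md N B U) {V W : Subgroup U} (hV : ∀ g : G, ∀ v ∈ V, g • v ∈ V)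
    (hW : ∀ g : G, ∀ v ∈ W, g • v ∈ W) (h1 : V ≠ ⊥) (h2 : W ≠ ⊥) : V ⊓ W ≠ ⊥ := fun e => by
  obtain ⟨v, hv, v1⟩ := (bot_or_exists_ne_one V).resolve_left h1
  obtain ⟨w, hw, w1⟩ := (bot_or_exists_ne_one W).resolve_left h2
  obtain ⟨k, hk⟩ := two h.toFr (X := stabilizer G v) (Y := stabilizer G w)
    (fun x hx hN => h.inB v v1 x hN hx) (fun x hx hN => h.inB w w1 x hN hx)
  have one : ∀ x ∈ V, x ∈ W → x = 1 := fun x h1 h2 => mem_bot.1 (e.le ⟨h1, h2⟩)
  obtain ⟨g, gN, e1⟩ := h.out (v * k • w) (fun e1 => v1 (one v hv (by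
    rw [eq_inv_of_mul_eq_one_left e1]; exact inv_mem (hW k w hw))))
  rw [smul_mul'] at e1
  have e2 : v⁻¹ * g • v = k • w * (g • k • w)⁻¹ := by
    rw [inv_mul_eq_iff_eq_mul, ← mul_assoc, ← e1, mul_inv_cancel_right]
  have e3 := one _ (mul_mem (inv_mem hv) (hV g v hv))
    (e2 ▸ mul_mem (hW k w hw) (inv_mem (hW g _ (hW k w hw))))
  refine gN (hk g (inv_mul_eq_one.1 e3).symm ?_)
  rw [e2, mul_inv_eq_one] at e3
  rw [mem_stabilizer_iff, mul_smul, mul_smul, ← e3, inv_smul_smul]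

theorem Md.ker (h : Md N B U) {u : U} (hu : u ≠ 1) {b : G} (hb : b ∈ N) (e : b • u = u) (v : U) :
    b • v = v := by
  have := h.nt
  obtain ⟨V, ⟨hV, V0⟩, mn⟩ := exists_minimal_of_wellFoundedLT
    (fun V : Subgroup U => (∀ g : G, ∀ v ∈ V, g • v ∈ V) ∧ V ≠ ⊥)
    ⟨⊤, fun _ _ _ => mem_top _, top_ne_bot⟩
  have key : ∀ u : U, u ≠ 1 → ∀ b ∈ stabilizer G u, b ∈ N → ∀ v ∈ V, b • v = v :=
    fun u hu b e hb v hv => by
    let W : Subgroup U :=
      { carrier := {w | b • w = w}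
        one_mem' := smul_one b
        mul_mem' := fun {x y} hx hy => by
          rw [Set.mem_setOf_eq, smul_mul', Set.mem_setOf_eq.mp hx, Set.mem_setOf_eq.mp hy]
        inv_mem' := fun {x} hx => by rw [Set.mem_setOf_eq, smul_inv', Set.mem_setOf_eq.mp hx] }
    have hW : ∀ g : G, ∀ w ∈ W, g • w ∈ W := fun g w hw => by
      change b • g • w = g • w
      rw [← mul_smul, show b * g = ⁅b, g⁆ * (g * b) by rw [commutatorElement_def]; group,
        mul_smul, h.triv _ (h.cen b (h.inB u hu b hb e) g), mul_smul, show b • w = w from hw]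
    exact (mn (y := V ⊓ W) ⟨fun g w hw => ⟨hV g w hw.1, hW g w hw.2⟩, h.meet hV hW V0
      fun k => hu (mem_bot.1 (k.le (show u ∈ W from e)))⟩ inf_le_left hv).2
  by_cases v1 : v = 1
  · rw [v1, smul_one]
  obtain ⟨w, hw, w1, le⟩ := h.fix hV V0 (key v v1)
  have e1 := h.anti w v w1 v1 (index_dvd_of_le le)
  rw [← relIndex_mul_index le, eq_comm, mul_eq_right₀ index_ne_zero_of_finite,
    relIndex_eq_one] at e1
  exact e1 (key u hu b e hb w hw)

theorem Md.dvd (h : Md N B U) {u v : U} (hu : u ≠ 1) (hv : v ≠ 1) :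
    N.relIndex (stabilizer G v) ∣ N.relIndex (stabilizer G u) := by
  let C : Subgroup G := N ⊓ (MulDistribMulAction.toMulAut G U).ker
  have hC : ∀ u : U, u ≠ 1 → N ⊓ stabilizer G u = C := fun u hu => le_antisymm
    (fun b hb => ⟨hb.1, MulEquiv.ext (h.ker hu hb.1 hb.2)⟩)
    (fun b hb => ⟨hb.1, MulEquiv.congr_fun hb.2 u⟩)
  have ix : ∀ u : U, u ≠ 1 →
      N.relIndex (stabilizer G u) * (stabilizer G u).index = C.index := fun u hu => by
    rw [← inf_relIndex_right, relIndex_mul_index inf_le_right, hC u hu]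
  have gn : ∀ u : U, u ≠ 1 → ∃ t ∈ stabilizer G u, t ∉ N ∧
      orderOf (t : G ⧸ N) = N.relIndex (stabilizer G u) := fun u hu => by
    obtain ⟨t, ht, h1, h2⟩ := gen h.toFr (stabilizer G u)
    obtain ⟨g, gN, e⟩ := h.out u hu
    obtain ⟨i, hi⟩ := h1 g e
    exact ⟨t, ht, fun k => gN ((mul_mem_cancel_left (inv_mem (zpow_mem k i))).1 hi), h2⟩
  have od : ∀ u : U, u ≠ 1 → ∀ t ∈ stabilizer G u, orderOf (t : G ⧸ C) = orderOf (t : G ⧸ N) :=
    fun u hu t ht => orderOf_eq_orderOf_iff.2 fun n => by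
      rw [← QuotientGroup.mk_pow, ← QuotientGroup.mk_pow, QuotientGroup.eq_one_iff,
        QuotientGroup.eq_one_iff, ← hC u hu]
      exact ⟨fun k => k.1, fun k => ⟨k, pow_mem ht n⟩⟩
  obtain ⟨s, hs, sN, os⟩ := gn u hu
  obtain ⟨t, ht, tN, ot⟩ := gn v hv
  obtain ⟨n, hn, k⟩ := align h.toFr sN tN
  have ht' : n * t * n⁻¹ ∈ stabilizer G (n • v) := by
    rw [mem_stabilizer_iff, mul_smul, inv_smul_smul, mul_smul, show t • v = v from ht]
  have ot' : orderOf ((n * t * n⁻¹ : G) : G ⧸ N) = N.relIndex (stabilizer G v) := by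
    rw [QuotientGroup.mk_mul, QuotientGroup.mk_mul, (QuotientGroup.eq_one_iff _).2 hn,
      (QuotientGroup.eq_one_iff _).2 (inv_mem hn), one_mul, mul_one, ot]
  have e1 := od u hu s hs
  have e2 := od _ (fun k : n • v = 1 => hv (by rw [← inv_smul_smul n v, k, smul_one])) _ ht'
  generalize n * t * n⁻¹ = t' at k ot' e2
  have c1 := (comm h.toFr (C := C) (fun x hx => ⟨commutator_le_self N hx,
    MulEquiv.ext (h.triv x hx)⟩) sN k).orderOf_mul_pow_eq_lcm (orderOf_pos _).ne' (orderOf_pos _).ne'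
  have c2 := (comm h.toFr (C := N) (commutator_le_self N) sN k).orderOf_mul_pow_eq_lcm
    (orderOf_pos _).ne' (orderOf_pos _).ne'
  rw [e1, e2] at c1
  rw [← QuotientGroup.mk_pow, ← QuotientGroup.mk_pow, ← QuotientGroup.mk_mul] at c1 c2
  generalize s ^ _ * t' ^ _ = z at c1 c2
  have := h.nt
  obtain ⟨w, -, w1, le⟩ := h.fix (V := ⊤) (fun _ _ _ => mem_top _) top_ne_bot (T := zpowers z) (by
    rintro _ ⟨i, rfl⟩ hi v -
    have k1 : ((z ^ i : G) : G ⧸ C) = 1 := by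
      rw [QuotientGroup.mk_zpow, ← orderOf_dvd_iff_zpow_eq_one, c1, ← c2,
        orderOf_dvd_iff_zpow_eq_one, ← QuotientGroup.mk_zpow]
      exact (QuotientGroup.eq_one_iff _).2 hi
    exact MulEquiv.congr_fun ((QuotientGroup.eq_one_iff _).1 k1).2 v)
  have d1 : orderOf (z : G ⧸ N) ∣ N.relIndex (stabilizer G w) := by
    have := Subgroup.orderOf_dvd_natCard _
      (mem_map_of_mem (QuotientGroup.mk' N) (le (mem_zpowers z)))
    rwa [← relIndex_ker, QuotientGroup.ker_mk'] at this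
  rw [c2, os, ot'] at d1
  obtain ⟨m, hm⟩ := (Nat.dvd_lcm_left _ _).trans d1
  have e3 := (ix u hu).trans (ix w w1).symm
  have e4 := h.anti w u w1 hu ⟨m, by
    rw [hm, mul_assoc] at e3
    rw [mul_left_cancel₀ (index_ne_zero_of_finite (H := N.subgroupOf _)) e3, mul_comm]⟩
  rw [e4, mul_left_inj' index_ne_zero_of_finite] at e3
  exact e3 ▸ (Nat.dvd_lcm_right _ _).trans d1

theorem Md.eq (h : Md N B U) {u v : U} (hu : u ≠ 1) (hv : v ≠ 1) :
    (MulAction.stabilizer G u).index = (MulAction.stabilizer G v).index := by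
  have e1 : N ⊓ stabilizer G u = N ⊓ stabilizer G v := le_antisymm
    (fun b hb => ⟨hb.1, h.ker hu hb.1 hb.2 v⟩) (fun b hb => ⟨hb.1, h.ker hv hb.1 hb.2 u⟩)
  have e2 := relIndex_mul_index (inf_le_right : N ⊓ stabilizer G u ≤ _)
  rw [inf_relIndex_right, e1, ← relIndex_mul_index (inf_le_right : N ⊓ stabilizer G v ≤ _),
    inf_relIndex_right, Nat.dvd_antisymm (h.dvd hv hu) (h.dvd hu hv)] at e2
  exact Nat.eq_of_mul_eq_mul_left (Nat.pos_of_ne_zero index_ne_zero_of_finite) e2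

end

end Cfsg.Lib.NDD
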