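import Cfsg.Agent.NDD.Bas

/-!
# A non-abelian quotient of prime power order forces two degrees
-/

set_option autoImplicit false
set_option linter.unusedSectionVars false
set_option linter.unusedVariables false

namespace Cfsg.Lib.NDD

open Subgroup Cfsg.Lib.Char Cfsg.Lib.Char.Deg Module
open scoped commutatorElement

universe u

variable {G : Type u} [Group G] [Finite G] {p : ℕ}

theorem PQx.mem_of_coprime {K : Subgroup G} [K.Normal] {x : G} (h : (orderOf x).Coprime K.index) :
    x ∈ K := by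
  rw [← QuotientGroup.eq_one_iff, ← orderOf_eq_one_iff]
  exact Nat.eq_one_of_dvd_coprimes h (orderOf_map_dvd (QuotientGroup.mk' K) x)
    (orderOf_dvd_natCard _)

theorem PQx.le_of_coprime {M K : Subgroup G} [K.Normal] (h : (Nat.card M).Coprime K.index) :
    M ≤ K := fun _ hx => PQx.mem_of_coprime (h.coprime_dvd_left (M.orderOf_dvd_natCard hx))

theorem NDAD.quot (h : NDAD G) (Y : Subgroup G) [Y.Normal] : NDAD (G ⧸ Y) := ndad_quot h Y

theorem NDAD.pquot (h : NDAD G) (hp : p.Prime) {K : Subgroup G} [K.Normal] {k : ℕ}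
    (hK : K.index = p ^ k) (hn : ¬ commutator G ≤ K) :
    ∃ a, ∀ χ, IsIrrCharacter G χ → charDegree χ = 1 ∨ charDegree χ = a := by
  have := Fintype.ofFinite G
  have := Fintype.ofFinite K
  obtain ⟨g, hg, hgK⟩ := SetLike.not_le_iff_exists.1 hn
  obtain ⟨β, hβ, hKβ, hgβ⟩ := exists_irr_le_charKer_not_mem K hgK
  have b1 : charDegree β ≠ 1 := fun e => hgβ ((commutator_le_charKer_iff hβ).2 e hg)
  obtain ⟨a, -, ha⟩ := (Nat.dvd_prime_pow hp).1
    (hK ▸ deg_dvd_index_of_le_charCenter hβ (hKβ.trans charKer_le_charCenter))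
  obtain ⟨M, hM, hc, j, hj⟩ := thompson_exists hp fun χ hχ h1 => by
    by_contra hd
    have := h β _ hβ (gallagher_irr hχ.isCharacter (res_irr_of_coprime_deg K hχ
      (hK ▸ ((hp.coprime_iff_not_dvd.2 hd).symm.pow_right k))) hβ hKβ) b1
      (by rw [deg_mul hβ.isCharacter hχ.isCharacter]; exact Dvd.intro _ rfl)
    rw [deg_mul hβ.isCharacter hχ.isCharacter] at this
    exact h1 (Nat.eq_of_mul_eq_mul_left (deg_pos hβ) (by rw [← this, mul_one]))
  have hMK : M ≤ K := PQx.le_of_coprime (hK ▸ hc.pow_right k)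
  have cmp : ∀ χ, IsIrrCharacter G χ → charDegree χ ≠ 1 → ∀ i, charDegree χ = p ^ i →
      charDegree χ = charDegree β := fun χ hχ h1 i hi => by
    rcases le_total i a with l | l
    · exact h χ β hχ hβ h1 (by rw [hi, ha]; exact pow_dvd_pow p l)
    · exact (h β χ hβ hχ b1 (by rw [hi, ha]; exact pow_dvd_pow p l)).symm
  have ab : ∀ x y : M, x * y = y * x := comm_of_forall_deg_eq_one fun θ hθ => by
    by_contra h1
    obtain ⟨ξ, hξ, he⟩ := exists_ext_inertia_of_coprime hθ (hj ▸ hc.pow_right j)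
    obtain ⟨χ₀, h0, -, d0⟩ := exists_deg_eq_of_ext hθ hξ he isIrrCharacter_one
    rw [deg_const_one, one_mul] at d0
    have n0 : charDegree χ₀ ≠ 1 := fun e => h1 (Nat.eq_one_of_mul_eq_one_left (d0.symm.trans e))
    have abT := comm_of_forall_deg_eq_one (G := inertia M θ ⧸ M.subgroupOf (inertia M θ))
      fun β' hβ' => by
        obtain ⟨χ, hχ, -, d⟩ := exists_deg_eq_of_ext hθ hξ he hβ'
        have := h χ₀ χ h0 hχ n0 (by rw [d0, d]; exact Nat.mul_dvd_mul_left _ (Dvd.intro_left _ rfl))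
        rw [d, ← mul_left_comm, ← d0] at this
        exact Nat.eq_of_mul_eq_mul_right (deg_pos h0) (by rw [← this, one_mul])
    have := Fintype.ofFinite (inertia M θ)
    obtain ⟨ψ, hψ, hl⟩ := exists_irr_under (inertia M θ) hβ
    have d1 : charDegree ψ = 1 := (commutator_le_charKer_iff hψ).1 (le_trans
      (Subgroup.commutator_le.2 fun x _ y _ => (QuotientGroup.eq_one_iff _).1
        (show QuotientGroup.mk' _ ⁅x, y⁆ = 1 by
          rw [map_commutatorElement, commutatorElement_eq_one_iff_mul_comm]; exact abT _ _))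
      (le_charKer_of_lies_over hβ.isCharacter hψ hl (hMK.trans hKβ)))
    have l := deg_le_index_mul_of_lies_over hβ hψ.isCharacter hl
    obtain ⟨i, -, hi⟩ := (Nat.dvd_prime_pow hp).1
      (hj ▸ index_dvd_of_le (le_inertia hθ.isClassFunction : M ≤ inertia M θ))
    rw [d1, mul_one, ha, hi] at l
    have e := h β χ₀ hβ h0 b1 (by
      rw [ha, d0, hi]
      exact (pow_dvd_pow p ((Nat.pow_le_pow_iff_right hp.one_lt).1 l)).mul_right _)
    exact h1 (Nat.eq_one_of_dvd_coprimes (hc.pow_right a) (deg_dvd_card hθ)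
      (by rw [← ha, e, d0]; exact Dvd.intro_left _ rfl))
  refine ⟨charDegree β, fun χ hχ => or_iff_not_imp_left.2 fun h1 => ?_⟩
  obtain ⟨i, -, hi⟩ := (Nat.dvd_prime_pow hp).1
    (hj ▸ ito hχ M fun x hx y hy => congrArg Subtype.val (ab ⟨x, hx⟩ ⟨y, hy⟩))
  exact cmp χ hχ h1 i hi

end Cfsg.Lib.NDD
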