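import Cfsg.Agent.NDD.Bas
import Cfsg.Agent.Solv.CoprimeFixed
import Cfsg.Agent.Solv.PGroupNormal
import Cfsg.Agent.Char.DegChief

/-!
# Groups without divisibility among character degrees: the structure when `N` is a `p`-group
-/

set_option autoImplicit false
set_option linter.unusedSectionVars false
set_option linter.unusedVariables false

namespace Cfsg.Lib.NDD

open Subgroup Cfsg.Lib.Char Cfsg.Lib.Char.Deg Module
open scoped commutatorElement

universe u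

variable {G : Type u} [Group G] [Finite G] {p : ℕ}

namespace S1x

theorem cml (a b c : G) : ⁅a * b, c⁆ = a * ⁅b, c⁆ * a⁻¹ * ⁅a, c⁆ := by
  simp only [commutatorElement_def]; group

theorem cmr (a b c : G) : ⁅a, b * c⁆ = ⁅a, b⁆ * (b * ⁅a, c⁆ * b⁻¹) := by
  simp only [commutatorElement_def]; group

/-- Elements of `X` commuting with `b` modulo `Y`. -/
def cm (X Y : Subgroup G) [hY : Y.Normal] (b : G) : Subgroup G where
  carrier := {a | a ∈ X ∧ ⁅a, b⁆ ∈ Y}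
  one_mem' := ⟨one_mem _, by simp⟩
  mul_mem' := fun {a a'} ⟨h1, h2⟩ ⟨h3, h4⟩ => ⟨mul_mem h1 h3, by
    rw [cml]; exact mul_mem (hY.conj_mem _ h4 _) h2⟩
  inv_mem' := fun {a} ⟨h1, h2⟩ => ⟨inv_mem h1, by
    have : ⁅a⁻¹, b⁆ = a⁻¹ * ⁅a, b⁆⁻¹ * a⁻¹⁻¹ := by simp only [commutatorElement_def]; group
    rw [this]
    exact hY.conj_mem _ (inv_mem h2) _⟩

theorem mem_cm {X Y : Subgroup G} [Y.Normal] {a b : G} : a ∈ cm X Y b ↔ a ∈ X ∧ ⁅a, b⁆ ∈ Y :=
  Iff.rfl

variable {N B : Subgroup G} [hN : N.Normal] [B.Normal]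

theorem exists_c (T : Fr N B) (hp : p.Prime) (hP : IsPGroup p N) :
    ∃ c : G, (orderOf c).Coprime p ∧ ∀ g, ∃ n ∈ N, ∃ t ∈ zpowers c, g = n * t := by
  obtain ⟨c, -, hc⟩ := T.exists_gen
  have := Fact.mk hp
  have hd : p ∣ B.relIndex N := by
    obtain ⟨k, hk⟩ := IsPGroup.iff_card.1 hP
    have h1 : B.relIndex N ∣ p ^ k := hk ▸ relIndex_dvd_card B N
    obtain ⟨j, -, hj⟩ := (Nat.dvd_prime_pow hp).1 h1
    rcases j with _ | j
    · exact (T.lt.not_ge (relIndex_eq_one.1 hj)).elim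
    · rw [hj]; exact dvd_pow_self p j.succ_ne_zero
  have hf : N.index.Coprime p := T.cop.coprime_dvd_right hd
  obtain ⟨k, m, hm, e⟩ := Nat.exists_eq_pow_mul_and_not_dvd (orderOf_pos c).ne' p hp.one_lt.ne'
  refine ⟨c ^ p ^ k, ?_, fun g => ?_⟩
  · rw [orderOf_pow_of_dvd (pow_ne_zero _ hp.ne_zero) ⟨m, e⟩, e,
      Nat.mul_div_cancel_left _ (pow_pos hp.pos k)]
    exact ((Nat.Prime.coprime_iff_not_dvd hp).2 hm).symm
  · have h1 : (c : G ⧸ N) ∈ zpowers ((c : G ⧸ N) ^ p ^ k) :=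
      mem_zpowers_pow_iff.2 (by
        refine Nat.Coprime.symm (Nat.Coprime.pow_right k (hf.coprime_dvd_left ?_))
        exact orderOf_dvd_natCard _)
    obtain ⟨j, hj⟩ := zpowers_le.2 h1 (hc g)
    refine ⟨g * ((c ^ p ^ k) ^ j)⁻¹, ?_, _, ⟨j, rfl⟩, by simp⟩
    rw [← QuotientGroup.eq_one_iff, QuotientGroup.mk_mul, QuotientGroup.mk_inv,
      QuotientGroup.mk_zpow, QuotientGroup.mk_pow, ← hj]
    exact mul_inv_cancel _

theorem claim (T : Top N B) (hp : p.Prime) (hP : IsPGroup p N) {C Z : Subgroup G}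
    (hC : ∀ g, ∃ n ∈ N, ∃ t ∈ C, g = n * t) (hZ : Z ≤ N) (hZC : ∀ z ∈ Z, ∀ t ∈ C, t * z = z * t)
    (hA : ∀ n ∈ N, ∃ a ∈ commutator G, ∃ z ∈ Z, n = a * z) : ⁅commutator G, Z⁆ = ⊥ := by
  have := Fact.mk hp
  have hAN := T.comm_le
  obtain ⟨x, hx, hxB⟩ : ∃ x ∈ commutator G, x ∉ B := by
    by_contra! h
    exact T.lt.not_ge (T.comm_sup.ge.trans (sup_le h le_rfl))
  have hYA : ⁅commutator G, Z⁆ ≤ commutator G := commutator_le_left _ _
  have hYn : (⁅commutator G, Z⁆).Normal := by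
    refine ⟨fun y hy g => ?_⟩
    obtain ⟨n, hn, t, ht, rfl⟩ := hC g
    obtain ⟨a, ha, z, hz, rfl⟩ := hA n hn
    have k : ∀ g, (∀ z ∈ Z, g * z * g⁻¹ ∈ Z) → ∀ y ∈ ⁅commutator G, Z⁆,
        g * y * g⁻¹ ∈ ⁅commutator G, Z⁆ := fun g hg y hy => by
      have : ⁅commutator G, Z⁆ ≤ (⁅commutator G, Z⁆).comap (MulAut.conj g).toMonoidHom :=
        commutator_le.2 fun a ha z hz => by
          rw [mem_comap, map_commutatorElement]
          exact commutator_mem_commutator ((inferInstance : (commutator G).Normal).conj_mem _ ha g)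
            (hg z hz)
      exact this hy
    have k1 := k z (fun w hw => mul_mem (mul_mem hz hw) (inv_mem hz)) _
      (k t (fun w hw => by rwa [hZC w hw t ht, mul_inv_cancel_right]) y hy)
    have k2 : a ∈ normalizer (⁅commutator G, Z⁆ : Subgroup G) :=
      normalizer_commutator_ge_left _ _ ha
    have := (mem_normalizer_iff.1 k2 _).1 k1
    simpa [mul_assoc] using this
  by_contra ne
  generalize hY : ⁅commutator G, Z⁆ = Y at ne hYA hYn
  obtain ⟨Y1, n1, -, lt, ch⟩ := exists_chief_below (bot_lt_iff_ne_bot.2 ne)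
  have hYN : ⁅Y, N⁆ ≤ Y1 := by
    rcases ch (⁅Y, N⁆ ⊔ Y1) inferInstance le_sup_right
      (sup_le (commutator_le_left _ _) lt.le) with e | e
    · exact le_sup_left.trans e.le
    exfalso
    have h1 := Solv.PG.commutator_lt (hP.map (QuotientGroup.mk' Y1))
      ((hP.to_le (hYA.trans hAN)).map (QuotientGroup.mk' Y1))
      (N := Y.map (QuotientGroup.mk' Y1))
      (by have := hYn.map (QuotientGroup.mk' Y1) (QuotientGroup.mk'_surjective _)
          exact le_normalizer_of_normal)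
      (fun k => lt.not_ge (by rwa [Subgroup.map_eq_bot_iff, QuotientGroup.ker_mk'] at k))
    rw [← map_commutator] at h1
    refine h1.not_ge ?_
    conv_lhs => rw [← e]
    rw [Subgroup.map_sup, (Subgroup.map_eq_bot_iff Y1).2 (QuotientGroup.ker_mk' Y1).ge, sup_bot_eq]
  have cYN : ∀ y ∈ Y, ∀ n ∈ N, ⁅y, n⁆ ∈ Y1 := fun y hy n hn =>
    hYN (commutator_mem_commutator hy hn)
  obtain ⟨y, hy, hy1⟩ := SetLike.exists_of_lt lt
  have hYB : Y ≤ B := by
    rw [← hY]; exact (commutator_mono hAN hZ).trans T.NB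
  obtain ⟨g, hg, hc⟩ := T.fx y (hYB hy)
  have hU : (cm Y Y1 g).Normal := ⟨fun u hu h => ⟨hYn.conj_mem _ hu.1 h, by
    have e : ⁅h * u * h⁻¹, g⁆ = h * ⁅u, g * ⁅g⁻¹, h⁻¹⁆⁆ * h⁻¹ := by
      simp only [commutatorElement_def]; group
    rw [e, cmr]
    exact n1.conj_mem _ (mul_mem hu.2 (n1.conj_mem _ (cYN u hu.1 _
      (hAN (commutator_mem_commutator (mem_top _) (mem_top _)))) _)) _⟩⟩
  have hUY : cm Y Y1 g = Y := by
    refine (ch _ hU (fun u hu => ⟨lt.le hu, comm_mem_left hu g⟩) (fun u hu => hu.1)).resolve_left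
      fun e => hy1 (e ▸ mem_cm.2 ⟨hy, ?_⟩)
    rw [commutatorElement_eq_one_iff_commute.2 hc.symm]
    exact one_mem _
  obtain ⟨n, hn, t, ht, rfl⟩ := hC g
  have ht' : t ∉ N := fun k => hg (mul_mem hn k)
  have cYt : ∀ u ∈ Y, ⁅u, t⁆ ∈ Y1 := fun u hu => by
    have k := (mem_cm.1 (hUY.ge hu)).2
    rw [cmr, mul_mem_cancel_left (cYN u hu n hn)] at k
    simpa [mul_assoc] using n1.conj_mem _ k n⁻¹
  refine lt.not_ge ?_
  rw [← hY]
  refine commutator_le.2 fun a ha b hb => ?_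
  have mY : ∀ a ∈ commutator G, ⁅a, b⁆ ∈ Y := fun a ha => hY ▸ commutator_mem_commutator ha hb
  have pc : ∀ u ∈ Y, ∀ n ∈ N, (u : G ⧸ Y1) * n = n * u := fun u hu n hn => by
    rw [← commutatorElement_eq_one_iff_mul_comm]
    exact (QuotientGroup.eq_one_iff ⁅u, n⁆).2 (cYN u hu n hn)
  have fm : ∀ a ∈ commutator G, ∀ a' ∈ commutator G,
      ((⁅a * a', b⁆ : G) : G ⧸ Y1) = (⁅a', b⁆ : G) * (⁅a, b⁆ : G) := fun a ha a' ha' => by
    rw [cml, QuotientGroup.mk_mul, QuotientGroup.mk_mul, QuotientGroup.mk_mul,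
      ← pc _ (mY a' ha') a (hAN ha), QuotientGroup.mk_inv, mul_inv_cancel_right]
  have c1 : ∀ a ∈ commutator G, ∀ a' ∈ commutator G, ⁅a, a'⁆ ∈ cm (commutator G) Y1 b :=
    fun a ha a' ha' => by
    have k0 : ⁅a, a'⁆ ∈ commutator G := commutator_mem_commutator (mem_top _) (mem_top _)
    refine ⟨k0, (QuotientGroup.eq_one_iff _).1 ?_⟩
    have k := fm _ k0 _ (mul_mem ha' ha)
    rw [show ⁅a, a'⁆ * (a' * a) = a * a' by rw [commutatorElement_def]; group, fm a ha a' ha',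
      fm a' ha' a ha, pc _ (mY a ha) _ (hAN (hYA (mY a' ha')))] at k
    exact mul_eq_left.1 k.symm
  have c2 : ∀ a ∈ commutator G, ⁅a, t⁆ ∈ cm (commutator G) Y1 b := fun a ha => by
    refine ⟨commutator_mem_commutator (mem_top _) (mem_top _), ?_⟩
    have e : ⁅⁅a, t⁆, b⁆ = a * ⁅⁅a⁻¹, b⁆, t⁆⁻¹ * a⁻¹ := by
      have k := hZC b hb t ht
      simp only [commutatorElement_def]
      calc a * t * a⁻¹ * t⁻¹ * b * (a * t * a⁻¹ * t⁻¹)⁻¹ * b⁻¹
          = a * t * a⁻¹ * (t⁻¹ * (b * t)) * a * (b * t)⁻¹ * b * a⁻¹ * b⁻¹ := by group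
        _ = _ := by rw [← k]; group
    rw [e]
    exact n1.conj_mem _ (inv_mem (cYt _ (mY _ (inv_mem ha)))) _
  have c3 : ⁅N, N⁆ ≤ cm (commutator G) Y1 b := fun y hy => by
    obtain ⟨n, hn, rfl⟩ := T.ct x (hAN hx) hxB y hy
    obtain ⟨a, ha, z, hz, rfl⟩ := hA n hn
    have k : a * ⁅x, z⁆ * a⁻¹ ∈ Y := hYn.conj_mem _ (hY ▸ commutator_mem_commutator hx hz) a
    rw [cmr]
    exact mul_mem (c1 x hx a ha) ⟨hYA k, cYN _ k b (hZ hb)⟩
  obtain ⟨m, hm, k⟩ := T.surj ht' (hAN ha)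
  obtain ⟨a', ha', z, hz, rfl⟩ := hA m hm
  rw [cml, commutatorElement_eq_one_iff_mul_comm.2 (hZC z hz t ht).symm, mul_one, mul_inv_cancel,
    one_mul] at k
  have k2 := c3 (T.comm_inf.le ⟨(commutator G).mul_mem ((commutator G).inv_mem (c2 a' ha').1) ha, k⟩)
  exact ((mul_mem_cancel_left (inv_mem (c2 a' ha'))).1 k2).2

end S1x

open S1x

section
variable {N B : Subgroup G} [N.Normal] [B.Normal]

theorem Top.s1 (T : Top N B) (hp : p.Prime) (hN : IsPGroup p N) :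
    Cam p (commutator G) ∧ g2 (commutator G) = ⁅N, N⁆ ∧ ∃ Z : Subgroup G,
      commutator G ⊔ Z = N ∧ Z ≤ centralizer (commutator G : Set G) ∧
        ∀ g, ∃ n ∈ N, n⁻¹ * g ∈ centralizer (Z : Set G) := by
  have := Fact.mk hp
  have hAN := T.comm_le
  obtain ⟨c, hc, hC⟩ := exists_c T.toFr hp hN
  have h1 : ⁅N, zpowers c⁆ ⊔ N ⊓ centralizer (zpowers c : Set G) = N := by
    refine Solv.Coprime.commutator_sup_centralizer le_normalizer_of_normal ?_ (Or.inr ?_)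
    · obtain ⟨k, hk⟩ := IsPGroup.iff_card.1 hN
      rw [Nat.card_zpowers, hk]
      exact hc.pow_right k
    · have := hN.isNilpotent
      infer_instance
  generalize hZ : N ⊓ centralizer (zpowers c : Set G) = Z at h1
  have hZN : Z ≤ N := hZ ▸ inf_le_left
  have hZC : ∀ z ∈ Z, ∀ t ∈ zpowers c, t * z = z * t := fun z hz t ht =>
    mem_centralizer_iff.1 (hZ.ge hz).2 t ht
  have h2 : commutator G ⊔ Z = N :=
    le_antisymm (sup_le hAN hZN) (h1.ge.trans (sup_le_sup_right (commutator_mono le_top le_top) _))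
  have hA : ∀ n ∈ N, ∃ a ∈ commutator G, ∃ z ∈ Z, n = a * z := fun n hn => by
    obtain ⟨a, ha, z, hz, e⟩ := mem_sup_of_normal_left.1 (h2.ge hn)
    exact ⟨a, ha, z, hz, e.symm⟩
  have h3 := claim T hp hN hC hZN hZC hA
  have ct : ∀ x ∈ commutator G, x ∉ B → ∀ y ∈ ⁅N, N⁆, ∃ a ∈ commutator G, ⁅x, a⁆ = y :=
    fun x hx hxB y hy => by
    obtain ⟨n, hn, rfl⟩ := T.ct x (hAN hx) hxB y hy
    obtain ⟨a, ha, z, hz, rfl⟩ := hA n hn
    refine ⟨a, ha, ?_⟩
    rw [cmr, mem_bot.1 (h3.le (commutator_mem_commutator hx hz))]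
    simp
  obtain ⟨x, hx, hxB⟩ : ∃ x ∈ commutator G, x ∉ B := by
    by_contra! h
    exact T.lt.not_ge (T.comm_sup.ge.trans (sup_le h le_rfl))
  have h4 : g2 (commutator G) = ⁅N, N⁆ := le_antisymm (commutator_mono hAN hAN) fun y hy => by
    obtain ⟨a, ha, rfl⟩ := ct x hx hxB y hy
    exact commutator_mem_commutator hx ha
  refine ⟨⟨hp, hN.to_le hAN, fun x hx hx' y hy => ?_⟩, h4, Z, h2, ?_, fun g => ?_⟩
  · rw [h4] at hx' hy
    exact ct x hx (fun k => hx' (T.comm_inf.le ⟨hx, k⟩)) y hy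
  · rw [commutator_comm] at h3
    exact commutator_eq_bot_iff_le_centralizer.1 h3
  · obtain ⟨n, hn, t, ht, rfl⟩ := hC g
    refine ⟨n, hn, mem_centralizer_iff.2 fun z hz => ?_⟩
    rw [inv_mul_cancel_left, hZC z hz t ht]

end

end Cfsg.Lib.NDD
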