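import Cfsg.Agent.NDD.Bas
import Cfsg.Agent.Char.Ramified

/-!
# One degree on the top layer
-/

set_option autoImplicit false
set_option linter.unusedSectionVars false
set_option linter.unusedVariables false

namespace Cfsg.Lib.NDD

open Subgroup Cfsg.Lib.Char Cfsg.Lib.Char.Deg Module
open scoped commutatorElement

universe u

variable {G : Type u} [Group G] [Finite G] {p : ℕ}

namespace TopLx

section Act
variable {U : Type*} [CommGroup U] [MulDistribMulAction G U]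

open MulAction in
theorem reg {n : ℕ} (hn : n.Coprime (Nat.card U)) (hpow : ∀ (t : G) (ξ : U), t ^ n • ξ = ξ)
    (hc : ∀ (s t : G) (ξ : U), s • t • ξ = t • s • ξ) :
    ∃ l : U, ∀ μ : U, stabilizer G l ≤ stabilizer G μ := by
  obtain ⟨l, hl⟩ := (measure fun ξ : U => Nat.card (stabilizer G ξ)).wf.has_min Set.univ ⟨1, trivial⟩
  refine ⟨l, fun μ t ht => ?_⟩
  have key : stabilizer G (l * (t • μ / μ)) ≤ stabilizer G l := fun s hs => by
    rw [mem_stabilizer_iff] at hs ⊢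
    have h4 : t • (μ / s • μ) / (μ / s • μ) = s • l / l := by
      rw [smul_mul', smul_div', hc s t] at hs
      rw [smul_div', eq_div_iff_mul_eq'.2 hs]
      apply Additive.ofMul.injective
      simp only [ofMul_mul, ofMul_div]
      abel
    have h5 := smul_eq_of_smul_div hn (hpow t (μ / s • μ))
      (by rw [h4, smul_div', hc, (ht : t • l = l)])
    rwa [h5, div_self', eq_comm, div_eq_one] at h4
  have h2 := eq_of_le_of_card_ge key (not_lt.1 (hl.2 _ trivial))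
  have h3 : t • (l * (t • μ / μ)) = l * (t • μ / μ) := h2.ge ht
  rw [smul_mul', (ht : t • l = l), mul_right_inj] at h3
  exact smul_eq_of_smul_div hn (hpow t μ) h3

open MulAction in
theorem reg2 [Finite U] {n : ℕ} (hn : n.Coprime (Nat.card U))
    (hpow : ∀ (t : G) (ξ : U), t ^ n • ξ = ξ)
    (hc : ∀ (s t : G) (ξ : U), s • t • ξ = t • s • ξ) {c : G}
    (hg : ∀ ξ : U, c • ξ = ξ → ∀ g : G, g • ξ = ξ) :
    ∃ S : Subgroup G, (∀ μ : U, S ≤ stabilizer G μ) ∧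
      ∀ ν : U, ∃ μ : U, stabilizer G (ν * (c • μ / μ)) = S := by
  obtain ⟨l, hl⟩ := reg hn hpow hc
  refine ⟨_, hl, fun ν => ?_⟩
  let φ : U →* U := MulDistribMulAction.toMonoidHom U c / MonoidHom.id U
  have hφ : ∀ μ, φ μ = c • μ / μ := fun _ => rfl
  have inj : Function.Injective (φ.comp φ.range.subtype).rangeRestrict ∧
      (φ.comp φ.range.subtype).range ≤ φ.range := by
    refine ⟨(injective_iff_map_eq_one _).2 ?_, ?_⟩
    · rintro ⟨_, μ, rfl⟩ h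
      have h1 : φ (φ μ) = 1 := congrArg Subtype.val h
      rw [hφ, hφ, div_eq_one] at h1
      exact Subtype.ext (show φ μ = 1 by rw [hφ, smul_eq_of_smul_div hn (hpow c μ) h1, div_self'])
    · rintro _ ⟨x, rfl⟩; exact ⟨_, rfl⟩
  have e := eq_of_le_of_card_ge inj.2 (Nat.card_le_card_of_injective _ inj.1)
  obtain ⟨⟨_, μ, rfl⟩, hμ⟩ := e.ge ⟨ν, rfl⟩
  have h0 : ∀ g : G, g • (ν / φ μ) = ν / φ μ := hg _ (by
    have h1 : φ (φ μ) = φ ν := hμ
    rw [← div_eq_one, ← hφ, map_div, h1, div_self'])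
  refine ⟨l / μ, le_antisymm (fun s hs => ?_) (hl _)⟩
  have e1 : ν * (c • (l / μ) / (l / μ)) = ν / φ μ * (c • l / l) := by
    rw [← hφ, ← hφ, map_div]
    apply Additive.ofMul.injective
    simp only [ofMul_mul, ofMul_div]
    abel
  rw [mem_stabilizer_iff, e1, smul_mul', h0, mul_right_inj, smul_div', hc] at hs
  refine smul_eq_of_smul_div hn (hpow s l) (hg _ ?_ s)
  rw [smul_div', div_eq_div_iff_mul_eq_mul, div_eq_div_iff_mul_eq_mul.1 hs, mul_comm]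

end Act

section Chr
variable {H Λ : Type*} [Group H] [Finite H] [Group Λ] {ι : Λ →* H}

theorem van (hι : ∀ l, ι l ∈ center H) {ψ : H → ℂ} (hψ : IsIrrCharacter H ψ) {ν : Λ →* ℂˣ}
    (h1 : ν ≠ 1) (h : ∀ l, ψ (ι l) = ψ 1 * ν l) {x : H} (hx : ∀ l, IsConj x (ι l * x)) :
    ψ x = 0 := by
  obtain ⟨l, hl⟩ := DFunLike.ne_iff.1 h1
  obtain ⟨c, hc⟩ := isConj_iff.1 (hx l)
  have e := irr_mul_center hψ (hι l) x
  rw [← hc, hψ.isClassFunction, h, mul_div_cancel_left₀ _ hψ.apply_one_ne_zero] at e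
  by_contra h0
  exact hl (Units.ext ((mul_eq_right₀ h0).1 e.symm))

theorem exists_lift (hι : ∀ l, ι l ∈ center H) (Z : Subgroup H) {κ : Λ →* ℂˣ}
    (hκ : ∀ l, ι l ∈ Z → κ l = 1) :
    ∃ Y : Subgroup H, (∀ y, y ∈ Y ↔ ∃ l, ∃ z ∈ Z, y = ι l * z) ∧ ∃ k : Y →* ℂˣ,
      ∀ l (h : ι l ∈ Y), k ⟨ι l, h⟩ = κ l := by
  let j : Λ × Z →* H := ι.noncommCoprod Z.subtype fun l z => (mem_center_iff.1 (hι l) z).symm
  have hj : ∀ l z, j (l, z) = ι l * z := fun _ _ => rfl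
  have hk : j.rangeRestrict.ker ≤ (κ.comp (MonoidHom.fst Λ Z)).ker := by
    rintro ⟨l, z⟩ h
    have h1 : ι l * z = 1 := congrArg Subtype.val h
    exact hκ l (eq_inv_of_mul_eq_one_left h1 ▸ Z.inv_mem z.2)
  refine ⟨j.range, fun y => ⟨?_, ?_⟩, j.rangeRestrict.liftOfSurjective
    j.rangeRestrict_surjective ⟨_, hk⟩, fun l h => ?_⟩
  · rintro ⟨⟨l, z⟩, rfl⟩; exact ⟨l, z, z.2, rfl⟩
  · rintro ⟨l, z, hz, rfl⟩; exact ⟨(l, ⟨z, hz⟩), rfl⟩
  · have : (⟨ι l, h⟩ : j.range) = j.rangeRestrict (l, 1) := Subtype.ext (by simp [hj])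
    rw [this]
    exact MonoidHom.liftOfRightInverse_comp_apply _ _ _ _ _

theorem twist (hι : ∀ l, ι l ∈ center H) {Z : Subgroup H}
    (hZ : ∀ g, ∃ z' ∈ Z, ∀ z ∈ Z, g * z * g⁻¹ = z' * z * z'⁻¹)
    (hx : ∀ x, (∃ l, ∃ z ∈ Z, x = ι l * z) ∨ ∀ l, IsConj x (ι l * x))
    {ψ : H → ℂ} (hψ : IsIrrCharacter H ψ) {ν κ : Λ →* ℂˣ} (h1 : ν ≠ 1) (h2 : ν * κ ≠ 1)
    (h : ∀ l, ψ (ι l) = ψ 1 * ν l) (hκ : ∀ l, ι l ∈ Z → κ l = 1) :
    ∃ ψ' : H → ℂ, IsIrrCharacter H ψ' ∧ charDegree ψ' = charDegree ψ ∧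
      ∀ l, ψ' (ι l) = ψ' 1 * (ν * κ) l := by
  classical
  have := Fintype.ofFinite H
  obtain ⟨Y, hY, k, hk⟩ := exists_lift hι Z hκ
  have cj : ∀ g, ∃ y' ∈ Y, ∀ y ∈ Y, g * y * g⁻¹ = y' * y * y'⁻¹ := fun g => by
    obtain ⟨z', hz', e⟩ := hZ g
    refine ⟨z', (hY _).2 ⟨1, z', hz', by simp⟩, fun y hy => ?_⟩
    obtain ⟨l, z, hz, rfl⟩ := (hY _).1 hy
    have c := mem_center_iff.1 (hι l)
    rw [← mul_assoc, ← mul_assoc, c g, c z', mul_assoc, mul_assoc, ← mul_assoc g, e z hz]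
    group
  have : Y.Normal := ⟨fun y hy g => by
    obtain ⟨y', h', e⟩ := cj g
    rw [e y hy]; exact Y.mul_mem (Y.mul_mem h' hy) (Y.inv_mem h')⟩
  have inv : ∀ {β : Y → ℂ}, IsIrrCharacter Y β → ∀ (g : H) (n : Y),
      β ⟨g * n * g⁻¹, this.conj_mem n n.2 g⟩ = β n := fun hβ g n => by
    obtain ⟨y', h', e⟩ := cj g
    rw [← hβ.isClassFunction n ⟨y', h'⟩]
    exact congrArg _ (Subtype.ext (e n n.2))
  obtain ⟨β, hβ, hb⟩ := exists_irr_under Y hψ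
  obtain ⟨e, e0, -, he⟩ := clifford_res_invariant_nat hψ hβ (inv hβ) hb
  have hβ' := hβ.mul_monoidHom k
  obtain ⟨ψ', hψ', hb'⟩ := exists_irr_over hβ'
  obtain ⟨e', e0', -, he'⟩ := clifford_res_invariant_nat hψ' hβ' (inv hβ') hb'
  have mem : ∀ l, ι l ∈ Y := fun l => (hY _).2 ⟨l, 1, Z.one_mem, by simp⟩
  have o1 : ψ 1 = e * β 1 := congrFun he 1
  have o2 : ψ' 1 = e' * β 1 := by simpa using congrFun he' 1
  have h' : ∀ l, ψ' (ι l) = ψ' 1 * (ν * κ) l := fun l => by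
    have a1 : ψ (ι l) = e * β ⟨ι l, mem l⟩ := congrFun he ⟨ι l, mem l⟩
    have a2 : ψ' (ι l) = e' * (β ⟨ι l, mem l⟩ * k ⟨ι l, mem l⟩) := congrFun he' ⟨ι l, mem l⟩
    rw [h, o1, mul_assoc, mul_right_inj' (Nat.cast_ne_zero.2 e0.ne')] at a1
    rw [a2, ← a1, hk, o2, MonoidHom.mul_apply, Units.val_mul]; ring
  have v1 := (vanish_iff_sq_eq_index hψ hβ he).1 fun g hg =>
    van hι hψ h1 h ((hx g).resolve_left (mt (hY g).2 hg))
  have v2 := (vanish_iff_sq_eq_index hψ' hβ' he').1 fun g hg =>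
    van hι hψ' h2 h' ((hx g).resolve_left (mt (hY g).2 hg))
  refine ⟨ψ', hψ', deg_congr ?_, h'⟩
  rw [o1, o2, (pow_left_inj₀ e.zero_le e'.zero_le two_ne_zero).1 (v1.trans v2.symm)]

end Chr

end TopLx

open TopLx in
theorem Top.topL {N B : Subgroup G} [N.Normal] [B.Normal]
    (T : Top N B) (hp : p.Prime) (hN : IsPGroup p N) {A Z L : Subgroup G}
    [L.Normal] (hAZ : A ⊔ Z = N) (hZA : Z ≤ centralizer (A : Set G))
    (hZ : ∀ g, ∃ n ∈ N, n⁻¹ * g ∈ centralizer (Z : Set G)) (hL : L ≤ ⁅N, N⁆) (hLA : L ≤ A)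
    (hLc : L ≤ centralizer (A : Set G)) (hZL : ⁅Z, Z⁆ ≤ L)
    (hcam : ∀ x ∈ A, x ∉ L → ∀ l ∈ L, ∃ g ∈ A, ⁅x, g⁆ = l) :
    ∃ a, ∀ χ, IsIrrCharacter G χ → ¬ L ≤ charKer χ → charDegree χ = a := by
  classical
  have := Fintype.ofFinite G
  have := Fact.mk hp
  let _ := dualAct L
  have hAN : A ≤ N := le_sup_left.trans hAZ.le
  have hZN : Z ≤ N := le_sup_right.trans hAZ.le
  have hLN : L ≤ N := hLA.trans hAN
  have dec : ∀ x ∈ N, ∃ a ∈ A, ∃ z ∈ Z, x = a * z := fun x hx => by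
    have h1 : A ≤ normalizer (Z : Set G) :=
      (le_centralizer_iff.1 hZA).trans (centralizer_le_normalizer _)
    have h2 : x ∈ ((A ⊔ Z : Subgroup G) : Set G) := hAZ.ge hx
    rw [coe_mul_of_left_le_normalizer_right _ _ h1] at h2
    obtain ⟨a, ha, z, hz, rfl⟩ := h2
    exact ⟨a, ha, z, hz, rfl⟩
  have cen : ∀ l ∈ L, ∀ x ∈ N, x * l = l * x := fun l hl x hx => by
    obtain ⟨a, ha, z, hz, rfl⟩ := dec x hx
    rw [mul_assoc, ← hZA hz l (hLA hl), ← mul_assoc, hLc hl a ha, mul_assoc]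
  have sm : ∀ (g : G) (ξ : L →* ℂˣ) (l : L),
      (g • ξ) l = ξ ⟨g⁻¹ * l * g⁻¹⁻¹, ‹L.Normal›.conj_mem _ l.2 _⟩ := fun _ _ _ => rfl
  have fix : ∀ (g : G) (ξ : L →* ℂˣ) (l : L), g * l = l * g → (g • ξ) l = ξ l := fun g ξ l h => by
    rw [sm]; exact congrArg ξ (Subtype.ext (by simp [mul_assoc, ← h]))
  have triv : ∀ n ∈ N, ∀ ξ : L →* ℂˣ, n • ξ = ξ := fun n hn ξ =>
    MonoidHom.ext fun l => fix n ξ l (cen l l.2 n hn)
  have cop : N.index.Coprime (Nat.card (L →* ℂˣ)) := by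
    have h1 : IsPGroup p (L →* ℂˣ) := fun ξ => by
      obtain ⟨k, hk⟩ := IsPGroup.iff_card.1 (hN.to_le hLN)
      exact ⟨k, MonoidHom.ext fun l => by
        rw [MonoidHom.pow_apply, ← map_pow, ← hk, pow_card_eq_one', map_one, MonoidHom.one_apply]⟩
    obtain ⟨k, hk⟩ := IsPGroup.iff_card.1 h1
    obtain ⟨j, hj⟩ := hN.index (B.subgroupOf N)
    have h2 : j ≠ 0 := by
      rintro rfl
      exact T.lt.not_ge (relIndex_eq_one.1 hj)
    have h3 := T.toFr.cop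
    rw [relIndex, hj] at h3
    exact hk ▸ ((Nat.coprime_pow_right_iff (Nat.pos_of_ne_zero h2) _ _).1 h3).pow_right k
  obtain ⟨c, hc⟩ := T.cyc.exists_generator
  obtain ⟨c, rfl⟩ := QuotientGroup.mk_surjective c
  obtain ⟨S, hS, hS'⟩ := reg2 (U := L →* ℂˣ) (c := c) cop
    (fun t ξ => triv _ (N.pow_index_mem t) ξ)
    (fun s t ξ => by
      have := triv _ (T.toFr.comm_le (commutator_mem_commutator (mem_top s) (mem_top t)))
        (t • s • ξ)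
      rw [← this, ← mul_smul, ← mul_smul, ← mul_smul, commutatorElement_def]
      congr 1; group)
    (fun ξ h g => by
      obtain ⟨k, hk⟩ := hc (g : G ⧸ N)
      have h1 : (c ^ k)⁻¹ * g ∈ N := QuotientGroup.eq.1 (by rw [QuotientGroup.mk_zpow]; exact hk)
      have h2 : c ^ k • ξ = ξ := (MulAction.stabilizer G ξ).zpow_mem h k
      rw [← mul_inv_cancel_left (c ^ k) g, mul_smul, triv _ h1, h2])
  have hι : ∀ l : L, inclusion hLN l ∈ center N := fun l =>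
    mem_center_iff.2 fun x => Subtype.ext (cen l l.2 x x.2)
  have hx : ∀ x : N, (∃ l : L, ∃ z ∈ Z.subgroupOf N, x = inclusion hLN l * z) ∨
      ∀ l : L, IsConj x (inclusion hLN l * x) := fun x => by
    obtain ⟨a, ha, z, hz, e⟩ := dec x x.2
    by_cases h : a ∈ L
    · exact Or.inl ⟨⟨a, h⟩, ⟨z, hZN hz⟩, hz, Subtype.ext e⟩
    refine Or.inr fun l => ?_
    obtain ⟨g, hg, e1⟩ := hcam _ (A.inv_mem ha) (mt L.inv_mem_iff.1 h) l l.2
    refine isConj_iff.2 ⟨⟨g, hAN hg⟩, Subtype.ext ?_⟩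
    show g * x * g⁻¹ = l * x
    rw [← cen l l.2 x x.2, e, mul_assoc a, cen l l.2 z (hZN hz), ← e1, ← mul_assoc g, mul_assoc _ z,
      ← hZA hz _ (A.inv_mem hg), commutatorElement_def]
    group
  have hZ' : ∀ g : N, ∃ z' ∈ Z.subgroupOf N, ∀ z ∈ Z.subgroupOf N,
      g * z * g⁻¹ = z' * z * z'⁻¹ := fun g => by
    obtain ⟨a, ha, w, hw, e⟩ := dec g g.2
    refine ⟨⟨w, hZN hw⟩, hw, fun z hz => Subtype.ext ?_⟩
    show (g : G) * z * (g : G)⁻¹ = w * z * w⁻¹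
    have : a * (w * z * w⁻¹) = w * z * w⁻¹ * a :=
      hZA (Z.mul_mem (Z.mul_mem hw hz) (Z.inv_mem hw)) a ha
    rw [e, mul_inv_rev, ← mul_assoc, mul_inv_eq_iff_eq_mul, ← this]
    group
  have iner : ∀ {ψ : N → ℂ} {ν : L →* ℂˣ}, IsIrrCharacter N ψ → ν ≠ 1 →
      (∀ l, ψ (inclusion hLN l) = ψ 1 * ν l) → inertia N ψ = MulAction.stabilizer G ν := by
    intro ψ ν hψ h1 h
    rw [stabilizer_dualAct]
    refine le_antisymm (fun g hg => mem_inertia'.2 fun l => ?_) fun g hg => ?_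
    · have e := mem_inertia'.1 hg (inclusion hLN l)
      rw [h] at e
      exact mul_left_cancel₀ hψ.apply_one_ne_zero ((h _).symm.trans e)
    obtain ⟨n, hn, hc⟩ := hZ g
    have h2 : n⁻¹ * g ∈ inertia L fun a => (ν a : ℂ) := mul_mem (by
      rw [← stabilizer_dualAct]; exact triv _ (N.inv_mem hn) ν) hg
    rw [← mul_inv_cancel_left n g]
    refine mul_mem (le_inertia hψ.isClassFunction hn) (mem_inertia'.2 fun x => ?_)
    generalize n⁻¹ * g = d at hc h2 ⊢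
    by_cases hd : ∃ l : L, ∃ z ∈ Z.subgroupOf N, x = inclusion hLN l * z
    · obtain ⟨l, z, hz, rfl⟩ := hd
      have e : (⟨d * (inclusion hLN l * z : N) * d⁻¹, ‹N.Normal›.conj_mem _ (Subtype.prop _) _⟩ : N) =
          inclusion hLN ⟨d * l * d⁻¹, ‹L.Normal›.conj_mem _ l.2 _⟩ * z := Subtype.ext (by
        show d * (l * z) * d⁻¹ = d * l * d⁻¹ * z
        rw [mul_assoc _ d⁻¹, ← (centralizer _).inv_mem hc z hz]; group)
      rw [e, irr_mul_center hψ (hι _), irr_mul_center hψ (hι _), h, h, mem_inertia'.1 h2 l]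
    · rw [van hι hψ h1 h ((hx x).resolve_left hd), van hι hψ h1 h ((hx _).resolve_left ?_)]
      rintro ⟨l, z, hz, e⟩
      refine hd ⟨⟨d⁻¹ * l * d⁻¹⁻¹, ‹L.Normal›.conj_mem _ l.2 _⟩, z, hz, Subtype.ext ?_⟩
      have e' : d * x * d⁻¹ = l * z := congrArg Subtype.val e
      show (x : G) = d⁻¹ * l * d⁻¹⁻¹ * z
      rw [inv_inv, mul_assoc _ d, ← hc z hz, ← mul_assoc, mul_assoc _ (l : G), ← e']; group
  have nl : ∀ χ, IsIrrCharacter G χ → ¬ L ≤ charKer χ → charDegree χ ≠ 1 := fun χ hχ h e =>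
    h (hL.trans ((commutator_mono le_top le_top).trans ((commutator_le_charKer_iff hχ).2 e)))
  have key : ∀ χ, IsIrrCharacter G χ → ¬ L ≤ charKer χ → ∃ k, charDegree χ = S.index * p ^ k := by
    intro χ hχ hk
    obtain ⟨ψ, hψ, hu⟩ := exists_irr_under N hχ
    obtain ⟨lam, h, -, -⟩ := hψ.exists_monoidHom_of_le_center (le_refl (center N))
    let ν : L →* ℂˣ := lam.comp ((inclusion hLN).codRestrict _ hι)
    have h : ∀ l, ψ (inclusion hLN l) = ψ 1 * ν l := fun l => h ⟨_, hι l⟩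
    have h1 : ν ≠ 1 := fun e => hk ((lies_over_one_iff hχ).1 (lies_over_trans hLN hχ.isCharacter hψ
      isIrrCharacter_one.isCharacter hu (by
        have e1 : (fun n : L => ψ ⟨n, hLN n.2⟩) = fun _ => ψ 1 :=
          funext fun l => (h l).trans (by rw [e]; simp)
        simpa [e1, classInner] using hψ.apply_one_ne_zero)) |>
          fun h l hl => hχ.mem_charKer_iff.2 (h l hl))
    obtain ⟨j, hj⟩ := IsPGroup.iff_card.1 hN
    obtain ⟨k, -, hk'⟩ := (Nat.dvd_prime_pow hp).1 (hj ▸ deg_dvd_card hψ)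
    have d1 := deg_over T.cyc hχ hψ hu
    rw [iner hψ h1 h, hk'] at d1
    refine ⟨k, ?_⟩
    obtain ⟨μ, hμ⟩ := hS' ν
    by_cases h2 : ν * (c • μ / μ) = 1
    · rw [d1, le_antisymm (le_top.trans (hμ ▸ fun g _ => ?_)) (hS ν)]
      rw [h2]; exact MonoidHom.ext fun _ => rfl
    obtain ⟨ψ', hψ', e, h'⟩ := twist hι hZ' hx hψ h1 h2 h fun l hl => by
      obtain ⟨n, hn, hc⟩ := hZ c
      rw [MonoidHom.div_apply, div_eq_one]
      refine fix c μ l ?_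
      rw [← mul_inv_cancel_left n c, mul_assoc, ← hc l hl, ← mul_assoc, cen l l.2 n hn, mul_assoc]
    obtain ⟨χ', hχ', hu'⟩ := exists_irr_over hψ'
    have d2 := deg_over T.cyc hχ' hψ' hu'
    rw [iner hψ' h2 h', hμ, e, hk'] at d2
    rw [← d2]
    exact T.nd _ _ hχ hχ' (nl χ hχ hk) (d1 ▸ d2 ▸ Nat.mul_dvd_mul_right (index_dvd_of_le (hS ν)) _)
  by_cases h0 : ∃ χ, IsIrrCharacter G χ ∧ ¬ L ≤ charKer χ
  · obtain ⟨χ₀, h0, k0⟩ := h0
    refine ⟨charDegree χ₀, fun χ hχ hk => ?_⟩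
    obtain ⟨i, hi⟩ := key χ hχ hk
    obtain ⟨j, hj⟩ := key χ₀ h0 k0
    rcases le_total i j with h | h
    · exact T.nd _ _ hχ h0 (nl _ hχ hk) (hi ▸ hj ▸ Nat.mul_dvd_mul_left _ (pow_dvd_pow p h))
    · exact (T.nd _ _ h0 hχ (nl _ h0 k0) (hi ▸ hj ▸ Nat.mul_dvd_mul_left _ (pow_dvd_pow p h))).symm
  · exact ⟨0, fun χ hχ hk => absurd ⟨χ, hχ, hk⟩ h0⟩

end Cfsg.Lib.NDD
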