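import Cfsg.Agent.NDD.CamB
import Cfsg.Agent.NDD.Fpf
import Cfsg.Agent.NDD.S1
import Cfsg.Agent.NDD.TopL
import Cfsg.Agent.NDD.PQ

/-!
# Case I: a prime divides both `|N : B|` and `|N'|`
-/

set_option autoImplicit false
set_option linter.unusedSectionVars false
set_option linter.unusedVariables false

namespace Cfsg.Lib.NDD

open Subgroup Cfsg.Lib.Char Cfsg.Lib.Char.Deg Module
open scoped commutatorElement

universe u

variable {G : Type u} [Group G] [Finite G] {p : ℕ}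

namespace Onex

theorem comm_map (Y : Subgroup G) [Y.Normal] :
    commutator (G ⧸ Y) = (commutator G).map (QuotientGroup.mk' Y) := by
  rw [commutator_def, commutator_def, map_commutator,
    map_top_of_surjective _ (QuotientGroup.mk'_surjective Y)]

theorem of_map {H : Type u} [Group H] (f : G →* H) {A : Subgroup G} (hA : IsPGroup p A)
    (hi : ∀ x ∈ A, ∀ y ∈ A, f x = f y → x = y) (h : Cam p (A.map f)) : Cam p A := by
  have l : g2 A ≤ A := commutator_le_self A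
  refine ⟨h.prime, hA, fun x hx hx' y hy => ?_⟩
  obtain ⟨_, ⟨g, hg, rfl⟩, e⟩ := h.cam (f x) (mem_map_of_mem f hx) (by
    rw [g2, ← map_commutator]
    rintro ⟨z, hz, e⟩
    exact hx' (hi z (l hz) x hx e ▸ hz)) (f y) (by
      rw [g2, ← map_commutator]; exact mem_map_of_mem f hy)
  exact ⟨g, hg, hi _ (l (commutator_mem_commutator hx hg)) y (l hy)
    (by rw [map_commutatorElement, e])⟩

theorem deg_quot {M : Subgroup G} [M.Normal] (hM : M ≤ center G) (h : commutator G ⊓ M = ⊥)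
    {χ : G → ℂ} (hχ : IsIrrCharacter G χ) :
    ∃ ψ, IsIrrCharacter (G ⧸ M) ψ ∧ charDegree ψ = charDegree χ := by
  obtain ⟨lam, h1, -⟩ := hχ.exists_monoidHom_of_le_center hM
  have hi : Function.Injective (Abelianization.of.comp M.subtype) :=
    (injective_iff_map_eq_one _).2 fun x hx => Subtype.ext (mem_bot.1 (h ▸ (⟨by
      rw [← Abelianization.ker_of]; exact hx, x.2⟩ : (x : G) ∈ commutator G ⊓ M)))
  obtain ⟨mu, h2⟩ := exists_monoidHom_extend_of_comm (G := Abelianization G) mul_comm _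
    (lam.comp (MonoidHom.ofInjective hi).symm.toMonoidHom)
  have h3 : ∀ m : M, mu (Abelianization.of (m : G)) = lam m := fun m =>
    (h2 (MonoidHom.ofInjective hi m)).trans (by simp)
  obtain ⟨ψ, hψ, e⟩ := (hχ.mul_monoidHom (mu.comp Abelianization.of)⁻¹).exists_quotient M
    fun n hn => by
      have := h1 ⟨n, hn⟩
      have h4 := h3 ⟨n, hn⟩
      simp only at this h4
      simp [this, h4]
  exact ⟨ψ, hψ, deg_congr (by simpa using e 1)⟩

variable {N B : Subgroup G} [N.Normal] [B.Normal]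

theorem nl [Fintype N] {χ : G → ℂ} (hχ : IsIrrCharacter G χ) (h : ¬ ⁅N, N⁆ ≤ charKer χ)
    {ψ : N → ℂ} (hψ : IsIrrCharacter N ψ) (hl : classInner (fun n : N => χ n) ψ ≠ 0) :
    charDegree ψ ≠ 1 := fun e => h (Four.le_charKer_of_under (commutator_le_self N) hχ hψ hl (by
  refine le_trans (fun x hx => ?_) ((commutator_le_charKer_iff hψ).2 e)
  rw [mem_subgroupOf, ← map_subtype_commutator] at hx
  obtain ⟨y, hy, e⟩ := hx
  exact Subtype.ext e ▸ hy))

theorem two (T : Top N B) (hp : p.Prime) (hN : IsPGroup p N) (h3 : g3 (commutator G) = ⊥) :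
    ∃ a, ∀ χ, IsIrrCharacter G χ → ¬ ⁅N, N⁆ ≤ charKer χ → charDegree χ = a := by
  obtain ⟨hc, e, Z, h1, h2, hZ⟩ := T.s1 hp hN
  refine T.topL hp hN h1 h2 hZ le_rfl (e ▸ commutator_le_self _) ?_
    (commutator_mono (le_sup_right.trans h1.le) (le_sup_right.trans h1.le)) (e ▸ hc.cam)
  rw [← e, ← commutator_eq_bot_iff_le_centralizer]
  exact h3

end Onex

section
variable {N B : Subgroup G} [N.Normal] [B.Normal]

theorem Top.four (T : Top N B) (hp : p.Prime) (hN : IsPGroup p N) : Four G := by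
  have := Fact.mk hp
  have := Fintype.ofFinite N
  obtain ⟨hc, e, Z, h1, h2, hZ⟩ := T.s1 hp hN
  have h4 := hc.g4_eq
  have l3 : g3 (commutator G) ≤ ⁅N, N⁆ := e ▸ commutator_le_left _ _
  obtain ⟨a, ha⟩ := Onex.two (T.quot (l3.trans T.NB)) hp (hN.map _) (by
    rw [Onex.comm_map]
    show ⁅⁅_, _⁆, _⁆ = ⊥
    rw [← map_commutator, ← map_commutator, Subgroup.map_eq_bot_iff, QuotientGroup.ker_mk'])
  obtain ⟨b, hb⟩ : ∃ b, ∀ χ, IsIrrCharacter G χ → ¬ g3 (commutator G) ≤ charKer χ →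
      charDegree χ = b := by
    by_cases h3 : g3 (commutator G) = ⊥
    · exact ⟨0, fun χ _ h => absurd (h3 ▸ bot_le) h⟩
    have hZN : Z ≤ N := le_sup_right.trans h1.le
    refine T.topL hp hN h1 h2 hZ l3 (commutator_le_right _ _)
      (commutator_eq_bot_iff_le_centralizer.1 h4) (fun w hw => by_contra fun hw' => h3 ?_)
      fun x hx hx' l hl => ?_
    · refine eq_bot_iff.2 fun z hz => ?_
      obtain ⟨g, hg, rfl⟩ := hc.f2 (e ▸ commutator_mono hZN hZN hw) hw' hz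
      exact commutatorElement_eq_one_iff_mul_comm.2 (h2 (commutator_le_self Z hw) g hg).symm
    · by_cases hx2 : x ∈ g2 (commutator G)
      · exact hc.f2 hx2 hx' hl
      · exact hc.cam x hx hx2 l (commutator_le_left _ _ hl)
  refine ⟨?_, N.index, p, a, b, hp, T.exists_deg, fun χ hχ => ?_⟩
  · exact commutator_commutator_eq_bot_of_rotate (H₁ := commutator G) (H₂ := commutator G)
      (H₃ := g2 (commutator G)) (by rw [commutator_comm (commutator G) (g2 _)]; exact h4) h4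
  by_cases hk : ⁅N, N⁆ ≤ charKer χ
  · exact (T.deg_lin hχ hk).imp_right .inl
  refine .inr (.inr ⟨?_, ?_⟩)
  · by_cases h3 : g3 (commutator G) ≤ charKer χ
    · obtain ⟨ψ, hψ, eψ⟩ := hχ.exists_quotient _ (hχ.isCharacter.le_charKer_iff.1 h3)
      refine .inl ((deg_congr (eψ 1).symm).trans (ha ψ hψ fun h => hk fun x hx => ?_))
      rw [← map_commutator] at h
      rw [hχ.mem_charKer_iff, ← eψ, ← eψ]
      exact hψ.mem_charKer_iff.1 (h (mem_map_of_mem _ hx))
    · exact .inr (hb χ hχ h3)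
  · obtain ⟨ψ, hψ, hl⟩ := exists_irr_under N hχ
    obtain ⟨n, hn⟩ := hN.exists_card_eq
    obtain ⟨i, -, hi⟩ := (Nat.dvd_prime_pow hp).1 (hn ▸ deg_dvd_card hψ)
    exact ⟨i, _, Nat.pos_of_ne_zero fun h0 => Onex.nl hχ hk hψ hl (by rw [hi, h0, pow_zero]),
      index_dvd_of_le (le_inertia hψ.isClassFunction), by rw [deg_over T.cyc hχ hψ hl, hi, mul_comm]⟩

theorem Top.one (T : Top N B) (hp : p.Prime) (h1 : p ∣ B.relIndex N)
    (h2 : p ∣ Nat.card (⁅N, N⁆ : Subgroup G)) : (∃ a b, Three G a b) ∨ Four G := by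
  have := Fact.mk hp
  have := Fintype.ofFinite N
  have := Fintype.ofFinite G
  obtain ⟨M₀, n0, c0, j, hj⟩ := thompson_exists (G := N) hp fun ψ hψ h => T.prime_dvd hp h1 hψ h
  obtain ⟨M, hM⟩ : ∃ M, M = M₀.map N.subtype := ⟨_, rfl⟩
  have hMN : M ≤ N := hM ▸ map_subtype_le _
  have e0 : M.subgroupOf N = M₀ := by
    rw [hM, subgroupOf, comap_map_eq_self_of_injective N.subtype_injective]
  have cM : (Nat.card M).Coprime p := by rwa [hM, card_map_of_injective N.subtype_injective]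
  have nM : M.Normal := ⟨fun m hm g => by
    have : (⟨g * m * g⁻¹, ‹N.Normal›.conj_mem m (hMN hm) g⟩ : N) ∈ M₀ := PQx.mem_of_coprime (by
      rw [hj, orderOf_mk, ← MulAut.conj_apply, MulEquiv.orderOf_eq]
      exact (cM.coprime_dvd_left (M.orderOf_dvd_natCard hm)).pow_right j)
    rwa [← e0] at this⟩
  have hn : ¬ ⁅N, N⁆ ≤ M := fun h =>
    hp.coprime_iff_not_dvd.1 cM.symm (h2.trans (card_dvd_of_le h))
  have hn0 : ¬ commutator N ≤ M₀ := fun h => hn (by
    rw [hM, ← map_subtype_commutator]; exact map_mono h)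
  have hMB : M ≤ B := by
    obtain ⟨g, hg, hg'⟩ := SetLike.not_le_iff_exists.1 hn0
    obtain ⟨β, hβ, hK, hgβ⟩ := exists_irr_le_charKer_not_mem M₀ hg'
    have d := deg_dvd_index_of_le_charCenter hβ (hK.trans charKer_le_charCenter)
    have : M₀ ≤ B.subgroupOf N := PQx.le_of_coprime (Nat.coprime_of_dvd fun q hq d1 d2 => by
      have := (T.prime_dvd hq d2 hβ
        fun e => hgβ ((commutator_le_charKer_iff hβ).2 e hg)).trans (hj ▸ d)
      obtain rfl := (Nat.prime_dvd_prime_iff_eq hq hp).1 (hq.dvd_of_dvd_pow this)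
      exact hq.coprime_iff_not_dvd.1 c0.symm d1)
    exact fun m hm => this (show (⟨m, hMN hm⟩ : N) ∈ M₀ by rwa [← e0])
  have T' := T.quot hMB
  have hN' : IsPGroup p (N.map (QuotientGroup.mk' M)) := IsPGroup.of_card (n := j) (by
    rw [← relIndex_ker, QuotientGroup.ker_mk', relIndex, e0, hj])
  by_cases hb : M ⊓ ⁅N, N⁆ = ⊥
  · have hG : commutator G ⊓ M = ⊥ := eq_bot_iff.2 fun x hx =>
      hb ▸ (⟨hx.2, T.comm_inf ▸ ⟨hx.1, hMB hx.2⟩⟩ : x ∈ M ⊓ ⁅N, N⁆)
    have hc : M ≤ center G := fun m hm => mem_center_iff.2 fun g =>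
      (commutatorElement_eq_one_iff_mul_comm.1 (mem_bot.1
        (hb ▸ (⟨comm_mem_left hm g, T.cen m (hMB hm) g⟩ : ⁅m, g⁆ ∈ M ⊓ ⁅N, N⁆)))).symm
    obtain ⟨d3, f, q, a, b, hq, ⟨χ, hχ, hf⟩, h⟩ := T'.four hp hN'
    refine .inr ⟨eq_bot_iff.2 (hG ▸ le_inf (derivedSeries_antitone G (by decide : 1 ≤ 3)) ?_),
      f, q, a, b, hq, ⟨_, hχ.inflate, by rw [deg_inflate, hf]⟩, fun χ hχ => ?_⟩
    · rw [← QuotientGroup.ker_mk' M, ← Subgroup.map_eq_bot_iff, eq_bot_iff, ← d3]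
      exact map_derivedSeries_le_derivedSeries _ 3
    · obtain ⟨ψ, hψ, e⟩ := Onex.deg_quot hc hG hχ
      exact e ▸ h ψ hψ
  obtain ⟨hc, e, -⟩ := T'.s1 hp hN'
  obtain ⟨P, hP, hPN, hs, hi⟩ : ∃ P : Subgroup G, IsPGroup p P ∧ P ≤ N ∧
      (∀ x ∈ N, ∃ y ∈ P, y⁻¹ * x ∈ M) ∧ ∀ x ∈ P, x ∈ M → x = 1 := by
    obtain ⟨H, hH⟩ := exists_right_complement'_of_coprime (N := M₀) (hj ▸ c0.pow_right j)
    refine ⟨H.map N.subtype, (IsPGroup.of_card (hH.symm.index_eq_card.symm.trans hj)).map _,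
      map_subtype_le _, fun x hx => ?_, ?_⟩
    · obtain ⟨⟨y, m⟩, e⟩ := hH.symm.2 ⟨x, hx⟩
      refine ⟨_, mem_map_of_mem _ y.2, ?_⟩
      rw [show x = N.subtype y * N.subtype m from (congrArg Subtype.val e).symm, hM,
        inv_mul_cancel_left]
      exact mem_map_of_mem _ m.2
    · rintro _ ⟨y, hy, rfl⟩ hm
      exact congrArg Subtype.val (disjoint_def.1 hH.disjoint (e0 ▸ hm) hy)
  obtain ⟨A, hA⟩ : ∃ A, A = P ⊓ (commutator (G ⧸ M)).comap (QuotientGroup.mk' M) := ⟨_, rfl⟩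
  have hAP : A ≤ P := hA ▸ inf_le_left
  have hs' : ∀ x ∈ commutator G, ∃ y ∈ A, y⁻¹ * x ∈ M := fun x hx => by
    obtain ⟨y, hy, e⟩ := hs x (T.comm_le hx)
    refine ⟨y, hA ▸ mem_inf.2 ⟨hy, ?_⟩, e⟩
    rw [mem_comap, QuotientGroup.mk'_apply, QuotientGroup.eq.2 e, Onex.comm_map]
    exact mem_map_of_mem _ hx
  have eA : A.map (QuotientGroup.mk' M) = commutator (G ⧸ M) := by
    refine le_antisymm (map_le_iff_le_comap.2 (hA ▸ inf_le_right)) ?_
    rw [Onex.comm_map]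
    rintro _ ⟨x, hx, rfl⟩
    obtain ⟨y, hy, e⟩ := hs' x hx
    exact ⟨y, hy, QuotientGroup.eq.2 e⟩
  have inj : ∀ x ∈ A, ∀ y ∈ A, QuotientGroup.mk' M x = QuotientGroup.mk' M y → x = y :=
    fun x hx y hy e => inv_mul_eq_one.1
      (hi _ (mul_mem (inv_mem (hAP hx)) (hAP hy)) (QuotientGroup.eq.1 e))
  have e2 : (g2 A).map (QuotientGroup.mk' M) = ⁅N, N⁆.map (QuotientGroup.mk' M) := by
    rw [map_commutator, map_commutator, eA, ← e]
  have eB : A ⊓ B = g2 A := by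
    refine le_antisymm (fun x hx => ?_) (le_inf (commutator_le_self A)
      ((commutator_mono (hAP.trans hPN) (hAP.trans hPN)).trans T.NB))
    have : QuotientGroup.mk' M x ∈ (g2 A).map (QuotientGroup.mk' M) := by
      rw [e2, map_commutator, ← T'.comm_inf, ← eA]
      exact ⟨mem_map_of_mem _ hx.1, mem_map_of_mem _ hx.2⟩
    obtain ⟨y, hy, e⟩ := this
    exact inj y (commutator_le_self A hy) x hx.1 e ▸ hy
  have eN : A ⊔ B = N := by
    refine le_antisymm (sup_le (hAP.trans hPN) T.lt.le)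
      (T.comm_sup.ge.trans (sup_le (fun x hx => ?_) le_sup_right))
    obtain ⟨y, hy, e⟩ := hs' x hx
    exact mul_inv_cancel_left y x ▸ mul_mem_sup hy (hMB e)
  have h4 := (Onex.of_map _ (hP.to_le hAP) inj (eA ▸ hc)).fpf (fun h => hn (by
      rw [← QuotientGroup.ker_mk' M, ← Subgroup.map_eq_bot_iff, ← e2, h, Subgroup.map_bot])) hb
    (by rw [normalizer_eq_top]; exact le_top) (cM.coprime_dvd_left (card_dvd_of_le inf_le_left))
    fun x hx hx' m hm hc => T.cent (hPN (hAP hx)) (fun h => hx' (eB ▸ ⟨hx, h⟩)) hm.2 hc (by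
      obtain ⟨k, hk⟩ := IsPGroup.iff_orderOf.1 hP ⟨x, hAP hx⟩
      rw [orderOf_mk] at hk
      rw [hk]
      exact (cM.coprime_dvd_left (M.orderOf_dvd_natCard hm.1)).symm.pow_left k)
  have f3 : N.index = 3 := by
    have := T.dvd
    rw [← eB, inf_relIndex_left, ← relIndex_sup_right, eN] at h4
    rw [h4] at this
    exact ((Nat.dvd_prime Nat.prime_three).1 this).resolve_left T.index_ne_one
  have deg : ∀ χ, IsIrrCharacter G χ → ∀ ψ, IsIrrCharacter N ψ → charDegree ψ ≠ 1 →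
      classInner (fun n : N => χ n) ψ ≠ 0 → charDegree χ = charDegree ψ := fun χ hχ ψ hψ h1 hl => by
    have l := le_inertia hψ.isClassFunction
    rcases (Nat.dvd_prime Nat.prime_three).1 (f3 ▸ index_dvd_of_le l) with h | h
    · rw [deg_over T.cyc hχ hψ hl, h, one_mul]
    · exact absurd (eq_of_le_of_index_le l (f3.trans h.symm).le).ge (T.nl hψ h1)
  obtain ⟨a, ha⟩ := NDAD.pquot (G := N) (fun ψ φ hψ hφ h1 d => by
    obtain ⟨χ, hχ, l1⟩ := exists_irr_over hψ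
    obtain ⟨ξ, hξ, l2⟩ := exists_irr_over hφ
    have a1 := deg χ hχ ψ hψ h1 l1
    have a2 := deg ξ hξ φ hφ (fun h => h1 (Nat.dvd_one.1 (h ▸ d))) l2
    rw [← a1, ← a2] at d ⊢
    exact T.nd χ ξ hχ hξ (a1 ▸ h1) d) hp hj hn0
  refine .inl ⟨N.index, a, fun χ hχ => ?_⟩
  by_cases hk : ⁅N, N⁆ ≤ charKer χ
  · exact (T.deg_lin hχ hk).imp_right .inl
  obtain ⟨ψ, hψ, hl⟩ := exists_irr_under N hχ
  have h1 := Onex.nl hχ hk hψ hl
  exact .inr (.inr ((deg χ hχ ψ hψ h1 hl).trans ((ha ψ hψ).resolve_left h1)))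

end

end Cfsg.Lib.NDD
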