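import Cfsg.Agent.NDD.Bas
import Cfsg.Agent.Char.FrobChar
import Cfsg.Agent.Solv.PReduce

/-!
# The coprime case: linear characters of `N'`
-/

set_option autoImplicit false
set_option linter.unusedSectionVars false
set_option linter.unusedVariables false

namespace Cfsg.Lib.NDD

open Subgroup Cfsg.Lib.Char Cfsg.Lib.Char.Deg Module
open scoped commutatorElement

universe u

variable {G : Type u} [Group G] [Finite G] {p : ℕ}

namespace TwoAx

theorem cop {n r : ℕ} (hn : n ≠ 0) : (n / n.gcd (r ^ n)).Coprime r := by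
  refine Nat.coprime_of_dvd fun q hq h1 h2 => ?_
  obtain ⟨k, c, hc, e⟩ := Nat.exists_eq_pow_mul_and_not_dvd hn q hq.ne_one
  have hk : k ≤ n := (Nat.lt_pow_self hq.one_lt).le.trans (Nat.le_of_dvd (Nat.pos_of_ne_zero hn) ⟨c, e⟩)
  obtain ⟨d, hd⟩ : q ^ k ∣ n.gcd (r ^ n) :=
    Nat.dvd_gcd ⟨c, e⟩ ((pow_dvd_pow q hk).trans (pow_dvd_pow_of_dvd h2 n))
  have h3 := Nat.mul_dvd_of_dvd_div (Nat.gcd_dvd_left _ _) h1
  rw [hd, mul_assoc] at h3
  exact hc ((dvd_mul_left q d).trans (Nat.dvd_of_mul_dvd_mul_left (pow_pos hq.pos k) (h3.trans e.dvd)))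

theorem exists_ext {R J : Subgroup G} [hR : R.Normal] (h1 : ∀ g, ∃ k ∈ R, k * g ∈ J)
    (h2 : ∀ r ∈ R, r ∈ J → r = 1) (lam : R →* ℂˣ) :
    ∃ ξ : (inertia R fun n => (lam n : ℂ)) →* ℂˣ, ∀ t (h : t.1 ∈ R), ξ t = lam ⟨t.1, h⟩ := by
  choose k hk hJ using h1
  have uq : ∀ g, ∀ r ∈ R, r * g ∈ J → k g = r := fun g r hr h => mul_inv_eq_one.1
    (h2 _ (R.mul_mem (hk g) (R.inv_mem hr)) (by simpa using J.mul_mem (hJ g) (J.inv_mem h)))
  refine ⟨MonoidHom.mk' (fun t => (lam ⟨k t, hk t⟩)⁻¹) fun s t => ?_, fun t h => ?_⟩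
  · have e : (⟨k (s * t), hk _⟩ : R) = ⟨k s, hk s⟩ * ⟨s * k t * (s : G)⁻¹, hR.conj_mem _ (hk t) _⟩ :=
      Subtype.ext (uq _ _ (R.mul_mem (hk s) (hR.conj_mem _ (hk t) _))
        (by simpa [mul_assoc] using J.mul_mem (hJ s) (hJ t)))
    have e2 := Units.ext (mem_inertia'.1 s.2 ⟨k t, hk t⟩)
    rw [coe_mul, e, map_mul, mul_inv, e2]
  · rw [MonoidHom.mk'_apply, ← map_inv]
    exact congrArg lam (Subtype.ext (inv_eq_iff_eq_inv.2 (uq _ _ (R.inv_mem h) (by simp))))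

end TwoAx

variable {N B : Subgroup G} [N.Normal] [B.Normal]

theorem Top.fpf (T : Top N B) (hc : (Nat.card (⁅N, N⁆ : Subgroup G)).Coprime (B.relIndex N))
    {x : G} (hx : x ∈ N) (hx' : x ∉ B) :
    ∃ k : ℕ, x ^ k ∉ B ∧ (∀ y ∈ ⁅N, N⁆, Commute (x ^ k) y → y = 1) ∧
      (orderOf (x ^ k)).Coprime (Nat.card (⁅N, N⁆ : Subgroup G)) := by
  have h1 : (orderOf (x ^ Nat.card (⁅N, N⁆ : Subgroup G) ^ orderOf x)).Coprime
      (Nat.card (⁅N, N⁆ : Subgroup G)) := by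
    rw [orderOf_pow]; exact TwoAx.cop (orderOf_pos x).ne'
  have h2 : x ^ Nat.card (⁅N, N⁆ : Subgroup G) ^ orderOf x ∉ B := fun h => hx' (by
    have h3 : x ^ B.relIndex N ∈ B := (B.subgroupOf N).pow_index_mem ⟨x, hx⟩
    rw [← QuotientGroup.eq_one_iff] at h h3 ⊢
    exact (pow_eq_one_iff_of_coprime (hc.pow_left (orderOf x))).1 ⟨h, h3⟩)
  exact ⟨_, h2, fun y hy h => T.cent (N.pow_mem hx _) h2 hy h
    (h1.coprime_dvd_right (Subgroup.orderOf_dvd_natCard _ hy)), h1⟩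

theorem Top.inertia_le (T : Top N B)
    (hc : (Nat.card (⁅N, N⁆ : Subgroup G)).Coprime (B.relIndex N))
    {θ : (⁅N, N⁆ : Subgroup G) → ℂ} (hθ : IsIrrCharacter _ θ) (h1 : θ ≠ fun _ => 1) {x : G}
    (hx : x ∈ N) (h : x ∈ inertia ⁅N, N⁆ θ) : x ∈ B := by
  by_contra hx'
  obtain ⟨k, -, h2, -⟩ := T.fpf hc hx hx'
  exact notMem_inertia_of_fpf (fun n hn e => h2 n hn e.symm) hθ h1 (pow_mem h k)

theorem Top.deg_lam [Group.IsSolvable G] (T : Top N B)
    (hc : (Nat.card (⁅N, N⁆ : Subgroup G)).Coprime (B.relIndex N))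
    {lam : (⁅N, N⁆ : Subgroup G) →* ℂˣ} (h1 : lam ≠ 1) [Fintype (⁅N, N⁆ : Subgroup G)]
    {χ : G → ℂ} (hχ : IsIrrCharacter G χ)
    (h : classInner (fun n : (⁅N, N⁆ : Subgroup G) => χ n) (fun n => (lam n : ℂ)) ≠ 0) :
    charDegree χ = (inertia ⁅N, N⁆ fun n => (lam n : ℂ)).index := by
  have e : (⁅N, N⁆ : Subgroup G).relIndex (commutator G) = B.relIndex N := by
    conv_rhs => rw [← T.toFr.comm_sup, relIndex_sup_right]
    rw [← T.toFr.comm_inf, inf_relIndex_left]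
  obtain ⟨H, hH, cH, fr⟩ := Solv.exists_complement_frattini (K := ⁅N, N⁆) (L := commutator G)
    (commutator_mono le_top le_top) (e ▸ hc) inferInstance
  rw [e] at cH
  obtain ⟨x, hx, hx'⟩ : ∃ x ∈ H, x ∉ B := by
    by_contra! h
    exact T.lt.not_ge (T.toFr.comm_sup.ge.trans (sup_le (hH.ge.trans (sup_le T.NB h)) le_rfl))
  obtain ⟨ξ, hξ⟩ := TwoAx.exists_ext fr (fun r hr hJ => by
    have h3 : ⁅r, x⁆ ∈ ⁅N, N⁆ ⊓ H := ⟨comm_mem_left hr x,
      H.mul_mem ((mem_normalizer_iff.1 hJ x).1 hx) (H.inv_mem hx)⟩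
    rw [(disjoint_of_coprime_natCard (cH ▸ hc)).eq_bot] at h3
    exact T.cent (T.toFr.comm_le (hH.le (mem_sup_right hx))) hx' hr
      (commutatorElement_eq_one_iff_commute.1 h3).symm
      (((cH ▸ hc).symm.coprime_dvd_left (H.orderOf_dvd_natCard hx)).coprime_dvd_right
        (Subgroup.orderOf_dvd_natCard _ hr))) lam
  have := T.cyc
  have := deg_of_ext (isIrrCharacter_monoidHom lam) (isIrrCharacter_monoidHom ξ)
    (fun n => congrArg Units.val (hξ n n.2)) (commutative_of_cyclic_center_quotient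
      (QuotientGroup.map (⁅N, N⁆.subgroupOf _) N (Subgroup.subtype _)
        fun t ht => commutator_le_left N N ht) fun a ha => ?_) hχ h
  · rwa [deg_monoidHom, mul_one] at this
  obtain ⟨a, rfl⟩ := QuotientGroup.mk_surjective a
  have aB := T.inertia_le hc (isIrrCharacter_monoidHom lam) (mt (monoidHom_coe_eq_one_iff lam).1 h1)
    ((QuotientGroup.eq_one_iff (N := N) (a : G)).1 ha) a.2
  refine mem_center_iff.2 fun b => ?_
  obtain ⟨b, rfl⟩ := QuotientGroup.mk_surjective b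
  refine QuotientGroup.eq.2 ?_
  have := T.cen _ (B.inv_mem aB) (b : G)⁻¹
  simpa [commutatorElement_def, mem_subgroupOf, mul_assoc] using this

theorem Top.md [Group.IsSolvable G] (T : Top N B)
    (hc : (Nat.card (⁅N, N⁆ : Subgroup G)).Coprime (B.relIndex N)) (h0 : ⁅N, N⁆ ≠ ⊥) :
    letI := dualAct (⁅N, N⁆ : Subgroup G)
    Md N B ((⁅N, N⁆ : Subgroup G) →* ℂˣ) := by
  classical
  have := Fintype.ofFinite G
  let _ := dualAct (⁅N, N⁆ : Subgroup G)
  have RN : ⁅N, N⁆ ≤ N := commutator_le_left N N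
  have st := stabilizer_dualAct (⁅N, N⁆ : Subgroup G)
  have inB : ∀ u : (⁅N, N⁆ : Subgroup G) →* ℂˣ, u ≠ 1 → ∀ x ∈ N, x • u = u → x ∈ B :=
    fun u hu x hx e => T.inertia_le hc (isIrrCharacter_monoidHom u)
      (mt (monoidHom_coe_eq_one_iff u).1 hu) hx ((st u).le e)
  refine ⟨T.toFr, ?_, fun r hr u => (st u).ge (le_inertia (isIrrCharacter_monoidHom u).isClassFunction hr),
    inB, fun u hu => ?_, fun u v hu hv h => ?_⟩
  · have := (nontrivial_iff_ne_bot _).2 h0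
    rw [← Finite.one_lt_card_iff_nontrivial, card_monoidHom_units]
    exact Nat.one_lt_iff_ne_zero_and_ne_one.2 ⟨index_ne_zero_of_finite,
      mt index_eq_one.1 (Group.IsSolvable.commutator_lt_top_of_nontrivial _).ne⟩
  · have hl := isIrrCharacter_monoidHom u
    obtain ⟨χ, hχ, h1⟩ := exists_irr_over hl
    obtain ⟨ψ, hψ, -, h2⟩ := exists_irr_between RN hχ.isCharacter hl h1
    obtain ⟨g, hg, hgN⟩ := SetLike.not_le_iff_exists.1 (T.nl hψ fun e => h2 (by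
      have e1 : (fun n : (⁅N, N⁆ : Subgroup G) => ψ ⟨n, RN n.2⟩) =
          fun n => ((1 : (⁅N, N⁆ : Subgroup G) →* ℂˣ) n : ℂ) := funext fun n => by
        rw [apply_of_mem_charKer ((commutator_le_charKer_iff hψ).2 e ?_),
          (deg_eq_one_iff hψ.isCharacter).1 e]
        · rfl
        · obtain ⟨m, hm, e⟩ := (map_subtype_commutator N).ge n.2
          exact (Subtype.ext e : m = ⟨n, RN n.2⟩) ▸ hm
      rw [e1, classInner_monoidHom, if_neg hu.symm]))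
    obtain ⟨t, ht, e⟩ := exists_conjChar_eq_of_lies_over_le RN hψ hl (hl.conjChar g) h2 (by
      have e1 : conjChar ⁅N, N⁆ (fun n : (⁅N, N⁆ : Subgroup G) => ψ ⟨n, RN n.2⟩) g =
          fun n : (⁅N, N⁆ : Subgroup G) => ψ ⟨n, RN n.2⟩ :=
        funext fun n => mem_inertia'.1 hg ⟨n, RN n.2⟩
      rwa [← e1, classInner_conjChar])
    exact ⟨g * t⁻¹, fun h => hgN (by simpa using N.mul_mem h ht), (st u).ge (conjChar_eq_iff.1 e.symm)⟩
  · obtain ⟨χ, hχ, h1⟩ := exists_irr_over (isIrrCharacter_monoidHom u)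
    obtain ⟨ψ, hψ, h2⟩ := exists_irr_over (isIrrCharacter_monoidHom v)
    rw [st, st, ← T.deg_lam hc hu hχ h1, ← T.deg_lam hc hv hψ h2] at h ⊢
    refine T.nd _ _ hχ hψ (fun e => T.lt.not_ge fun x hx => inB u hu x hx ?_) h
    rw [T.deg_lam hc hu hχ h1, ← st, index_eq_one] at e
    exact e.ge (mem_top x)

end Cfsg.Lib.NDD
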