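import Cfsg.Agent.NDD.Sec
import Cfsg.Agent.NDD.Cnt
import Cfsg.Agent.NDD.TwoA
import Cfsg.Agent.Char.DegChief
import Cfsg.Agent.FT.BG3.T38
import Cfsg.Agent.Solv.PGroupBasic

/-! The coprime case: the commutator subgroup of `N` is abelian. -/

set_option autoImplicit false
set_option linter.unusedSectionVars false
set_option linter.unusedVariables false

namespace Cfsg.Lib.NDD

open Subgroup Cfsg.Lib.Char Cfsg.Lib.Char.Deg Module
open scoped commutatorElement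

universe u

variable {G : Type u} [Group G] [Finite G] {p : ℕ}

namespace TwoBx

theorem mem_of_fpf {U : Type*} [CommGroup U] [Finite U] (f : U →* U) (hf : ∀ u, f u = u → u = 1)
    {V : Subgroup U} (hV : ∀ v ∈ V, f v ∈ V) {η : U} (h : f η / η ∈ V) : η ∈ V := by
  let g : V → V := fun v => ⟨f v / v, V.div_mem (hV v v.2) v.2⟩
  have key : ∀ a b : U, f a / a = f b / b → a = b := fun a b e => div_eq_one.1 (hf _ (by
    rw [map_div, div_eq_div_iff_mul_eq_mul, div_eq_div_iff_mul_eq_mul.1 e, mul_comm]))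
  obtain ⟨v, hv⟩ := Finite.surjective_of_injective (f := g)
    (fun a b e => Subtype.ext (key _ _ (congrArg Subtype.val e))) ⟨_, h⟩
  exact key _ _ (congrArg Subtype.val hv) ▸ v.2

theorem relIndex_dvd (S N : Subgroup G) [N.Normal] : S.relIndex N ∣ S.index := by
  obtain ⟨j, hj⟩ := relIndex_dvd_index_of_normal N S
  have e1 := relIndex_mul_index (inf_le_left : S ⊓ N ≤ S)
  have e2 := relIndex_mul_index (inf_le_right : S ⊓ N ≤ N)
  rw [inf_relIndex_left] at e1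
  rw [inf_relIndex_right, ← e1, hj, mul_comm (N.relIndex S) j, ← mul_assoc, mul_comm _ S.index] at e2
  exact ⟨j, (mul_right_cancel₀ (fun h => index_ne_zero_of_finite (by rw [hj, h, zero_mul])) e2).symm⟩

/-- The linear characters that do not change `θ`. -/
def stab {R : Type*} [Group R] (θ : R → ℂ) : Subgroup (R →* ℂˣ) where
  carrier := {ξ | ∀ r, θ r * ξ r = θ r}
  mul_mem' {a b} ha hb r := by rw [MonoidHom.mul_apply, Units.val_mul, ← mul_assoc, ha, hb]
  one_mem' r := mul_one _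
  inv_mem' {a} ha r := by
    rw [MonoidHom.inv_apply, Units.mul_inv_eq_iff_eq_mul, ha]

theorem vanish {R : Subgroup G} [R.Normal] {B : Subgroup G} (hB : ∀ b ∈ B, ∀ g, ⁅b, g⁆ ∈ R)
    (key : ∀ θ : R → ℂ, IsIrrCharacter R θ → charDegree θ ≠ 1 → ∃ b ∈ B, b ∈ inertia R θ ∧
      ∀ lam : R →* ℂˣ, lam.comp (MulAut.conjNormal b).toMonoidHom = lam → lam = 1)
    {θ : R → ℂ} (hθ : IsIrrCharacter R θ) (h1 : charDegree θ ≠ 1) {y : R}
    (hy : y ∉ commutator R) : θ y = 0 := by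
  obtain ⟨lam, hl⟩ := not_forall.1 (mt (mem_commutator_iff_forall_monoidHom y).2 hy)
  obtain ⟨b₁, -, i₁, f₁⟩ := key θ hθ h1
  obtain ⟨b₂, m₂, i₂, f₂⟩ := key _ (hθ.mul_monoidHom lam) (by
    rwa [deg_mul hθ.isCharacter (isIrrCharacter_monoidHom lam).isCharacter, deg_monoidHom, mul_one])
  let F : G → (R →* ℂˣ) →* R →* ℂˣ := fun b =>
    ⟨⟨fun ξ => ξ.comp (MulAut.conjNormal b).toMonoidHom, rfl⟩, fun _ _ => rfl⟩
  have hF : ∀ b ξ r, F b ξ r = ξ (MulAut.conjNormal b r) := fun _ _ _ => rfl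
  have inv : ∀ b, (∀ r, θ (MulAut.conjNormal b r) = θ r) → ∀ v ∈ stab θ, F b v ∈ stab θ :=
    fun b hb v hv r => by rw [hF, ← hb, hv]
  have j₁ : ∀ r, θ (MulAut.conjNormal b₁ r) = θ r := mem_inertia'.1 i₁
  have j₂ : ∀ r, θ (MulAut.conjNormal b₂ r) * lam (MulAut.conjNormal b₂ r) = θ r * lam r :=
    mem_inertia'.1 i₂
  have j₃ : ∀ r, θ (MulAut.conjNormal b₂ r) = θ r * (lam / F b₂ lam) r := fun r => by
    rw [MonoidHom.div_apply, hF, Units.val_div_eq_div_val, ← mul_div_assoc, ← j₂,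
      mul_div_cancel_right₀ _ (Units.ne_zero _)]
  have m₁ : lam / F b₂ lam ∈ stab θ := mem_of_fpf (F b₁) f₁ (inv b₁ j₁) fun r => by
    rw [MonoidHom.div_apply, Units.val_div_eq_div_val, ← mul_div_assoc,
      div_eq_iff (Units.ne_zero _), ← j₃, hF, ← j₁ r, ← j₃, ← j₁ (MulAut.conjNormal b₂ r),
      ← hθ.isClassFunction (MulAut.conjNormal b₁ _) ⟨_, hB b₂ m₂ b₁⟩]
    exact congrArg θ (Subtype.ext (by simp [commutatorElement_def, mul_assoc]))
  have j₄ : ∀ r, θ (MulAut.conjNormal b₂ r) = θ r := fun r => (j₃ r).trans (m₁ r)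
  have m₃ := mem_of_fpf (F b₂) f₂ (inv b₂ j₄) (η := lam) (inv_div lam _ ▸ (stab θ).inv_mem m₁)
  by_contra h0
  exact hl (Units.ext ((mul_eq_left₀ h0).1 (m₃ y)))

theorem main [Group.IsSolvable G] {N B : Subgroup G} [N.Normal] [B.Normal] (T : Top N B)
    (hc : (Nat.card (⁅N, N⁆ : Subgroup G)).Coprime (B.relIndex N))
    (h0 : ⁅⁅N, N⁆, ⁅N, N⁆⁆ ≠ ⊥)
    (hm : ∀ X : Subgroup G, X.Normal → X ≤ ⁅⁅N, N⁆, ⁅N, N⁆⁆ → X = ⊥ ∨ X = ⁅⁅N, N⁆, ⁅N, N⁆⁆) :
    False := by
  classical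
  have := Fintype.ofFinite G
  have M := T.md hc fun e => h0 (by rw [e, commutator_bot_left])
  have fpf := @Top.fpf _ _ _ _ _ _ _ T hc
  have ile := @Top.inertia_le _ _ _ _ _ _ _ T hc
  have dl := @Top.deg_lam _ _ _ _ _ _ _ _ T hc
  have cent := @Top.cent _ _ _ _ _ _ _ T
  have cinf := T.toFr.comm_inf
  have cen := T.cen
  generalize_proofs hR at M ile dl
  generalize ⁅N, N⁆ = R at *
  let _ := dualAct R
  have WR : ⁅R, R⁆ ≤ R := commutator_le_left _ _
  have nil : Group.IsNilpotent R := by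
    obtain ⟨x, hx, hx'⟩ : ∃ x ∈ commutator G, x ∉ B := by
      by_contra! h
      exact T.lt.not_ge (T.toFr.comm_sup.ge.trans (sup_le h le_rfl))
    obtain ⟨k, h1, -, h3⟩ := fpf (T.toFr.comm_le hx) hx'
    obtain ⟨q, hq, hd⟩ := Nat.exists_prime_and_dvd
      (mt orderOf_eq_one_iff.1 fun e : x ^ k = 1 => h1 (e ▸ B.one_mem))
    have ho := orderOf_pow_orderOf_div (orderOf_pos (x ^ k)).ne' hd
    have hy := (commutator G).pow_mem ((commutator G).pow_mem hx k) (orderOf (x ^ k) / q)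
    generalize (x ^ k) ^ (orderOf (x ^ k) / q) = y at ho hy
    have cq : q.Coprime (Nat.card R) := h3.coprime_dvd_left hd
    have yB : y ∉ B := fun h =>
      hq.coprime_iff_not_dvd.1 cq (ho ▸ R.orderOf_dvd_natCard (cinf.le ⟨hy, h⟩))
    refine FT.prime_Frobenius_sol_kernel_nil (R := zpowers y)
      (by rw [normalizer_eq_top]; exact le_top) inferInstance
      (by rwa [Nat.card_zpowers, ho]) (eq_bot_iff.2 fun r hr => ?_)
    exact cent (T.toFr.comm_le hy) yB hr.1 (hr.2 y (mem_zpowers y))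
      (ho ▸ cq.coprime_dvd_right (R.orderOf_dvd_natCard hr.1))
  have WZ : ⁅⁅R, R⁆, R⁆ = ⊥ := (hm _ inferInstance (commutator_le_left _ _)).resolve_right
    (Solv.PG.commutator_lt_of_isNilpotent nil WR (by rw [normalizer_eq_top]; exact le_top) h0).ne
  have wc : ∀ w ∈ ⁅R, R⁆, ∀ r ∈ R, Commute w r := fun w hw r hr =>
    commutatorElement_eq_one_iff_commute.1 (WZ.le (commutator_mem_commutator hw hr))
  obtain ⟨q, hq, hd⟩ := Nat.exists_prime_and_dvd (mt card_eq_one.1 h0)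
  have := Fact.mk hq
  obtain ⟨w, hw⟩ := exists_prime_orderOf_dvd_card' q hd
  have w1 : w ≠ 1 := fun e => hq.ne_one (by rw [← hw, e, orderOf_one])
  have el : ∀ z ∈ ⁅R, R⁆, z ^ q = 1 := by
    let X : Subgroup G := ⟨⟨⟨{z | z ∈ ⁅R, R⁆ ∧ z ^ q = 1}, fun {a b} ha hb => ⟨mul_mem ha.1 hb.1, by
      rw [(wc a ha.1 b (WR hb.1)).mul_pow, ha.2, hb.2, mul_one]⟩⟩, one_mem _, one_pow _⟩,
      fun {a} ha => ⟨inv_mem ha.1, by rw [inv_pow, ha.2, inv_one]⟩⟩
    rcases hm X ⟨fun a ha g => ⟨Normal.conj_mem inferInstance a ha.1 g, by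
      rw [conj_pow, ha.2]; group⟩⟩ (fun a ha => ha.1) with h | h
    · exact (w1 (Subtype.ext (h.le ⟨w.2, by
        rw [← hw, ← coe_pow, pow_orderOf_eq_one]; rfl⟩))).elim
    · exact fun z hz => (h.ge hz).2
  obtain ⟨l, hl⟩ := have := M.nt; exists_ne (1 : R →* ℂˣ)
  obtain ⟨χ₀, hχ₀, hu⟩ := exists_irr_over (isIrrCharacter_monoidHom l)
  have d0 := dl hl hχ₀ hu
  rw [← stabilizer_dualAct] at d0
  have md : B.relIndex N ∣ charDegree χ₀ := d0 ▸ ((relIndex_dvd_of_le_left N (show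
    MulAction.stabilizer G l ⊓ N ≤ B from fun x hx => M.inB l hl x hx.2 hx.1)).trans
      (by rw [inf_relIndex_right]; exact relIndex_dvd _ N))
  have m1 : B.relIndex N ≠ 1 := fun e => T.lt.not_ge (relIndex_eq_one.1 e)
  have van : ∀ θ : R → ℂ, IsIrrCharacter R θ → charDegree θ ≠ 1 → ∀ y : R, y ∉ commutator R →
      θ y = 0 := fun θ hθ h1 y hy => vanish cen (fun θ hθ h1 => by
    by_cases h : ∀ b ∈ inertia R θ, b ∈ N → ∀ v ∈ (⊤ : Subgroup (R →* ℂˣ)), b • v = v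
    · obtain ⟨v, -, v1, hv⟩ := M.fix (V := ⊤) (fun _ _ _ => mem_top _)
        (fun e => hl (e.le (mem_top l))) h
      obtain ⟨χ, hχ, hd⟩ := exists_irr_deg_dvd hθ
      have h2 : charDegree χ₀ ∣ (inertia R θ).index := d0 ▸ M.eq hl v1 ▸ index_dvd_of_le hv
      rw [← T.nd _ _ hχ₀ hχ (fun e => m1 (Nat.dvd_one.1 (e ▸ md)))
        (h2.trans ((dvd_mul_right _ _).trans hd))] at hd
      exact (h1 (Nat.dvd_one.1 (Nat.dvd_of_mul_dvd_mul_left (Nat.pos_of_ne_zero
        index_ne_zero_of_finite) ((hd.trans h2).trans (mul_one _).symm.dvd)))).elim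
    · push Not at h
      obtain ⟨b, hb, hbN, v, -, hv⟩ := h
      refine ⟨b⁻¹, B.inv_mem (ile hθ (fun e => h1 (e ▸ deg_const_one)) hbN hb), inv_mem hb,
        fun lam e => by_contra fun h => hv (M.ker h hbN e v)⟩) hθ h1 hy
  have cR : commutator R = ⁅R, R⁆.subgroupOf R := by
    rw [← map_subtype_commutator, subgroupOf, comap_map_eq_self_of_injective R.subtype_injective]
  have cam : ∀ x ∈ R, x ∉ ⁅R, R⁆ → ∀ z ∈ ⁅R, R⁆, ∃ y ∈ R, y * x * y⁻¹ = x * z := fun x hx hx' z hz => by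
    obtain ⟨y, hy⟩ := isConj_iff.1 (isConj_mul_of_forall_vanish (N := commutator R) (g := ⟨x, hx⟩)
      (fun θ hθ h => van θ hθ (mt (commutator_le_charKer_iff hθ).2 h) _ (cR ▸ hx'))
      (n := ⟨z, WR hz⟩) (cR ▸ hz))
    exact ⟨y, y.2, congrArg Subtype.val hy⟩
  have big := ses hq (H := R) (T := ⁅R, R⁆) (Z := ⁅R, R⁆) (Y := ⊥)
    (WR.lt_of_ne fun e => h0 (by rwa [e] at WZ)) le_rfl le_rfl WZ.le
    (fun x hx => by_contra fun h => by
      obtain ⟨y, hy, e⟩ := cam _ (R.pow_mem hx q) h w w.2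
      have c := wc _ (commutator_mem_commutator hy hx) x hx
      have e1 : y * x * y⁻¹ = ⁅y, x⁆ * x := by rw [commutatorElement_def]; group
      rw [← conj_pow, e1, c.mul_pow, el _ (commutator_mem_commutator hy hx), one_mul,
        left_eq_mul] at e
      exact w1 (Subtype.ext e)) el
    fun x hx hx' z hz => by
      obtain ⟨y, hy, e⟩ := cam _ (R.inv_mem hx) (mt (inv_mem_iff).1 hx') z hz
      refine ⟨y, hy, ?_⟩
      rw [commutatorElement_def, mul_assoc x, mul_assoc x, e]; simp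
  rw [relIndex_bot_left, relIndex, ← cR, ← card_monoidHom_units] at big
  have cnt := M.count hl fun h => m1 (by
    obtain ⟨χ, hχ, e⟩ := T.toFr.exists_deg
    rw [← d0, ← e] at h
    rw [← T.nd _ _ hχ hχ₀ (e ▸ T.toFr.index_ne_one) h, e] at md
    exact T.toFr.cop.symm.eq_one_of_dvd md)
  refine (cnt.trans_le (Nat.pow_le_pow_left ?_ 2)).not_ge big
  let _ : MulAction N (⁅R, R⁆ : Subgroup G) :=
    MulAction.compHom _ ((MulAut.conjNormal (H := ⁅R, R⁆)).comp N.subtype)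
  have s1 : MulAction.stabilizer N w ≤ B.subgroupOf N := fun x hx => by_contra fun h => by
    obtain ⟨k, -, h2, -⟩ := fpf x.2 h
    have e : x * (w : G) * (x : G)⁻¹ = w := congrArg Subtype.val hx
    exact w1 (Subtype.ext (h2 w (WR w.2) (Commute.pow_left (mul_inv_eq_iff_eq_mul.1 e) k)))
  have s2 := Nat.le_of_dvd (Nat.pos_of_ne_zero index_ne_zero_of_finite) (index_dvd_of_le s1)
  rw [MulAction.index_stabilizer] at s2
  refine Nat.succ_le_of_lt (s2.trans_lt ?_)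
  rw [← Set.ncard_univ]
  refine Set.ncard_lt_ncard (Set.ssubset_univ_iff.2 fun e => ?_)
  obtain ⟨n, hn⟩ := e.ge (Set.mem_univ 1)
  exact w1 ((MulAut.conjNormal (H := ⁅R, R⁆) (n : G)).map_eq_one_iff.1 hn)

end TwoBx

theorem Top.comm_bot {N B : Subgroup G} [N.Normal] [B.Normal] [Group.IsSolvable G] (T : Top N B)
    (hc : (Nat.card (⁅N, N⁆ : Subgroup G)).Coprime (B.relIndex N)) :
    ⁅⁅N, N⁆, ⁅N, N⁆⁆ = ⊥ := by
  by_contra h0
  obtain ⟨Y, hY, -, hlt, hm⟩ := exists_chief_below (bot_lt_iff_ne_bot.2 h0)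
  have s := QuotientGroup.mk'_surjective Y
  have := ‹N.Normal›.map _ s
  have := ‹B.Normal›.map _ s
  have YB : Y ≤ B := hlt.le.trans ((commutator_le_left _ _).trans T.NB)
  refine TwoBx.main (T.quot YB) ?_ ?_ fun X hX h => ?_
  · rw [← map_commutator, ← relIndex_comap, comap_map_eq_self (by simpa using YB)]
    exact hc.coprime_dvd_left (card_dvd_of_surjective _ ((QuotientGroup.mk' Y).subgroupMap_surjective _))
  · rw [← map_commutator, ← map_commutator]
    exact fun e => hlt.not_ge (by simpa using (Subgroup.map_eq_bot_iff _).1 e)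
  · rw [← map_commutator, ← map_commutator] at h ⊢
    rw [← map_comap_eq_self_of_surjective s X]
    refine (hm (X.comap (QuotientGroup.mk' Y)) (hX.comap _) (by simpa using ker_le_comap (QuotientGroup.mk' Y) X)
      ((comap_mono h).trans (comap_map_eq_self (by simpa using hlt.le)).le)).imp (fun e => ?_)
        fun e => by rw [e]
    rw [e, Subgroup.map_eq_bot_iff]; simp

end Cfsg.Lib.NDD
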