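import Cfsg.Agent.NDD.Front
import Cfsg.Agent.NDD.PQ
import Cfsg.Agent.NDD.Mod
import Cfsg.Agent.NDD.TwoA
import Cfsg.Agent.NDD.TwoB
import Cfsg.Agent.NDD.One

/-!
# Solvable groups without divisibility among character degrees
-/

set_option autoImplicit false
set_option linter.unusedSectionVars false
set_option linter.unusedVariables false

namespace Cfsg.Lib.NDD

open Subgroup Cfsg.Lib.Char Cfsg.Lib.Char.Deg Module
open scoped commutatorElement

universe u

variable {G : Type u} [Group G] [Finite G] {p : ℕ}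

theorem Top.two [Group.IsSolvable G] {N B : Subgroup G} [N.Normal] [B.Normal] (T : Top N B)
    (hc : (Nat.card (⁅N, N⁆ : Subgroup G)).Coprime (B.relIndex N)) : ∃ a b, Three G a b := by
  have := Fintype.ofFinite (⁅N, N⁆ : Subgroup G)
  by_cases h : ∃ χ, IsIrrCharacter G χ ∧ ¬ ⁅N, N⁆ ≤ charKer χ
  swap
  · push Not at h
    exact ⟨N.index, N.index, fun χ hχ => (T.deg_lin hχ (h χ hχ)).imp_right Or.inl⟩
  have hab : ∀ a b : (⁅N, N⁆ : Subgroup G), a * b = b * a := fun a b => Subtype.ext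
    (commutatorElement_eq_one_iff_mul_comm.1
      ((T.comm_bot hc).le (commutator_mem_commutator a.2 b.2)))
  have key : ∀ χ, IsIrrCharacter G χ → ¬ ⁅N, N⁆ ≤ charKer χ →
      ∃ lam : (⁅N, N⁆ : Subgroup G) →* ℂˣ, lam ≠ 1 ∧
        charDegree χ = (inertia ⁅N, N⁆ fun n => (lam n : ℂ)).index := fun χ hχ hk => by
    obtain ⟨θ, hθ, h1, h2⟩ := exists_irr_under_ne_one hχ.isCharacter hk
    obtain ⟨lam, rfl⟩ := hθ.exists_monoidHom_of_comm hab
    have h3 : lam ≠ 1 := by
      rintro rfl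
      exact h1 rfl
    exact ⟨lam, h3, T.deg_lam hc h3 hχ h2⟩
  obtain ⟨ξ, hξ, hk⟩ := h
  refine ⟨N.index, charDegree ξ, fun χ hχ => ?_⟩
  by_cases h1 : ⁅N, N⁆ ≤ charKer χ
  · exact (T.deg_lin hχ h1).imp_right Or.inl
  obtain ⟨lam, h2, h3⟩ := key χ hχ h1
  obtain ⟨mu, h4, h5⟩ := key ξ hξ hk
  let _ := dualAct (⁅N, N⁆ : Subgroup G)
  have : Finite ((⁅N, N⁆ : Subgroup G) →* ℂˣ) := Nat.finite_of_card_ne_zero (by
    rw [card_monoidHom_units_of_comm hab]; exact Nat.card_pos.ne')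
  have h6 := (T.md hc fun e => hk (e.le.trans bot_le)).eq h2 h4
  rw [stabilizer_dualAct, stabilizer_dualAct] at h6
  exact Or.inr (Or.inr (by rw [h3, h5, h6]))

theorem struct [Group.IsSolvable G] (h : NDAD G) : (∃ a b, Three G a b) ∨ Four G := by
  by_cases hn : commutator G = ⊥
  · exact Or.inl ⟨1, 1, fun χ hχ => Or.inl ((commutator_le_charKer_iff hχ).1 (hn.le.trans bot_le))⟩
  by_cases hq : ∀ p : ℕ, p.Prime → ∀ K : Subgroup G, K.Normal → (∃ k, K.index = p ^ k) →
      commutator G ≤ K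
  swap
  · push Not at hq
    obtain ⟨p, hp, K, hK, ⟨k, hk⟩, h1⟩ := hq
    obtain ⟨a, ha⟩ := h.pquot hp hk h1
    exact Or.inl ⟨a, a, fun χ hχ => (ha χ hχ).imp_right Or.inl⟩
  obtain ⟨N, B, _, _, T⟩ := exists_top h hn hq
  by_cases hc : (Nat.card (⁅N, N⁆ : Subgroup G)).Coprime (B.relIndex N)
  · exact Or.inl (T.two hc)
  · obtain ⟨p, hp, h1, h2⟩ := Nat.Prime.not_coprime_iff_dvd.1 hc
    exact T.one hp h2 h1

theorem ndad_of (hnd : ∀ a ∈ charDegrees G, ∀ b ∈ charDegrees G, 1 < a → a < b → ¬ a ∣ b) :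
    NDAD G := fun χ ψ hχ hψ h1 h2 => by
  have h3 := deg_pos hχ
  exact (Nat.le_of_dvd (deg_pos hψ) h2).eq_or_lt.resolve_right fun h4 =>
    hnd _ (mem_charDegrees hχ) _ (mem_charDegrees hψ) (by omega) h4 h2

theorem Three.card {a b : ℕ} (h : Three G a b) : Nat.card (charDegrees G) ≤ 3 := by
  have h1 : charDegrees G ⊆ ({1, a, b} : Finset ℕ) := by
    rintro _ ⟨χ, rfl⟩
    simpa using h χ χ.2
  rw [Nat.card_coe_set_eq]
  exact (Set.ncard_le_ncard h1 (Finset.finite_toSet _)).trans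
    (by rw [Set.ncard_coe_finset]; exact Finset.card_le_three)

theorem bounds [Group.IsSolvable G] (h : NDAD G) :
    Nat.card (charDegrees G) ≤ 4 ∧ derivedSeries G 3 = ⊥ := by
  obtain ⟨a, b, h1⟩ | ⟨h1, f, p, a, b, -, -, h2⟩ := struct h
  · exact ⟨h1.card.trans (by omega), three_degrees G a b h1⟩
  refine ⟨?_, h1⟩
  have h3 : charDegrees G ⊆ ({1, f, a, b} : Finset ℕ) := by
    rintro _ ⟨χ, rfl⟩
    rcases h2 χ χ.2 with e | e | ⟨e | e, -⟩ <;> simp [e]
  rw [Nat.card_coe_set_eq]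
  exact (Set.ncard_le_ncard h3 (Finset.finite_toSet _)).trans
    (by rw [Set.ncard_coe_finset]; exact Finset.card_le_four)

theorem three_of_two [Group.IsSolvable G] (h : NDAD G)
    (htwo : Nat.card ((degreeGraph G).induce (degreePrimes G)).ConnectedComponent = 2) :
    Nat.card (charDegrees G) = 3 := by
  obtain ⟨v, w, hvw⟩ : ∃ v w : degreePrimes G,
      ¬ ((degreeGraph G).induce (degreePrimes G)).Reachable v w := by
    obtain ⟨x, y, hxy, -⟩ := Nat.card_eq_two_iff.1 htwo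
    obtain ⟨v, rfl⟩ := x.exists_rep
    obtain ⟨w, rfl⟩ := y.exists_rep
    exact ⟨v, w, fun e => hxy (SimpleGraph.ConnectedComponent.sound e)⟩
  refine le_antisymm ?_ ?_
  · obtain ⟨a, b, h1⟩ | ⟨-, f, p, a, b, hp, ⟨ξ, hξ, hf⟩, h2⟩ := struct h
    · exact h1.card
    have h3 : ∀ χ, IsIrrCharacter G χ → charDegree χ ≠ 1 → charDegree χ ≠ f →
        ∃ e, charDegree χ = p ^ e := fun χ hχ h3 h4 => by
      obtain ⟨-, e, d, he, hd, h5⟩ := ((h2 χ hχ).resolve_left h3).resolve_left h4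
      by_cases h6 : d = 1
      · exact ⟨e, by rw [h5, h6, mul_one]⟩
      obtain ⟨r, hr, hrd⟩ := Nat.exists_prime_and_dvd h6
      have hpd : p ∣ charDegree χ := h5 ▸ (dvd_pow_self p he.ne').mul_right d
      have hrd' : r ∣ charDegree χ := h5 ▸ hrd.mul_left _
      have h7 : ∀ q : degreePrimes G, ((degreeGraph G).induce (degreePrimes G)).Reachable q
          ⟨p, hp, _, mem_charDegrees hχ, hpd⟩ := fun q => by
        obtain ⟨hq, _, ⟨ψ, rfl⟩, h7⟩ := q.2
        rcases h2 ψ ψ.2 with e1 | e1 | ⟨-, e', d', he', -, e1⟩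
        · exact absurd (e1 ▸ h7) hq.not_dvd_one
        · exact (degreeGraph_reachable (w := ⟨r, hr, _, mem_charDegrees hχ, hrd'⟩)
            (mem_charDegrees ψ.2) h7 (e1 ▸ hrd.trans hd)).trans
              (degreeGraph_reachable (mem_charDegrees hχ) hrd' hpd)
        · exact degreeGraph_reachable (mem_charDegrees ψ.2) h7
            (e1 ▸ (dvd_pow_self p he'.ne').mul_right d')
      exact absurd ((h7 v).trans (h7 w).symm) hvw
    by_cases h4 : ∃ χ, IsIrrCharacter G χ ∧ charDegree χ ≠ 1 ∧ charDegree χ ≠ f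
    · obtain ⟨η, hη, h5, h6⟩ := h4
      refine Three.card (a := f) (b := charDegree η) fun χ hχ =>
        or_iff_not_imp_left.2 fun h7 => or_iff_not_imp_left.2 fun h8 => ?_
      obtain ⟨e, he⟩ := h3 χ hχ h7 h8
      obtain ⟨e', he'⟩ := h3 η hη h5 h6
      rcases le_total e e' with h9 | h9
      · exact h χ η hχ hη h7 (he ▸ he' ▸ pow_dvd_pow p h9)
      · exact (h η χ hη hχ h5 (he ▸ he' ▸ pow_dvd_pow p h9)).symm
    · push Not at h4
      exact Three.card (a := f) (b := f) fun χ hχ =>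
        or_iff_not_imp_left.2 fun h7 => Or.inl (h4 χ hχ h7)
  · obtain ⟨hv, d, hd, hvd⟩ := v.2
    obtain ⟨hw, d', hd', hwd⟩ := w.2
    have h1 : d ≠ d' := by
      rintro rfl
      exact hvw (degreeGraph_reachable hd hvd hwd)
    have h2 : 1 ≠ d := fun e => hv.not_dvd_one (e ▸ hvd)
    have h3 : 1 ≠ d' := fun e => hw.not_dvd_one (e ▸ hwd)
    have h4 : (({1, d, d'} : Finset ℕ) : Set ℕ) ⊆ charDegrees G := by
      intro x hx
      simp only [Finset.coe_insert, Finset.coe_singleton, Set.mem_insert_iff,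
        Set.mem_singleton_iff] at hx
      rcases hx with rfl | rfl | rfl
      · exact deg_const_one (G := G) ▸ mem_charDegrees isIrrCharacter_one
      · exact hd
      · exact hd'
    have h5 := Set.ncard_le_ncard h4 (Set.finite_range fun χ : IrrCharacter G =>
      charDegree (χ : G → ℂ))
    rwa [Set.ncard_coe_finset, Finset.card_eq_three.2 ⟨1, d, d', h2, h3, h1, rfl⟩,
      ← Nat.card_coe_set_eq] at h5

end Cfsg.Lib.NDD
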