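import Cfsg.Agent.NDD.Defs
import Cfsg.Agent.S0752
import Mathlib.LinearAlgebra.SymplecticGroup
import Mathlib.FieldTheory.ChevalleyWarning
import Mathlib.Algebra.MvPolynomial.NoZeroDivisors

/-!
# A bound for spaces of non-degenerate alternating forms
-/

set_option autoImplicit false
set_option linter.unusedSectionVars false
set_option linter.unusedVariables false

namespace Cfsg.Lib.NDD

open Module Matrix

namespace Pfx

theorem sq_field {K n : Type*} [Field K] [Fintype n] [DecidableEq n] (M : Matrix n n K)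
    (h0 : ∀ i, M i i = 0) (h1 : ∀ i j, M j i = -M i j) : ∃ s, M.det = s ^ 2 := by
  have hA : (Matrix.toBilin' M).IsAlt := fun v => by
    rw [Matrix.toBilin'_apply, ← Finset.sum_product']
    refine Finset.sum_involution (fun q _ => q.swap) (fun q _ => ?_) (fun q _ h e => h ?_)
      (fun q _ => by simp) (fun q _ => rfl)
    · simp only [Prod.fst_swap, Prod.snd_swap]
      rw [h1 q.1 q.2]; ring
    · have : q.2 = q.1 := congrArg Prod.fst e
      rw [this, h0]; ring
  obtain ⟨m, k, b, e1, e2, e3, e4⟩ := Cfsg.Agent.S0752.result _ hA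
  let c := Pi.basisFun K n
  let e := b.indexEquiv c
  have h2 := LinearMap.BilinForm.toMatrix_mul_basis_toMatrix (b.reindex e) c (Matrix.toBilin' M)
  have h3 : LinearMap.BilinForm.toMatrix c (Matrix.toBilin' M) = M := by
    ext i j
    simp [c, LinearMap.BilinForm.toMatrix_apply, Matrix.toBilin'_single]
  have h4 : LinearMap.BilinForm.toMatrix (b.reindex e) (Matrix.toBilin' M) =
      (Matrix.fromBlocks (-Matrix.J (Fin m) K) 0 0 (0 : Matrix (Fin k) (Fin k) K)).submatrix
        e.symm e.symm := by
    ext i j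
    rw [LinearMap.BilinForm.toMatrix_apply, Basis.reindex_apply, Basis.reindex_apply,
      Matrix.submatrix_apply]
    generalize e.symm i = i
    generalize e.symm j = j
    rcases i with (i | i) | i
    · rcases j with (j | j) | j
      · simp [e2, Matrix.J]
      · simp [e1, Matrix.J, Matrix.one_apply]
      · rw [← hA.neg_eq, e4]; simp
    · rcases j with (j | j) | j
      · rw [← hA.neg_eq, e1]; simp [Matrix.J, Matrix.one_apply, eq_comm]
      · simp [e3, Matrix.J]
      · rw [← hA.neg_eq, e4]; simp
    · rw [e4]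
      rcases j with j | j <;> simp
  rw [h3, h4] at h2
  rw [← h2, det_mul, det_mul, det_transpose, det_submatrix_equiv_self, det_fromBlocks_zero₂₁,
    SymplecticGroup.det_eq_one (SymplecticGroup.neg_mem (SymplecticGroup.J_mem _ _)), one_mul]
  rcases isEmpty_or_nonempty (Fin k) with h | h
  · refine ⟨((b.reindex e).toMatrix c).det, ?_⟩
    rw [det_isEmpty (A := (0 : Matrix (Fin k) (Fin k) K)), mul_one, sq]
  · refine ⟨0, ?_⟩
    rw [det_zero]; ring

theorem sq_poly {F n σ : Type*} [Field F] [Fintype n] [DecidableEq n] [Finite σ]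
    (M : Matrix n n (MvPolynomial σ F)) (h0 : ∀ i, M i i = 0) (h1 : ∀ i j, M j i = -M i j) :
    ∃ s, M.det = s ^ 2 := by
  let K := FractionRing (MvPolynomial σ F)
  let φ := algebraMap (MvPolynomial σ F) K
  obtain ⟨s, hs⟩ := sq_field (φ.mapMatrix M) (fun i => by simp [h0])
    (fun i j => by simp [h1 i j])
  rw [← RingHom.map_det] at hs
  obtain ⟨g, hg⟩ := IsIntegrallyClosed.exists_algebraMap_eq_of_isIntegral_pow
    (R := MvPolynomial σ F) (K := K) (x := s) two_pos (hs ▸ isIntegral_algebraMap)
  exact ⟨g, IsFractionRing.injective _ K (by rw [map_pow, hg]; exact hs)⟩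

theorem deg_det {F n σ : Type*} [Field F] [Fintype n] [DecidableEq n]
    (M : Matrix n n (MvPolynomial σ F)) (h : ∀ i j, (M i j).IsHomogeneous 1) :
    M.det.IsHomogeneous (Fintype.card n) := by
  rw [det_apply']
  refine MvPolynomial.IsHomogeneous.sum _ _ _ fun τ _ => ?_
  have h1 := MvPolynomial.IsHomogeneous.prod Finset.univ (fun i => M (τ i) i) (fun _ => 1)
    fun i _ => h _ _
  have h2 := (MvPolynomial.isHomogeneous_C σ ((Equiv.Perm.sign τ : ℤ) : F)).mul h1
  simpa using h2

end Pfx

variable {F V W U : Type*} [Field F] [Finite F] [AddCommGroup V] [Module F V]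
  [FiniteDimensional F V] [AddCommGroup W] [Module F W] [FiniteDimensional F W]
  [AddCommGroup U] [Module F U] [FiniteDimensional F U]

theorem alt_neg {b : V →ₗ[F] V →ₗ[F] W} (alt : ∀ v, b v v = 0) (x y : V) : b y x = -b x y := by
  have := alt (x + y)
  simp only [map_add, LinearMap.add_apply, alt, zero_add, add_zero] at this
  exact eq_neg_of_add_eq_zero_left this

theorem ses_lin [Nontrivial V] (b : V →ₗ[F] V →ₗ[F] W) (alt : ∀ v, b v v = 0)
    (onto : ∀ v, v ≠ 0 → Function.Surjective (b v)) : 2 * finrank F W ≤ finrank F V := by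
  classical
  have := Fintype.ofFinite F
  let c := Module.finBasis F V
  let d := Module.finBasis F W
  let M : Matrix (Fin (finrank F V)) (Fin (finrank F V)) (MvPolynomial (Fin (finrank F W)) F) :=
    fun i j => ∑ t, MvPolynomial.C (d.repr (b (c i) (c j)) t) * MvPolynomial.X t
  obtain ⟨g, hg⟩ := Pfx.sq_poly M (fun i => by simp [M, alt]) (fun i j => by
    simp [M, alt_neg alt (c i) (c j)])
  have h1 := Pfx.deg_det M fun i j => MvPolynomial.IsHomogeneous.sum _ _ _ fun t _ => by
    simpa using (MvPolynomial.isHomogeneous_C _ (d.repr (b (c i) (c j)) t)).mul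
      (MvPolynomial.isHomogeneous_X F t)
  have h2 : ∀ x : Fin (finrank F W) → F, MvPolynomial.eval x g = 0 ↔ x = 0 := fun x => by
    let μ : W →ₗ[F] F := ∑ t, x t • d.coord t
    have hμ : ∀ w, μ w = ∑ t, d.repr w t * x t := fun w => by
      simp [μ, mul_comm]
    have h3 : (MvPolynomial.eval x).mapMatrix M =
        LinearMap.BilinForm.toMatrix c (b.compr₂ μ) := by
      ext i j
      change MvPolynomial.eval x (M i j) = _
      simp [M, LinearMap.BilinForm.toMatrix_apply, hμ]
    rw [← pow_eq_zero_iff (two_ne_zero), ← map_pow, ← hg, RingHom.map_det, h3, ← not_iff_not,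
      ← Ne, ← LinearMap.BilinForm.nondegenerate_iff_det_ne_zero]
    constructor
    · rintro h4 rfl
      obtain ⟨v, hv⟩ := exists_ne (0 : V)
      exact hv (h4.1 v fun y => by simp [hμ])
    · intro hx
      have h4 : ∀ v, (∀ y, μ (b v y) = 0) → v = 0 := fun v hv => by_contra fun h0 => hx <|
        funext fun t => by
          obtain ⟨y, hy⟩ := onto v h0 (d t)
          have := hv y
          rw [hy, hμ] at this
          simpa [Finsupp.single_apply] using this
      exact ⟨h4, fun v hv => h4 v fun y => by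
        rw [alt_neg alt y v, map_neg, neg_eq_zero]; exact hv y⟩
  by_contra h3
  have hk : 0 < finrank F W := by omega
  have hg0 : g ≠ 0 := by
    rintro rfl
    have := congrFun ((h2 fun _ => 1).1 (map_zero _)) ⟨0, hk⟩
    simp at this
  have h4 := h1.totalDegree_le
  rw [hg, sq, MvPolynomial.totalDegree_mul_of_isDomain hg0 hg0, Fintype.card_fin] at h4
  have h5 := char_dvd_card_solutions (ringChar F) (f := g) (by rw [Fintype.card_fin]; omega)
  have h6 : Fintype.card {x : Fin (finrank F W) → F // MvPolynomial.eval x g = 0} = 1 :=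
    Fintype.card_eq_one_iff.2 ⟨⟨0, (h2 0).2 rfl⟩, fun y => Subtype.ext ((h2 _).1 y.2)⟩
  rw [h6, Nat.dvd_one] at h5
  exact CharP.ringChar_ne_one h5

end Cfsg.Lib.NDD
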