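import Cfsg.Agent.NDD.Pf

/-!
# Sections as modules, commutator maps
-/

set_option autoImplicit false
set_option linter.unusedSectionVars false
set_option linter.unusedVariables false

namespace Cfsg.Lib.NDD

open Subgroup Module
open scoped commutatorElement

universe u

variable {G : Type u} [Group G] [Finite G] {p : ℕ}

theorem exists_sec [Fact p.Prime] {X Y : Subgroup G} (h : ⁅X, X⁆ ≤ Y) (hp : ∀ x ∈ X, x ^ p ∈ Y) :
    ∃ (M : Type u) (_ : AddCommGroup M) (_ : Module (ZMod p) M) (_ : Finite M) (χ : G → M),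
      Sec X Y χ := by
  classical
  have hc : commutator X ≤ Y.subgroupOf X :=
    (Cfsg.Lib.Char.Deg.commutator_le_subgroupOf_self X).trans (comap_mono h)
  have hn : (Y.subgroupOf X).Normal := ⟨fun n hn g => by
    have := (Y.subgroupOf X).mul_mem (hc (commutator_mem_commutator (mem_top g) (mem_top n))) hn
    simpa [commutatorElement_def] using this⟩
  have hq := Subgroup.Normal.quotient_commutative_iff_commutator_le.2 hc
  let _ : CommGroup (X ⧸ Y.subgroupOf X) :=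
    { (inferInstance : Group (X ⧸ Y.subgroupOf X)) with mul_comm := hq.is_comm.comm }
  refine ⟨Additive (X ⧸ Y.subgroupOf X), inferInstance, AddCommGroup.zmodModule fun m => ?_,
    inferInstance, fun a => if ha : a ∈ X then Additive.ofMul (QuotientGroup.mk ⟨a, ha⟩) else 0,
    fun a ha b hb => ?_, fun a ha => ?_, fun m => ?_⟩
  · obtain ⟨x, hx⟩ := QuotientGroup.mk_surjective m.toMul
    apply Additive.toMul.injective
    rw [toMul_nsmul, ← hx, ← QuotientGroup.mk_pow]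
    exact (QuotientGroup.eq_one_iff _).2 (hp x x.2)
  · simp only [dif_pos ha, dif_pos hb, dif_pos (X.mul_mem ha hb)]
    rfl
  · simp only [dif_pos ha]
    exact QuotientGroup.eq_one_iff (N := Y.subgroupOf X) (⟨a, ha⟩ : X)
  · obtain ⟨x, hx⟩ := QuotientGroup.mk_surjective m.toMul
    exact ⟨x, x.2, by simp only [dif_pos x.2]; exact congrArg Additive.ofMul hx⟩

section
variable {X Y : Subgroup G} {M : Type*} [AddCommGroup M] {χ : G → M}

theorem Sec.exists_hom (S : Sec X Y χ) :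
    ∃ φ : X →* Multiplicative M, ∀ x : X, φ x = Multiplicative.ofAdd (χ x) :=
  ⟨MonoidHom.mk' (fun x => Multiplicative.ofAdd (χ x)) fun a b =>
    congrArg Multiplicative.ofAdd (S.add a a.2 b b.2), fun _ => rfl⟩

theorem Sec.card (S : Sec X Y χ) : Nat.card M = Y.relIndex X := by
  obtain ⟨φ, hφ⟩ := S.exists_hom
  have h1 : φ.ker = Y.subgroupOf X := Subgroup.ext fun x => by
    rw [MonoidHom.mem_ker, hφ]
    exact S.ker x x.2
  have h2 : φ.range = ⊤ := eq_top_iff.2 fun m _ => by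
    obtain ⟨a, ha, e⟩ := S.surj m.toAdd
    exact ⟨⟨a, ha⟩, by rw [hφ]; exact congrArg Multiplicative.ofAdd e⟩
  rw [relIndex, ← h1, index_ker, h2, card_top]
  rfl

theorem Sec.finite (S : Sec X Y χ) : Finite M :=
  Nat.finite_of_card_ne_zero (S.card ▸ index_ne_zero_of_finite)

theorem Sec.one (S : Sec X Y χ) : χ 1 = 0 := (S.ker 1 X.one_mem).2 Y.one_mem

theorem Sec.inv (S : Sec X Y χ) {x : G} (hx : x ∈ X) : χ x⁻¹ = -χ x := by
  rw [eq_neg_iff_add_eq_zero, ← S.add _ (X.inv_mem hx) _ hx, inv_mul_cancel, S.one]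

theorem Sec.pow (S : Sec X Y χ) {x : G} (hx : x ∈ X) (n : ℕ) : χ (x ^ n) = n • χ x := by
  induction n with
  | zero => rw [pow_zero, zero_smul, S.one]
  | succ n ih => rw [pow_succ, S.add _ (X.pow_mem hx n) x hx, ih, succ_nsmul]

theorem Sec.eq_iff (S : Sec X Y χ) {x y : G} (hx : x ∈ X) (hy : y ∈ X) :
    χ x = χ y ↔ x⁻¹ * y ∈ Y := by
  rw [← S.ker _ (X.mul_mem (X.inv_mem hx) hy), S.add _ (X.inv_mem hx) _ hy, S.inv hx,
    neg_add_eq_zero]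

theorem Sec.card_pow [Fact p.Prime] [Module (ZMod p) M] (S : Sec X Y χ) :
    Y.relIndex X = p ^ finrank (ZMod p) M := by
  have := S.finite
  rw [← S.card, Module.natCard_eq_pow_finrank (K := ZMod p), Nat.card_zmod]

theorem Sec.lift [Module (ZMod p) M] (S : Sec X Y χ) {M' : Type*} [AddCommGroup M']
    [Module (ZMod p) M'] (f : G → M') (h1 : ∀ a ∈ X, ∀ b ∈ X, f (a * b) = f a + f b)
    (h2 : ∀ a ∈ X, a ∈ Y → f a = 0) : ∃ s : M →ₗ[ZMod p] M', ∀ x ∈ X, s (χ x) = f x := by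
  choose l hl hl' using S.surj
  have h3 : ∀ x ∈ X, f (l (χ x)) = f x := fun x hx => by
    have e := (S.eq_iff (hl _) hx).1 (hl' (χ x))
    have := h1 _ (hl (χ x)) _ (X.mul_mem (X.inv_mem (hl (χ x))) hx)
    rw [mul_inv_cancel_left, h2 _ (X.mul_mem (X.inv_mem (hl (χ x))) hx) e, add_zero] at this
    exact this.symm
  refine ⟨(AddMonoidHom.mk' (fun m => f (l m)) fun a b => ?_).toZModLinearMap p, h3⟩
  rw [← h1 _ (hl a) _ (hl b), ← h3 _ (X.mul_mem (hl a) (hl b)), S.add _ (hl a) _ (hl b), hl', hl']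

theorem Sec.exists_sub (S : Sec X Y χ) (T : AddSubgroup M) :
    ∃ H : Subgroup G, ∀ x, x ∈ H ↔ x ∈ X ∧ χ x ∈ T :=
  ⟨{ carrier := {x | x ∈ X ∧ χ x ∈ T}
     mul_mem' := fun {a b} ha hb => ⟨X.mul_mem ha.1 hb.1, by
       rw [S.add _ ha.1 _ hb.1]; exact T.add_mem ha.2 hb.2⟩
     one_mem' := ⟨X.one_mem, by rw [S.one]; exact T.zero_mem⟩
     inv_mem' := fun {a} ha => ⟨X.inv_mem ha.1, by rw [S.inv ha.1]; exact T.neg_mem ha.2⟩ },
    fun _ => Iff.rfl⟩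

theorem Sec.comp (S : Sec X Y χ) {M' : Type*} [AddCommGroup M'] (f : M →+ M')
    (hf : Function.Surjective f) {H : Subgroup G} (hH : ∀ x, x ∈ H ↔ x ∈ X ∧ f (χ x) = 0) :
    Sec X H fun x => f (χ x) :=
  ⟨fun a ha b hb => by rw [S.add a ha b hb, map_add], fun a ha => by rw [hH]; simp [ha],
    fun m => by
      obtain ⟨m, rfl⟩ := hf m
      obtain ⟨a, ha, rfl⟩ := S.surj m
      exact ⟨a, ha, rfl⟩⟩

theorem Sec.conj (S : Sec X Y χ) {A : Subgroup G} (hN : A ≤ normalizer (X : Set G))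
    (hc : ⁅X, A⁆ ≤ Y) {a z : G} (ha : a ∈ A) (hz : z ∈ X) : χ (a * z * a⁻¹) = χ z := by
  have h1 : a * z * a⁻¹ ∈ X := (mem_normalizer_iff.1 (hN ha) z).1 hz
  rw [eq_comm, S.eq_iff hz h1]
  have := hc (commutator_mem_commutator (X.inv_mem hz) ha)
  convert this using 1
  group

end

theorem exists_bil [Fact p.Prime] {A X₁ Y₁ X₂ Y₂ X₃ Y₃ : Subgroup G} {M₁ M₂ M₃ : Type*}
    [AddCommGroup M₁] [Module (ZMod p) M₁] [AddCommGroup M₂] [Module (ZMod p) M₂]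
    [AddCommGroup M₃] [Module (ZMod p) M₃] {χ₁ : G → M₁} {χ₂ : G → M₂} {χ₃ : G → M₃}
    (S₁ : Sec X₁ Y₁ χ₁) (S₂ : Sec X₂ Y₂ χ₂) (S₃ : Sec X₃ Y₃ χ₃) (h₁ : X₁ ≤ A) (h₂ : X₂ ≤ A)
    (hN : A ≤ normalizer (X₃ : Set G)) (hc : ⁅X₃, A⁆ ≤ Y₃) (h12 : ⁅X₁, X₂⁆ ≤ X₃)
    (hY₁ : ⁅X₁ ⊓ Y₁, X₂⁆ ≤ Y₃) (hY₂ : ⁅X₁, X₂ ⊓ Y₂⁆ ≤ Y₃) :
    ∃ b : M₁ →ₗ[ZMod p] M₂ →ₗ[ZMod p] M₃, ∀ x ∈ X₁, ∀ y ∈ X₂, b (χ₁ x) (χ₂ y) = χ₃ ⁅x, y⁆ := by
  classical
  have hm : ∀ x ∈ X₁, ∀ y ∈ X₂, ⁅x, y⁆ ∈ X₃ := fun x hx y hy =>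
    h12 (commutator_mem_commutator hx hy)
  have h3 : ∀ a ∈ A, ∀ z ∈ X₃, a * z * a⁻¹ ∈ X₃ := fun a ha z hz =>
    (mem_normalizer_iff.1 (hN ha) z).1 hz
  have h4 : ∀ y, ∃ s : M₁ →ₗ[ZMod p] M₃, y ∈ X₂ → ∀ x ∈ X₁, s (χ₁ x) = χ₃ ⁅x, y⁆ := fun y => by
    by_cases hy : y ∈ X₂
    · obtain ⟨s, hs⟩ := S₁.lift (p := p) (fun x => χ₃ ⁅x, y⁆) (fun a ha b hb => by
        rw [show ⁅a * b, y⁆ = a * ⁅b, y⁆ * a⁻¹ * ⁅a, y⁆ by group,
          S₃.add _ (h3 a (h₁ ha) _ (hm b hb y hy)) _ (hm a ha y hy),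
          S₃.conj hN hc (h₁ ha) (hm b hb y hy), add_comm])
        fun a ha ha' => (S₃.ker _ (hm a ha y hy)).2 (hY₁ (commutator_mem_commutator ⟨ha, ha'⟩ hy))
      exact ⟨s, fun _ => hs⟩
    · exact ⟨0, fun h => absurd h hy⟩
  choose s hs using h4
  obtain ⟨b, hb⟩ := S₂.lift (p := p) s (fun a ha b hb => LinearMap.ext fun m => by
      obtain ⟨x, hx, rfl⟩ := S₁.surj m
      rw [LinearMap.add_apply, hs _ (X₂.mul_mem ha hb) x hx, hs a ha x hx, hs b hb x hx,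
        show ⁅x, a * b⁆ = ⁅x, a⁆ * (a * ⁅x, b⁆ * a⁻¹) by group,
        S₃.add _ (hm x hx a ha) _ (h3 a (h₂ ha) _ (hm x hx b hb)),
        S₃.conj hN hc (h₂ ha) (hm x hx b hb)])
    fun a ha ha' => LinearMap.ext fun m => by
      obtain ⟨x, hx, rfl⟩ := S₁.surj m
      rw [hs a ha x hx]
      exact (S₃.ker _ (hm x hx a ha)).2 (hY₂ (commutator_mem_commutator hx ⟨ha, ha'⟩))
  exact ⟨b.flip, fun x hx y hy => by rw [LinearMap.flip_apply, hb y hy, hs y hy x hx]⟩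

theorem le_normalizer_of_comm {H Z : Subgroup G} (h : ⁅H, Z⁆ ≤ Z) : H ≤ normalizer (Z : Set G) :=
  fun a ha => mem_normalizer_fintype fun z hz => by
    have := Z.mul_mem (h (commutator_mem_commutator ha hz)) hz
    simpa [commutatorElement_def] using this

theorem ses (hp : p.Prime) {H T Z Y : Subgroup G} (hTH : T < H) (hZT : Z ≤ T) (hH : ⁅H, H⁆ ≤ Z)
    (hT : ⁅T, H⁆ ≤ Y) (p1 : ∀ x ∈ H, x ^ p ∈ T) (p2 : ∀ z ∈ Z, z ^ p ∈ Y)
    (onto : ∀ x ∈ H, x ∉ T → ∀ z ∈ Z, ∃ y ∈ H, (⁅x, y⁆)⁻¹ * z ∈ Y) :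
    Y.relIndex Z ^ 2 ≤ T.relIndex H := by
  have := Fact.mk hp
  have hZH : Z ≤ H := hZT.trans hTH.le
  obtain ⟨V, _, _, _, χ₁, S₁⟩ := exists_sec (p := p) (hH.trans hZT) p1
  obtain ⟨W, _, _, _, χ₂, S₂⟩ := exists_sec (p := p)
    ((commutator_mono hZT hZH).trans hT) p2
  obtain ⟨b, hb⟩ := exists_bil (p := p) S₁ S₁ S₂ le_rfl le_rfl
    (le_normalizer_of_comm ((commutator_mono le_rfl hZH).trans hH))
    ((commutator_mono hZT le_rfl).trans hT) hH ((commutator_mono inf_le_right le_rfl).trans hT)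
    (by rw [commutator_comm]; exact (commutator_mono inf_le_right le_rfl).trans hT)
  obtain ⟨x, hx, hx'⟩ := SetLike.exists_of_lt hTH
  have : Nontrivial V := nontrivial_of_ne (χ₁ x) 0 (mt (S₁.ker x hx).1 hx')
  have h1 := ses_lin b (fun v => by
      obtain ⟨x, hx, rfl⟩ := S₁.surj v
      rw [hb x hx x hx, commutatorElement_self, S₂.one])
    fun v hv w => by
      obtain ⟨x, hx, rfl⟩ := S₁.surj v
      obtain ⟨z, hz, rfl⟩ := S₂.surj w
      obtain ⟨y, hy, e⟩ := onto x hx (mt (S₁.ker x hx).2 hv) z hz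
      exact ⟨χ₁ y, by
        rw [hb x hx y hy]
        exact (S₂.eq_iff (hH (commutator_mem_commutator hx hy)) hz).2 e⟩
  rw [S₁.card_pow (p := p), S₂.card_pow (p := p), ← pow_mul, mul_comm]
  exact Nat.pow_le_pow_right hp.pos h1

end Cfsg.Lib.NDD
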